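import Cfsg.Agent.LT.Model

/-! Frames of conjugates of `L` (notes/LX.md, section Base). -/

set_option autoImplicit false

namespace Cfsg.Agent.LT

open Subgroup H29 LS
open scoped commutatorElement

variable {G : Type*} [Group G] {ι ι' ι'' : P →* G}

theorem cj_apply (g : G) (p : P) : cj g ι p = g * ι p * g⁻¹ := rfl

theorem tw_apply (β : MulAut P) (p : P) : tw ι β p = ι (β p) := rfl

theorem Fr.refl (ι : P →* G) : Fr ι ι := ⟨1, 1, MonoidHom.ext fun p => by simp [cj_apply, tw_apply]⟩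

theorem Fr.symm (f : Fr ι ι') : Fr ι' ι := by
  obtain ⟨g, β, rfl⟩ := f
  exact ⟨g⁻¹, β⁻¹, MonoidHom.ext fun p => by simp [cj_apply, tw_apply, mul_assoc]⟩

theorem Fr.trans (f : Fr ι ι') (f' : Fr ι' ι'') : Fr ι ι'' := by
  obtain ⟨g, β, rfl⟩ := f
  obtain ⟨g', β', rfl⟩ := f'
  exact ⟨g' * g, β * β', MonoidHom.ext fun p => by simp [cj_apply, tw_apply, mul_assoc]⟩

theorem Fr.cj (ι : P →* G) (g : G) : Fr ι (cj g ι) :=
  ⟨g, 1, MonoidHom.ext fun p => by simp [cj_apply, tw_apply]⟩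

theorem Fr.tw (ι : P →* G) (β : MulAut P) : Fr ι (tw ι β) :=
  ⟨1, β, MonoidHom.ext fun p => by simp [cj_apply, tw_apply]⟩

theorem range_tw (β : MulAut P) : (tw ι β).range = ι.range := by
  ext x
  constructor
  · rintro ⟨p, rfl⟩
    exact ⟨β p, rfl⟩
  · rintro ⟨p, rfl⟩
    exact ⟨β⁻¹ p, by simp [tw_apply]⟩

theorem mem_range_cj {g x : G} : x ∈ (cj g ι).range ↔ g⁻¹ * x * g ∈ ι.range := by
  constructor
  · rintro ⟨p, rfl⟩
    exact ⟨p, by simp [cj_apply, mul_assoc]⟩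
  · rintro ⟨p, e⟩
    exact ⟨p, by simp [cj_apply, e, mul_assoc]⟩

theorem mem_Kc {k : G} : k ∈ Kc ι ↔ ∀ p, Commute k (ι p) := by
  rw [mem_centralizer_iff]
  constructor
  · intro h p
    exact (h _ ⟨p, rfl⟩).symm
  · rintro h _ ⟨p, rfl⟩
    exact (h p).symm

theorem mem_Kc_cj {g k : G} : k ∈ Kc (cj g ι) ↔ g⁻¹ * k * g ∈ Kc ι := by
  simp only [mem_Kc, cj_apply]
  refine forall_congr' fun p => ⟨fun h => ?_, fun h => ?_⟩
  · simpa [mul_assoc] using h.conj g⁻¹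
  · simpa [mul_assoc] using h.conj g

theorem mem_Nn_cj {g n : G} : n ∈ Nn (cj g ι) ↔ g⁻¹ * n * g ∈ Nn ι := by
  simp only [mem_normalizer_iff, mem_range_cj]
  constructor
  · intro h x
    simpa [mul_assoc] using h (g * x * g⁻¹)
  · intro h x
    simpa [mul_assoc] using h (g⁻¹ * x * g)

theorem Kc_le_Nn : Kc ι ≤ Nn ι := centralizer_le_normalizer _

theorem mem_Nn_self (p : P) : ι p ∈ Nn ι := le_normalizer (show ι p ∈ ι.range from ⟨p, rfl⟩)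

theorem Kc_conj {n k : G} (hn : n ∈ Nn ι) (hk : k ∈ Kc ι) : n * k * n⁻¹ ∈ Kc ι := by
  refine mem_Kc.2 fun p => ?_
  obtain ⟨q, e⟩ := (mem_normalizer_iff.1 (inv_mem hn) (ι p)).1 ⟨p, rfl⟩
  simpa [e, mul_assoc] using (mem_Kc.1 hk q).conj n

theorem mem_Nn_of_aut {n : G} (β : MulAut P) (h : ∀ p, n * ι p * n⁻¹ = ι (β p)) : n ∈ Nn ι := by
  refine mem_normalizer_iff.2 fun x => ⟨?_, ?_⟩
  · rintro ⟨p, rfl⟩
    exact ⟨β p, (h p).symm⟩
  · rintro ⟨p, e⟩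
    refine ⟨β⁻¹ p, ?_⟩
    have := h (β⁻¹ p)
    rw [MulAut.apply_inv_self, e] at this
    simpa using this

theorem Kc_tw (β : MulAut P) : Kc (tw ι β) = Kc ι := by rw [Kc, range_tw]

theorem Nn_tw (β : MulAut P) : Nn (tw ι β) = Nn ι := by rw [Nn, range_tw]

theorem Hy.fr (h : Hy ι) (f : Fr ι ι') : Hy ι' := by
  obtain ⟨g, β, rfl⟩ := f
  refine ⟨fun p q e => β.injective (h.inj (by simpa [cj_apply, tw_apply] using e)),
    fun x k hk k2 k1 hx => ?_, fun x c => h.std (g⁻¹ * x * g) fun p p' => ?_, ?_⟩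
  · rw [mem_Kc_cj, Kc_tw] at hk hx
    rw [mem_Nn_cj, Nn_tw]
    refine h.ti _ _ hk (by simp [mul_assoc, ← mul_assoc k, k2]) (fun e => k1 ?_)
      (by simpa [mul_assoc] using hx)
    simpa [mul_assoc, mul_eq_one_iff_eq_inv] using congrArg (fun y => g * y * g⁻¹) e
  · simpa [cj_apply, tw_apply, mul_assoc] using (c (β⁻¹ p) (β⁻¹ p')).conj g⁻¹
  · obtain ⟨k, hk, k2, k1⟩ := h.ev
    refine ⟨g * k * g⁻¹, ?_, by rw [conj_mul, k2, mul_one, mul_inv_cancel], by simpa [mul_inv_eq_one] using k1⟩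
    rw [mem_Kc_cj, Kc_tw]
    simpa [mul_assoc] using hk

/-- the action of `N` on `L` -/
noncomputable def Hy.phi (h : Hy ι) : Nn ι →* MulAut P :=
  (MulAut.congr (MonoidHom.ofInjective h.inj).symm).toMonoidHom.comp ι.range.normalizerMonoidHom

theorem Hy.phi_spec (h : Hy ι) (n : Nn ι) (p : P) : (n : G) * ι p * (n : G)⁻¹ = ι (h.phi n p) :=
  (MonoidHom.apply_ofInjective_symm h.inj
    (ι.range.normalizerMonoidHom n (MonoidHom.ofInjective h.inj p))).symm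

theorem Hy.aut (h : Hy ι) {n : G} (hn : n ∈ Nn ι) :
    ∃ β : MulAut P, ∀ p, n * ι p * n⁻¹ = ι (β p) := ⟨h.phi ⟨n, hn⟩, h.phi_spec ⟨n, hn⟩⟩

namespace B24

theorem u_conj (x y z a b c : F) : u x y z * u a b c * (u x y z)⁻¹ = u a b (c + x * b + a * y) := by
  have t : (2 : F) = 0 := by decide
  rw [LT.M49.u_inv, u_mul, u_mul]
  congr 1
  · linear_combination x * t
  · linear_combination y * t
  · linear_combination (z + x * y) * t

theorem comm_u {x y z a b c : F} (h : Commute (u x y z) (u a b c)) : x * b = a * y := by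
  have := h.eq
  rw [u_mul, u_mul] at this
  linear_combination (u_inj this).2.2

theorem comm_uz (a b c d : F) : Commute (u a b c) (u 0 0 d) := by
  rw [Commute, SemiconjBy, u_mul, u_mul]
  simp [add_comm]

theorem cent_c {p : P} {c : F} (hc : c ≠ 0) (h : Commute p (u 0 0 c)) :
    ∃ a b d, ∃ y ∈ center P, p = u a b d * y := by
  have := (h.map pr).map (LS.dg (Units.mk0 c hc)⁻¹ 1)
  rw [pr_u, LS.dg_u] at this
  simp only [mul_zero, Units.val_one, mul_one, Units.val_inv_eq_inv_val, Units.val_mk0,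
    inv_mul_cancel₀ hc] at this
  obtain ⟨a, b, d, e⟩ := LS.cent_z this
  refine ⟨c * a, b, c * d, pr_eq ((LS.dg (Units.mk0 c hc)⁻¹ 1).injective ?_)⟩
  rw [e, pr_u, LS.dg_u]
  simp [hc]

theorem cent_c2 {p : P} {c : F} (hc : c ≠ 0) (h : Commute p (u 0 0 c)) {n : ℕ} (hp : p ^ 2 ^ n = 1) :
    ∃ a b d, p = u a b d := by
  obtain ⟨a, b, d, y, hy, e⟩ := cent_c hc h
  exact ⟨a, b, d, eq_u (by rw [e, map_mul, pr_eq_one.2 hy, mul_one, pr_u]) hp⟩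

theorem act (l m : Fˣ) (x : SA) (a b c : F) : dg l m (x.autS (u a b c)) =
    u (l * SA.fz x.j (cond x.k b a)) (m * SA.fz x.j (cond x.k a b))
      (l * m * (SA.fz x.j (cond x.k (c + a * b) c) + x.a * SA.fz x.j (cond x.k a b) +
        SA.fz x.j (cond x.k b a) * x.b)) := by
  rw [LT.A49.aut_eq, MulAut.mul_apply, LT.A49.ph_u, MulAut.conj_apply, u_conj, dg_u]
  rfl

theorem inner {n : G} {q : P} (e : ∀ p, n * ι p * n⁻¹ = ι (q * p * q⁻¹)) :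
    ∃ k ∈ Kc ι, n = ι q * k := by
  refine ⟨(ι q)⁻¹ * n, mem_Kc.2 fun p => ?_, by simp⟩
  have := e p
  rw [map_mul, map_mul, map_inv] at this
  rw [Commute, SemiconjBy, mul_assoc, show n * ι p = ι q * ι p * (ι q)⁻¹ * n by rw [← this]; simp]
  simp [mul_assoc]

theorem comm_of (h : Hy ι) {q p : P} {k : G} (hk : k ∈ Kc ι) (c : Commute (ι q * k) (ι p)) :
    Commute q p := by
  have := c.mul_left (mem_Kc.1 hk p).inv_left
  rw [mul_inv_cancel_right] at this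
  exact h.inj (by rw [map_mul, map_mul]; exact this)

theorem inT_aut {x : SA} (hx : x.inT) (p : P) : x.autS p = u x.a x.b x.c * p * (u x.a x.b x.c)⁻¹ := by
  rw [SA.autS, hx.1, hx.2]
  simp

theorem fin {n : G} {l m : Fˣ} {x : SA} (e : ∀ p, n * ι p * n⁻¹ = ι (dg l m (x.autS p)))
    (k : (l : F) = 1 ∧ (m : F) = 1 ∧ x.j = false ∧ x.k = false) :
    ∃ a b c, ∃ k ∈ Kc ι, n = ι (u a b c) * k := by
  rw [Units.val_eq_one.1 k.1, Units.val_eq_one.1 k.2.1, dg_one] at e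
  exact ⟨_, _, _, inner fun p => by rw [e, inT_aut k.2.2]; rfl⟩

theorem nT0 {n : G} (e : ∀ a b, ∃ a' b' c', n * ι (u a b 0) * n⁻¹ = ι (u a' b' c')) (a b c : F) :
    ∃ a' b' c', n * ι (u a b c) * n⁻¹ = ι (u a' b' c') := by
  obtain ⟨a1, b1, c1, e1⟩ := e a b
  obtain ⟨a2, b2, c2, e2⟩ := e c 1
  have : u a b c = u a b 0 * (u c 1 0 * u c 1 0) := by
    rw [u_mul, u_mul, SA.two, SA.two]
    simp
  rw [this, map_mul, map_mul, ← conj_mul, ← conj_mul, e1, e2, ← map_mul, ← map_mul, u_mul, u_mul]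
  exact ⟨_, _, _, rfl⟩

end B24

open LT.B24

theorem Hy.LK (h : Hy ι) {p : P} (hp : ι p ∈ Kc ι) : p ∈ center P := mem_center_iff.2 fun q =>
    h.inj (by rw [map_mul, map_mul]; exact (mem_Kc.1 hp q).symm)

theorem Hy.LK2 (h : Hy ι) {p : P} (hp : ι p ∈ Kc ι) {n : ℕ} (e : p ^ 2 ^ n = 1) : p = 1 := cen_two (h.LK hp) e

theorem Hy.LK1 (h : Hy ι) {p : P} (hp : ι p ∈ Kc ι) (e : p * p = 1) : p = 1 := cen_sq (h.LK hp) e

theorem Hy.LKu (h : Hy ι) {a b c : F} (hp : ι (u a b c) ∈ Kc ι) : u a b c = 1 := u_central (h.LK hp)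

theorem cen_Kc {y : P} (hy : y ∈ center P) : ι y ∈ Kc ι := mem_Kc.2 fun p => ((cen_comm hy p).map ι).symm

/-- normalise a decomposition of a `2`-element of `L K` -/
theorem Hy.nrm (h : Hy ι) {p : P} {k : G} (hk : k ∈ Kc ι) {n : ℕ} (e : (ι p * k) ^ 2 ^ n = 1) :
    ∃ p', ∃ k' ∈ Kc ι, ι p * k = ι p' * k' ∧ p' ^ 2 ^ n = 1 ∧ k' ^ 2 ^ n = 1 := by
  have c := (mem_Kc.1 hk p).symm
  have hy : p ^ 2 ^ n ∈ center P := h.LK (by
    rw [c.mul_pow, ← map_pow] at e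
    exact eq_inv_of_mul_eq_one_left e ▸ inv_mem (pow_mem hk _))
  have hz := pow_mem hy (2 ^ n)
  have e1 : (p * ((p ^ 2 ^ n) ^ 2 ^ n)⁻¹) ^ 2 ^ n = 1 := by
    rw [(cen_comm (inv_mem hz) p).mul_pow, inv_pow, ← pow_mul (p ^ 2 ^ n), mul_inv_eq_one]
    generalize p ^ 2 ^ n = y at hy
    have : 2 ^ n * 2 ^ n % 3 = 1 := by rw [← mul_pow, Nat.pow_mod]; simp
    rw [← Nat.div_add_mod (2 ^ n * 2 ^ n) 3, this, pow_succ, pow_mul, cen_cube hy, one_pow, one_mul]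
  have e2 : ι p * k = ι (p * ((p ^ 2 ^ n) ^ 2 ^ n)⁻¹) * (ι ((p ^ 2 ^ n) ^ 2 ^ n) * k) := by
    rw [map_mul, map_inv]; group
  have hk' := mul_mem (cen_Kc (ι := ι) hz) hk
  refine ⟨_, _, hk', e2, e1, ?_⟩
  rwa [e2, (mem_Kc.1 hk' _).symm.mul_pow, ← map_pow, e1, map_one, one_mul] at e

theorem Hy.nrm1 (h : Hy ι) {p : P} {k : G} (hk : k ∈ Kc ι) (e : ι p * k * (ι p * k) = 1) :
    ∃ p', ∃ k' ∈ Kc ι, ι p * k = ι p' * k' ∧ p' * p' = 1 ∧ k' * k' = 1 := by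
  simpa only [pow_one, pow_two] using h.nrm hk (n := 1) (by rwa [pow_one, pow_two])

theorem Hy.same (h : Hy ι) (f : Fr ι ι') {k : G} (hk : k ∈ Kc ι) (hk' : k ∈ Kc ι') (k2 : k * k = 1)
    (k1 : k ≠ 1) : ι'.range = ι.range := by
  obtain ⟨g, β, rfl⟩ := f
  rw [mem_Kc_cj, Kc_tw] at hk'
  have := h.ti g⁻¹ k hk k2 k1 (by rwa [inv_inv])
  ext x
  rw [mem_range_cj, range_tw, mem_normalizer_iff.1 this x, inv_inv]

theorem Hy.cent (h : Hy ι) {k n : G} (hk : k ∈ Kc ι) (k2 : k * k = 1) (k1 : k ≠ 1)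
    (c : Commute n k) : n ∈ Nn ι := h.ti n k hk k2 k1 (by rwa [c.mul_inv_cancel])

theorem Hy.ncomm (h : Hy ι) (f : Fr ι ι') : ¬ ∀ p, ι' p ∈ Kc ι := by
  obtain ⟨g, β, rfl⟩ := f
  refine fun c => h.std g fun p p' => ?_
  simpa [cj_apply, tw_apply] using (mem_Kc.1 (c (β⁻¹ p')) p).symm

theorem DD.conj {d : G} (h : DD ι d) (g : G) : DD ι (g * d * g⁻¹) := by
  obtain ⟨d2, d1, x, hx⟩ := h
  exact ⟨by rw [conj_mul, d2, mul_one, mul_inv_cancel], by simpa [mul_inv_eq_one] using d1,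
    x * g⁻¹, by simpa [mul_assoc] using hx⟩

theorem DD.fr {d : G} (h : DD ι d) (f : Fr ι ι') : DD ι' d := by
  obtain ⟨g, β, rfl⟩ := f
  obtain ⟨d2, d1, x, hx⟩ := h
  refine ⟨d2, d1, g * x, ?_⟩
  rw [mem_Kc_cj, Kc_tw]
  simpa [mul_assoc] using hx

theorem DD.of_mem (f : Fr ι ι') {k : G} (hk : k ∈ Kc ι') (k2 : k * k = 1) (k1 : k ≠ 1) : DD ι k :=
  DD.fr ⟨k2, k1, 1, by simpa using hk⟩ f.symm

theorem DD.exists_fr {d : G} (h : DD ι d) : ∃ g, d ∈ Kc (cj g ι) := by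
  obtain ⟨-, -, x, hx⟩ := h
  exact ⟨x⁻¹, mem_Kc_cj.2 (by rwa [inv_inv])⟩

/-- elements of `N` that centralise `z` normalise `T` -/
theorem Hy.zT (h : Hy ι) {n : G} (hn : n ∈ Nn ι) {c : F} (hc : c ≠ 0) (e : Commute n (ι (u 0 0 c)))
    (a b d : F) : ∃ a' b' d', n * ι (u a b d) * n⁻¹ = ι (u a' b' d') := by
  obtain ⟨β, hβ⟩ := h.aut hn
  have e1 : β (u 0 0 c) = u 0 0 c := h.inj (by rw [← hβ, e.mul_inv_cancel])
  obtain ⟨a', b', d', e2⟩ := cent_c2 hc (p := β (u a b d)) (by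
    rw [← e1]; exact (comm_uz a b d c).map β) (aut_four β a b d)
  exact ⟨a', b', d', by rw [hβ, e2]⟩

theorem Hy.nT (h : Hy ι) {n : G} (hn : n ∈ Nn ι)
    (e : ∀ a b c, ∃ a' b' c', n * ι (u a b c) * n⁻¹ = ι (u a' b' c')) :
    ∃ (l m : Fˣ) (x : SA), ∀ p, n * ι p * n⁻¹ = ι (dg l m (x.autS p)) := by
  obtain ⟨β, hβ⟩ := h.aut hn
  obtain ⟨l, m, x, rfl⟩ := aut_T β fun a b c => by
    obtain ⟨a', b', c', e'⟩ := e a b c
    exact ⟨a', b', c', h.inj (by rw [← hβ, e'])⟩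
  exact ⟨l, m, x, hβ⟩

/-- trivial on `T / Z` -/
theorem Hy.cT (h : Hy ι) {n : G} (hn : n ∈ Nn ι)
    (e : ∀ a b, ∃ c', n * ι (u a b 0) * n⁻¹ = ι (u a b c')) :
    ∃ a b c, ∃ k ∈ Kc ι, n = ι (u a b c) * k := by
  obtain ⟨l, m, x, hx⟩ := h.nT hn (nT0 fun a b => ⟨a, b, e a b⟩)
  refine fin hx ((by decide +kernel : ∀ (l m : F) (j k : Bool), (∀ a b : F,
    l * SA.fz j (cond k b a) = a ∧ m * SA.fz j (cond k a b) = b) →
      l = 1 ∧ m = 1 ∧ j = false ∧ k = false) _ _ _ _ fun a b => ?_)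
  obtain ⟨c', e'⟩ := e a b
  rw [hx, act] at e'
  exact ⟨(u_inj (h.inj e')).1, (u_inj (h.inj e')).2.1⟩

theorem Hy.cenT (h : Hy ι) {n : G} (hn : n ∈ Nn ι) (e : ∀ a b c, Commute n (ι (u a b c))) :
    ∃ c, ∃ k ∈ Kc ι, n = ι (u 0 0 c) * k := by
  obtain ⟨a, b, c, k, hk, rfl⟩ := h.cT hn fun a b => ⟨0, (e a b 0).mul_inv_cancel⟩
  have e1 := comm_u (comm_of h hk (e 0 1 0))
  have e2 := comm_u (comm_of h hk (e 1 0 0))
  rw [mul_one, zero_mul] at e1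
  rw [mul_zero, one_mul] at e2
  exact ⟨c, k, hk, by rw [e1, ← e2]⟩

/-- trivial on `Z` and on `V₁ / Z` -/
theorem Hy.cV (h : Hy ι) {n : G} (hn : n ∈ Nn ι) (eZ : ∀ c, Commute n (ι (u 0 0 c)))
    (e : ∀ a, ∃ c', n * ι (u a 0 0) * n⁻¹ = ι (u a 0 c')) :
    ∃ a b c, ∃ k ∈ Kc ι, n = ι (u a b c) * k := by
  obtain ⟨l, m, x, hx⟩ := h.nT hn (h.zT hn one_ne_zero (eZ 1))
  refine fin hx ((by decide +kernel : ∀ (l m : F) (j k : Bool) (xa xb : F),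
    (∀ a : F, l * SA.fz j (cond k 0 a) = a) →
    (∀ c : F, l * m * (SA.fz j (cond k (c + 0 * 0) c) + xa * SA.fz j (cond k 0 0) +
        SA.fz j (cond k 0 0) * xb) = c) →
      l = 1 ∧ m = 1 ∧ j = false ∧ k = false) _ _ _ _ x.a x.b (fun a => ?_) fun c => ?_)
  · obtain ⟨c', e'⟩ := e a
    rw [hx, act] at e'
    exact (u_inj (h.inj e')).1
  · have e' := (eZ c).mul_inv_cancel
    rw [hx, act] at e'
    exact (u_inj (h.inj e')).2.2

theorem Hy.cenV (h : Hy ι) {n : G} (hn : n ∈ Nn ι) (e : ∀ a c, Commute n (ι (u a 0 c))) :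
    ∃ a c, ∃ k ∈ Kc ι, n = ι (u a 0 c) * k := by
  obtain ⟨a, b, c, k, hk, rfl⟩ := h.cV hn (e 0) fun a => ⟨0, (e a 0).mul_inv_cancel⟩
  have e2 := comm_u (comm_of h hk (e 1 0))
  rw [mul_zero, one_mul] at e2
  exact ⟨a, c, k, hk, by rw [← e2]⟩

/-- trivial on `Z`, exchanging the coordinates of `T / Z` -/
theorem Hy.cG (h : Hy ι) {n : G} (hn : n ∈ Nn ι)
    (e : ∀ a b, ∃ c', n * ι (u a b 0) * n⁻¹ = ι (u b a c')) :
    ∃ a b c, ∀ p, ι (u a b c) * n * ι p * (ι (u a b c) * n)⁻¹ = ι (gr p) := by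
  obtain ⟨l, m, x, hx⟩ := h.nT hn (nT0 fun a b => ⟨b, a, e a b⟩)
  obtain ⟨hl, hm, hj, hk⟩ := (by decide +kernel : ∀ (l m : F) (j k : Bool), (∀ a b : F,
    l * SA.fz j (cond k b a) = b ∧ m * SA.fz j (cond k a b) = a) →
      l = 1 ∧ m = 1 ∧ j = false ∧ k = true) l m x.j x.k fun a b => by
    obtain ⟨c', e'⟩ := e a b
    rw [hx, act] at e'
    exact ⟨(u_inj (h.inj e')).1, (u_inj (h.inj e')).2.1⟩
  rw [Units.val_eq_one.1 hl, Units.val_eq_one.1 hm, dg_one, SA.autS, hj, hk] at hx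
  refine ⟨x.a, x.b, x.c + x.a * x.b, fun p => ?_⟩
  rw [← LT.M49.u_inv, mul_inv_rev, mul_assoc, mul_assoc, ← mul_assoc (ι p), ← mul_assoc n, ← mul_assoc n, hx]
  simp [mul_assoc]

theorem Hy.inner_comm [Finite G] (h : Hy ι) {x y : G} (hx : x ∈ Nn ι) (hy : y ∈ Nn ι) {n : ℕ}
    (e : ⁅x, y⁆ ^ 2 ^ n = 1) : ∃ p, ∃ k ∈ Kc ι, ⁅x, y⁆ = ι p * k := by
  obtain ⟨p, hp⟩ := LT.inner_comm (β := h.phi ⁅(⟨x, hx⟩ : Nn ι), ⟨y, hy⟩⁆) (n := n) (by
    rw [map_commutatorElement]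
    exact commutator_mem_commutator (mem_top _) (mem_top _)) (by
    rw [← map_pow, show ⁅(⟨x, hx⟩ : Nn ι), (⟨y, hy⟩ : Nn ι)⁆ ^ 2 ^ n = 1 from Subtype.ext e, map_one])
  exact ⟨p, inner fun q => (h.phi_spec ⁅(⟨x, hx⟩ : Nn ι), ⟨y, hy⟩⁆ q).trans (by rw [hp]; rfl)⟩

theorem Hy.inner_sq [Finite G] (h : Hy ι) {x : G} (hx : x ∈ Nn ι) {n : ℕ}
    (e : (x * x) ^ 2 ^ n = 1) : ∃ p, ∃ k ∈ Kc ι, x * x = ι p * k := by
  obtain ⟨p, hp⟩ := LT.inner_sq (h.phi ⟨x, hx⟩) (n := n) (by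
    rw [← map_mul, ← map_pow, show ((⟨x, hx⟩ : Nn ι) * ⟨x, hx⟩) ^ 2 ^ n = 1 from Subtype.ext e, map_one])
  exact ⟨p, inner fun q => (h.phi_spec ((⟨x, hx⟩ : Nn ι) * ⟨x, hx⟩) q).trans (by rw [map_mul, hp]; rfl)⟩

theorem aut_T0 (β : MulAut P) : ∃ (p : P) (l m : Fˣ) (x : SA), β = MulAut.conj p * dg l m * x.autS := by
  have : Finite P := Nat.finite_of_card_ne_zero (by rw [card_P]; norm_num)
  obtain ⟨g, hg⟩ := LT.M49.conj_into (k := 6) (m := 945) (Y := LT.M49.Tg.map β.toMonoidHom) LT.M49.card_Tg card_P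
    (by norm_num) ((IsPGroup.of_card (n := 6) LT.M49.card_Tg).map _)
  obtain ⟨l, m, x, e⟩ := aut_T (MulAut.conj g * β) fun a b c => hg _ ⟨_, ⟨a, b, c, rfl⟩, rfl⟩
  exact ⟨g⁻¹, l, m, x, by rw [mul_assoc, ← e, map_inv, inv_mul_cancel_left]⟩

/-- a 2-subgroup of `N` acts through `SA` in a frame whose `T` is an `L`-conjugate of `T` -/
theorem Hy.sa [Finite G] (h : Hy ι) {Y : Subgroup G} (hY : IsPGroup 2 Y) (le : Y ≤ Nn ι) :
    ∃ (p : P) (l m : Fˣ) (f : Y →* SA),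
      (∀ (y : Y) q, (y : G) * tw ι (MulAut.conj p * dg l m) q * (y : G)⁻¹ =
        tw ι (MulAut.conj p * dg l m) ((f y).autS q)) ∧
      (∀ y : Y, f y = 1 ↔ (y : G) ∈ Kc ι) ∧
      ∀ y : Y, (f y).inT → ∃ k ∈ Kc ι,
        (y : G) = tw ι (MulAut.conj p * dg l m) (u (f y).a (f y).b (f y).c) * k := by
  obtain ⟨β, hβ⟩ := exists_sa (h.phi.comp (inclusion le)).range
    (hY.of_surjective _ (MonoidHom.rangeRestrict_surjective _))
  obtain ⟨p, l, m, x0, rfl⟩ := aut_T0 β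
  generalize hγ : MulAut.conj p * dg l m = γ at hβ
  let A : SA →* MulAut P := MonoidHom.mk' SA.autS aut_mul
  have hA : Function.Injective A := (injective_iff_map_eq_one A).2 fun _ => aut_inj
  have k : ∀ y : Y, ∃ x : SA, γ⁻¹ * h.phi (inclusion le y) * γ = A x := fun y => by
    obtain ⟨x, e⟩ := hβ _ ⟨y, rfl⟩
    refine ⟨x0 * x * x0⁻¹, ?_⟩
    rw [map_mul, map_mul, map_inv, show h.phi (inclusion le y) = γ * A x0 * A x * (γ * A x0)⁻¹ from e]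
    group
  choose f hf using k
  have e1 : ∀ (y : Y) q, (y : G) * tw ι γ q * (y : G)⁻¹ = tw ι γ ((f y).autS q) := fun y q => by
    rw [show (f y).autS = _ from (hf y).symm]
    simpa [tw_apply] using h.phi_spec (inclusion le y) (γ q)
  refine ⟨p, l, m, MonoidHom.mk' f fun y y' => hA ?_, hγ ▸ e1, fun y => ⟨fun e => ?_, fun e => ?_⟩,
    fun y hy => ?_⟩
  · rw [map_mul, ← hf, ← hf, ← hf, map_mul, map_mul]
    group
  · rw [← Kc_tw γ]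
    refine mem_Kc.2 fun q => ?_
    have := e1 y q
    rw [show f y = 1 from e, show (1 : SA).autS = 1 from map_one A] at this
    exact mul_inv_eq_iff_eq_mul.1 this
  · rw [← Kc_tw γ] at e
    refine aut_inj (MulEquiv.ext fun q => (h.fr (Fr.tw ι γ)).inj ?_)
    rw [show (MonoidHom.mk' f _) y = f y from rfl, ← e1, (mem_Kc.1 e q).mul_inv_cancel]
    rfl
  · rw [hγ, ← Kc_tw γ]
    exact inner fun q => (e1 y q).trans (congrArg _ (inT_aut hy q))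

theorem cent_V1 {a c d : F} (ha : a ≠ 0) (hd : d ≠ 0) :
    ∃ p, Commute p (u a 0 c) ∧ ¬ Commute p (u 0 0 d) := by
  have e : u 0 ((a + c) / a) 0 * u a 0 c * (u 0 ((a + c) / a) 0)⁻¹ = u a 0 a := by
    rw [u_conj, mul_div_cancel₀ _ ha, mul_zero, add_zero, add_left_comm, SA.two, add_zero]
  generalize hs : u 0 ((a + c) / a) 0 = s at e
  have c1 : Commute w1 (u a 0 a) := mul_inv_eq_iff_eq_mul.1 (w1_u a a)
  refine ⟨s⁻¹ * w1 * s, ?_, fun c2 => hd ?_⟩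
  · rw [← e] at c1
    simpa [mul_assoc] using c1.conj s⁻¹
  · have c3 := c2.conj s
    rw [show s * u 0 0 d * s⁻¹ = u 0 0 d from hs ▸ (comm_uz _ _ _ d).mul_inv_cancel,
      show s * (s⁻¹ * w1 * s) * s⁻¹ = w1 by group] at c3
    exact (u_inj ((w1_u 0 d).symm.trans c3.mul_inv_cancel)).1

theorem cent_V2 {b c d : F} (hb : b ≠ 0) (hd : d ≠ 0) :
    ∃ p, Commute p (u 0 b c) ∧ ¬ Commute p (u 0 0 d) := by
  obtain ⟨p, c1, c2⟩ := cent_V1 (c := c) hb hd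
  refine ⟨gr p, by simpa [gr_u] using c1.map gr, fun c3 => c2 (gr.injective ?_)⟩
  rw [map_mul, map_mul, gr_u, mul_zero, add_zero]
  exact c3

end Cfsg.Agent.LT
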