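import Cfsg.Agent.LS.Defs2
import Cfsg.Agent.LS.Aut

/-! Standard subgroups isomorphic to `SL₃(4)`: vocabulary (notes/LX.md). -/

set_option autoImplicit false

namespace Cfsg.Agent.LT

open Subgroup H29 LS

abbrev P : Type := Matrix.SpecialLinearGroup (Fin 3) F

/-- the upper unitriangular matrices -/
def u (a b c : F) : P := ⟨!![1, a, c; 0, 1, b; 0, 0, 1], by simp [Matrix.det_fin_three]⟩

/-- the Cartan element: `u a b c ↦ u (ω a) (ω b) (ω² c)` -/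
def hh : P := ⟨!![ω, 0, 0; 0, 1, 0; 0, 0, ω * ω], by simp only [Matrix.det_fin_three]; decide⟩

/-- `u a 0 c ↦ u c 0 a` -/
def w1 : P := ⟨!![1, 0, 0; 0, 0, 1; 0, 1, 0], by simp only [Matrix.det_fin_three]; decide⟩

/-- the antidiagonal matrix -/
def w0 : P := ⟨!![0, 0, 1; 0, 1, 0; 1, 0, 0], by simp only [Matrix.det_fin_three]; decide⟩

/-- the scalar matrix `ω` -/
def y0 : P := ⟨!![ω, 0, 0; 0, ω, 0; 0, 0, ω], by simp only [Matrix.det_fin_three]; decide⟩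

/-- the projection onto `L₃(4)` -/
abbrev pr : P →* LS.P := QuotientGroup.mk' _

/-- diagonal automorphisms: `u a b c ↦ u (l a) (m b) (l m c)` -/
noncomputable def dg (l m : Fˣ) : MulAut P :=
  slConj (Matrix.GeneralLinearGroup.mkOfDetNeZero
    !![(l : F) * m, 0, 0; 0, m, 0; 0, 0, 1] (by simp [Matrix.det_fin_three]))

/-- the field automorphism: `u a b c ↦ u a² b² c²` -/
noncomputable def fr : MulAut P := slEquiv (Fin 3) frob

/-- the graph automorphism: `u a b c ↦ u b a (c + a b)` -/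
noncomputable def gr : MulAut P := MulAut.conj w0 * invTSL (Fin 3) F

/-- the automorphism of `SL₃(4)` that `x` stands for -/
noncomputable def _root_.Cfsg.Agent.LS.SA.autS (x : SA) : MulAut P :=
  MulAut.conj (u x.a x.b x.c) * cond x.j fr 1 * cond x.k gr 1

/-! ### frames -/

variable {G : Type*} [Group G]

/-- `C(L)` -/
abbrev Kc (ι : P →* G) : Subgroup G := centralizer (ι.range : Set G)

/-- `N(L)` -/
abbrev Nn (ι : P →* G) : Subgroup G := normalizer (ι.range : Set G)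

def cj (g : G) (ι : P →* G) : P →* G := (MulAut.conj g).toMonoidHom.comp ι

def tw (ι : P →* G) (β : MulAut P) : P →* G := ι.comp β.toMonoidHom

/-- `L = ι.range` is standard -/
structure Hy (ι : P →* G) : Prop where
  inj : Function.Injective ι
  ti : ∀ g, ∀ k ∈ Kc ι, k * k = 1 → k ≠ 1 → g * k * g⁻¹ ∈ Kc ι → g ∈ Nn ι
  std : ∀ g, ¬ ∀ p p', Commute (ι p) (g * ι p' * g⁻¹)
  ev : ∃ k ∈ Kc ι, k * k = 1 ∧ k ≠ 1

/-- `ι'` is a frame of a conjugate of `L` -/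
def Fr (ι ι' : P →* G) : Prop := ∃ g β, ι' = cj g (tw ι β)

/-- the involutions in the conjugates of `C(L)` -/
def DD (ι : P →* G) (d : G) : Prop := d * d = 1 ∧ d ≠ 1 ∧ ∃ g, g * d * g⁻¹ ∈ Kc ι

/-- a frame, a parametrisation of a Sylow 2-subgroup `R` of `K = C(L)`, and `g` with `R^g ≤ R Z` -/
structure Dat (G : Type*) [Group G] where
  ι : P →* G
  e : Bool
  r : F → G
  g : G

namespace Dat

variable (δ : Dat G)

def U (a b c : F) : G := δ.ι (u a b c)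

def C (c : F) : G := δ.U 0 0 c

def z : G := δ.C 1

def h : G := δ.ι hh

def w : G := δ.ι w1

def t : G := δ.r 1

def cj (m : G) : Dat G := ⟨LT.cj m δ.ι, δ.e, fun ρ => m * δ.r ρ * m⁻¹, m * δ.g * m⁻¹⟩

/-- exchange `V₁` and `V₂` -/
noncomputable def sw : Dat G := ⟨tw δ.ι gr, δ.e, δ.r, δ.g⟩

structure OK : Prop where
  hy : Hy δ.ι
  rK : ∀ ρ, δ.r ρ ∈ Kc δ.ι
  radd : ∀ a b, Lam δ.e a → Lam δ.e b → δ.r (a + b) = δ.r a * δ.r b
  rne : ∀ a, Lam δ.e a → a ≠ 0 → δ.r a ≠ 1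
  gT : ∀ a b c, ∃ a' b' c', δ.g * δ.U a b c * δ.g⁻¹ = δ.U a' b' c'
  gR : ∀ ρ, Lam δ.e ρ → δ.r ρ * δ.C ρ ∈ Kc (LT.cj δ.g δ.ι)
  cen : ∀ k ∈ Kc δ.ι, Commute k δ.t → ∃ ρ, Lam δ.e ρ ∧ k * δ.r ρ ∈ Kc (LT.cj δ.g δ.ι)
  syl : ∀ k ∈ Kc δ.ι, k * k = 1 → ∃ m ∈ Kc δ.ι, ∃ ρ, Lam δ.e ρ ∧ m * k * m⁻¹ = δ.r ρ

/-- the elements of odd order in `C_K(R)` -/
def Od (o : G) : Prop := o ∈ Kc δ.ι ∧ (∀ ρ, Lam δ.e ρ → Commute o (δ.r ρ)) ∧ Odd (orderOf o)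

def CO (x : G) : Prop := ∀ o, δ.Od o → Commute x o

/-- translations on the conjugates of `R` in `R V₁` -/
def Tr (x : G) (μ σ : F) : Prop := (∀ a c, Commute x (δ.U a 0 c)) ∧
  ∀ ρ, Lam δ.e ρ → x * δ.r ρ * x⁻¹ = δ.r ρ * δ.U (ρ * μ) 0 (ρ * σ)

/-- the elements of `Q₁` -/
def Qx (x : G) (μ σ : F) : Prop := δ.Tr x μ σ ∧ δ.CO x ∧ x ^ 4 = 1

/-- the elements of `T₁` -/
def Ty (y : G) (σ : F) : Prop := (∀ a b c, Commute y (δ.U a b c)) ∧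
  (∀ ρ, Lam δ.e ρ → y * δ.r ρ * y⁻¹ = δ.r ρ * δ.C (ρ * σ)) ∧ δ.CO y ∧ y ^ 4 = 1

/-- the norm map of `h` -/
def nm (x : G) : G := x * (δ.h * x * δ.h⁻¹) * (δ.h⁻¹ * x * δ.h)

/-- the elements of `W = [T₁, h]` -/
def Wy (y : G) (σ : F) : Prop := δ.Ty y σ ∧ ∃ c, δ.nm y = δ.C c

/-- the elements of `D = T T₁` with their coordinates modulo `Z` -/
def InD (d : G) (v : V4) : Prop := Lam δ.e v.2.2.1 ∧
  ∃ c y, δ.Wy y v.2.2.2 ∧ d = δ.U v.1 v.2.1 c * δ.r v.2.2.1 * y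

/-- `n` normalises `D` and acts as `f` on `D / Z` -/
def Ac (n : G) (f : V4 → V4) : Prop := ∀ d v, δ.InD d v → δ.InD (n * d * n⁻¹) (f v)

def ND (n : G) : Prop := ∀ d v, δ.InD d v → ∃ v', δ.InD (n * d * n⁻¹) v'

def CZ (n : G) : Prop := ∀ c, Commute n (δ.C c)

def NZ (n : G) : Prop := ∀ c, ∃ c', n * δ.C c * n⁻¹ = δ.C c'

/-- the elements of `E₁ = [Q₁, h] V₁` -/
def Ex (x : G) (μ σ : F) : Prop := δ.Qx x μ σ ∧ ∃ a c, δ.nm x = δ.U a 0 c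

/-- the action of `Q₁` and `Q₂` on `D / Z` -/
structure Kk (k₁ k₂ : F) : Prop where
  ok : δ.OK
  a1 : ∀ x μ σ, δ.Qx x μ σ → δ.Ac x (f1 k₁ μ)
  a2 : ∀ x μ σ, δ.sw.Qx x μ σ → δ.Ac x (f2 k₂ μ)

/-- the Suzuki configuration -/
def CI : Prop := δ.Kk 1 1 ∧ δ.e = true

def Dg : Subgroup G := closure {d | ∃ v, δ.InD d v}

def Wg : Subgroup G := closure {y | ∃ σ, δ.Wy y σ}

def Ug : Subgroup G := closure {x | ∃ μ σ, δ.Ex x μ σ ∨ δ.sw.Ex x μ σ}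

/-- the candidate for `O₂(C(z))` -/
def Qg : Subgroup G :=
  closure {τ | τ * τ = 1 ∧ Commute τ δ.z ∧ τ * δ.C ω * τ⁻¹ = δ.C ω * δ.z ∧ ¬ DD δ.ι τ}

/-- `g` moves `(R, V₂, z)` to `(R'', V₁, z)` with `R'' ≤ Q₁`, `R'' ∩ D = 1` -/
structure H0 (g : G) : Prop where
  ci : δ.CI
  co : δ.CO g
  gz : Commute g δ.z
  gV : ∀ b c, ∃ a c', g * δ.U 0 b c * g⁻¹ = δ.U a 0 c'
  gr : ∀ ρ, δ.Qx (g * δ.r ρ * g⁻¹) ρ 0

/-- `τ` is an involution of `L^g` acting as `sg` -/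
structure Hp (g τ : G) : Prop extends δ.H0 g where
  tL : ∃ a, τ = g * δ.U a 0 0 * g⁻¹
  tC : ∀ c, τ * δ.C c * τ⁻¹ = δ.C (c * c)
  ac : δ.Ac τ sg

/-- `n` induces an even permutation of the five special points -/
def Ev (τ n : G) : Prop := ∃ i, δ.CZ n ∧ δ.Ac n (ev i) ∨ δ.CZ (τ * n) ∧ δ.Ac (τ * n) (ev i)

/-- `C(Z) / D O ≅ A₅` -/
structure Fn (g τ : G) : Prop extends δ.Hp g τ where
  nr : ∀ n, δ.CZ n → ∃ i, δ.Ac n (ev i)

end Dat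

/-- `J` is the simple generalized Fitting subgroup of `G` and contains `L` -/
structure Amb (ι : P →* G) (J : Subgroup G) : Prop where
  nrm : J.Normal
  simple : IsSimpleGroup J
  le : ι.range ≤ J
  cen : centralizer (J : Set G) = ⊥

namespace Dat

variable (δ : Dat G)

/-- `z` lies in the conjugate of `L` centralised by `i` -/
def ZL (i : G) : Prop := ∃ m, m * i * m⁻¹ ∈ Kc δ.ι ∧ m * δ.z * m⁻¹ ∈ δ.ι.range

/-- the elements of `N(Z) ∩ C(z)` -/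
def MM (n : G) : Prop := δ.NZ n ∧ Commute n δ.z

/-- a reflection: an involution inducing a graph automorphism on `L` and centralising `T₁` -/
structure Rf (γ : G) : Prop where
  sq : γ * γ = 1
  ac : δ.Ac γ swp
  gr : ∀ p, γ * δ.ι p * γ⁻¹ = δ.ι (gr p)
  cr : ∀ ρ, Commute γ (δ.r ρ)
  cw : ∀ y σ, δ.Wy y σ → Commute γ y

end Dat

end Cfsg.Agent.LT
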