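import Cfsg.Agent.LT.Gam1
import Cfsg.Agent.LT.LemB

/-! `C_K(t) = O × R`, and the second frame `L^g` (notes/LX.md). -/

set_option autoImplicit false

namespace Cfsg.Agent.LT

open Subgroup H29 LS
open scoped commutatorElement

theorem cj_inv_cj {G : Type*} [Group G] (x a : G) : x⁻¹ * (x * a * x⁻¹) * x⁻¹⁻¹ = a := by group

theorem cj_cj_inv {G : Type*} [Group G] (x a : G) : x * (x⁻¹ * a * x⁻¹⁻¹) * x⁻¹ = a := by group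

namespace Dat

variable {G : Type*} [Group G] [Finite G] {δ : Dat G}

/-- elements of odd order in `C_K(t)` -/
def Ot (δ : Dat G) (k : G) : Prop := k ∈ Kc δ.ι ∧ Commute k δ.t ∧ Odd (orderOf k)

theorem OK.Ot_Qx (ok : δ.OK) {x k : G} {μ σ : F} (h : δ.Qx x μ σ) (hk : δ.Ot k) :
    δ.Ot (x * k * x⁻¹) := by
  have e : x * δ.t * x⁻¹ = δ.t * δ.ι (u μ 0 σ) := by
    simpa only [one_mul, t, U] using h.1.2 1 (lam_one _)
  have c : Commute (x * k * x⁻¹) (δ.t * δ.ι (u μ 0 σ)) := e ▸ (cm_cj x _ _).mpr hk.2.1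
  have o : Odd (orderOf (x * k * x⁻¹)) := (ord_cj x k).symm ▸ hk.2.2
  suffices m : x * k * x⁻¹ ∈ Kc δ.ι from
    ⟨m, by simpa only [mul_inv_cancel_right] using c.mul_right (mem_Kc.mp m (u μ 0 σ)).inv_right, o⟩
  by_cases l1 : u μ 0 σ = 1
  · rw [l1, map_one, mul_one] at e
    exact Kc_conj (ok.cent_r (lam_one _) one_ne_zero (of_cj e)) hk.1
  obtain ⟨k', hk', p, p2, -, e'⟩ := (ok.hy.lemB (Fr.cj _ x) (ok.rK 1) ok.t_sq ok.t_ne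
    (ok.hy.inj (by rw [map_mul, map_one]; exact δ.V_sq μ σ)) l1
    (e ▸ (cj_Kc x _).mpr (ok.rK 1))).2 _ ((cj_Kc x _).mpr hk.1) c
  obtain ⟨n, hn⟩ := o
  have := pow_orderOf_eq_one (x * k * x⁻¹)
  rw [hn, e', (mem_Kc.mp hk' p).mul_pow, ← map_pow, pow_succ p, pow_mul, pow_two, p2, one_pow,
    one_mul] at this
  rw [e', ok.hy.LK1 (p := p) (eq_inv_of_mul_eq_one_right this ▸ inv_mem (pow_mem hk' _)) p2, map_one, mul_one]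
  exact hk'

theorem CI.Ot_Od (h : δ.CI) {k : G} (hk : δ.Ot k) : δ.Od k := by
  have ok := h.ok
  let c : G → Prop := fun y => ∀ k, δ.Ot k → Commute y k
  have cL : ∀ p, c (δ.ι p) := fun p k hk => (mem_Kc.mp hk.1 p).symm
  have cQ : ∀ {x y μ σ}, δ.Qx x μ σ → c y → c (x * y * x⁻¹) := fun {x y _ _} hx hy k hk => by
    rw [← cj_cj_inv x k, cm_cj]
    exact hy _ (ok.Ot_Qx (ok.Qx_inv hx) hk)
  have cW : ∀ {y σ}, δ.Wy y σ → c y := fun {y σ} hy k hk => by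
    obtain ⟨y₁, h₁⟩ := ok.exists_Wy (ω * ω * σ)
    have := ok.Wy_mul (ok.Wy_h h₁) (ok.Wy_inv h₁)
    rw [(by decide : ∀ σ : F, ω * ω * (ω * ω * σ) + ω * ω * σ = σ)] at this
    obtain ⟨d, rfl⟩ := ok.Wy_diff this hy
    rw [mul_assoc δ.h, mul_assoc δ.h]
    exact ((cL _ k hk).mul_left (cQ h₁.1.qx (fun k hk => (cL hh k hk).inv_left) k hk)).mul_left
      (cL _ k hk)
  refine ⟨hk.1, fun ρ _ => ?_, hk.2.2⟩
  obtain ⟨x, hx⟩ := ok.exists_Qx 1 0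
  obtain ⟨-, d, y, hy, e⟩ := h.1.a1 x 1 0 hx _ _ (ok.InD_U 0 ρ 0)
  simp only [f1, mul_one, zero_add] at e
  rw [← mul_inv_eq_iff_eq_mul, ← inv_mul_eq_iff_eq_mul, one_mul] at e
  rw [← e]
  exact ((cL _ k hk).inv_left.mul_left ((cQ hx (cL _) k hk).mul_left (cW hy k hk).inv_left)).symm

theorem CI.ck (h : δ.CI) {k : G} (hk : k ∈ Kc δ.ι) {ρ : F} (h0 : ρ ≠ 0) (c : Commute k (δ.r ρ)) :
    ∃ o ρ', δ.Od o ∧ k = o * δ.r ρ' := by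
  have ok := h.ok
  obtain ⟨x, hx, a, e, e'⟩ := h.r_t h0
  obtain ⟨k, rfl⟩ := sur_cj x k
  rw [e, cm_cj] at c
  replace hk : k ∈ Kc δ.ι := by
    simpa only [cj_inv_cj] using Kc_conj (Kc_le_Nn (inv_mem hx)) hk
  obtain ⟨σ, l, m⟩ := ok.cen k hk c
  have m' := mul_mem hk (ok.rK σ)
  have o := h.Ot_Od ⟨m', c.mul_left (ok.r_comm l (lam_one _)), ok.KK m' m⟩
  exact ⟨_, ρ * σ, o, by rw [← cj_of (a _ o), ← e', conj_mul, mul_assoc k, ok.r_sq l, mul_one]⟩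

theorem CI.ck2 (h : δ.CI) {k : G} (hk : k ∈ Kc δ.ι) {ρ : F} (h0 : ρ ≠ 0) (c : Commute k (δ.r ρ))
    (k2 : k * k = 1) : ∃ ρ', k = δ.r ρ' := by
  obtain ⟨o, σ, ho, rfl⟩ := h.ck hk h0 c
  have c := (ho.2.1 σ (h.lam σ)).symm
  rw [← c.eq] at k2 ⊢
  rw [ho.eq_one c (n := 1) (by rw [pow_one, pow_two, h.ok.r_sq (h.lam σ)])
    (by rw [pow_one, pow_two, k2]), mul_one]
  exact ⟨σ, rfl⟩

theorem CI.Ty_of (h : δ.CI) {y : G} {σ : F} (hT : ∀ a b c, Commute y (δ.U a b c)) (co : δ.CO y)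
    (y4 : y ^ 4 = 1) (e : y * δ.t * y⁻¹ = δ.t * δ.C σ) : δ.Ty y σ := by
  have ok := h.ok
  obtain ⟨x, hx, c⟩ := ok.fix_t e
  obtain ⟨d, k, hk, e'⟩ := ok.hy.cenT (ok.cent_r (lam_one _) one_ne_zero c)
    fun a b c => (hx.1.1 a b c).inv_left.mul_left (hT a b c)
  obtain ⟨o, ρ, ho, rfl⟩ := h.ck hk one_ne_zero (by
    rw [show k = (δ.C d)⁻¹ * (x⁻¹ * y) from eq_inv_mul_of_mul_eq e'.symm]
    exact (ok.r_C 1 d).symm.inv_left.mul_left c)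
  have q := ok.Ty_mul hx.1 (ok.Ty_zero.mpr ⟨d, ρ, h.lam ρ, rfl⟩)
  obtain rfl : y = x * (δ.C d * δ.r ρ) * o := by
    rw [inv_mul_eq_iff_eq_mul.mp e', (ho.2.1 ρ (h.lam ρ)).eq, mul_assoc x, mul_assoc]; rfl
  rwa [ho.eq_one (q.2.2.1 o ho) (n := 2) q.2.2.2 y4, mul_one, ← add_zero σ]

omit [Finite G] in
theorem OK.NZ_T (ok : δ.OK) {n : G} (hn : n ∈ Nn δ.ι) (hZ : δ.NZ n) (a b c : F) :
    ∃ a' b' c', n * δ.U a b c * n⁻¹ = δ.U a' b' c' := by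
  obtain ⟨β, e⟩ := ok.hy.aut hn
  obtain ⟨d, e'⟩ := ok.NZ_inv hZ 1
  have : Commute (n * δ.U a b c * n⁻¹) (δ.C 1) := by
    rw [← cj_cj_inv n (δ.C 1), e', cm_cj]; exact (δ.C_U _ _ _ _).symm
  rw [U, e] at this
  obtain ⟨a', b', c', k⟩ := cent_z2 (Commute.of_map ok.hy.inj this) (aut_four ..)
  exact ⟨a', b', c', by rw [U, e, k, U]⟩

theorem CI.ns (h : δ.CI) {n : G} (hZ : δ.NZ n) {c : F} (e : n * δ.t * n⁻¹ = δ.t * δ.C c) : δ.ND n := by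
  have ok := h.ok
  obtain ⟨x, hx, k⟩ := ok.fix_t e
  have z := hx.1.cz.inv.nz.mul hZ
  rw [← mul_inv_cancel_left x n]
  refine (ok.InD_ac (ok.InD_W hx)).nd.mul ?_
  generalize x⁻¹ * n = m at k z
  have hm := ok.cent_r (lam_one _) one_ne_zero k
  have r : ∀ ρ, ∃ ρ', m * δ.r ρ * m⁻¹ = δ.r ρ' := fun ρ => h.ck2 (Kc_conj hm (ok.rK ρ)) one_ne_zero
    (by rw [← t, ← cj_of k, cm_cj]; exact ok.r_comm (h.lam _) (h.lam _))
    (by rw [conj_mul, ok.r_sq (h.lam ρ), mul_one, mul_inv_cancel])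
  rintro _ v ⟨-, c, y, hy, rfl⟩
  obtain ⟨a', b', c', e₁⟩ := ok.NZ_T hm z v.1 v.2.1 c
  obtain ⟨ρ', e₂⟩ := r v.2.2.1
  obtain ⟨s, e₃⟩ := z v.2.2.2
  obtain ⟨a, ρ, e₄⟩ := ok.Qx_inD (h.Ty_of (y := m * y * m⁻¹) (σ := s) (fun a b c => by
    obtain ⟨a', b', c', e⟩ := ok.NZ_T (inv_mem hm) (ok.NZ_inv z) a b c
    rw [← cj_cj_inv m (δ.U a b c), e, cm_cj]; exact hy.1.1 _ _ _) (fun o ho => by
    rw [← cj_cj_inv m o, cm_cj]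
    refine hy.1.2.2.1 _ ⟨Kc_conj (inv_mem hm) ho.1, fun ρ _ => ?_, (ord_cj _ o).symm ▸ ho.2.2⟩
    obtain ⟨ρ', e⟩ := r ρ
    rw [← cj_inv_cj m (δ.r ρ), cm_cj, e]; exact ho.2.1 _ (h.lam _))
    (by rw [conj_pow, hy.1.2.2.2, mul_one, mul_inv_cancel]) (by
    rw [cj_mul, cj_mul, cj_of k.inv_left, t, ok.W_t hy (lam_one _), one_mul, cj_dist, e₃]
    exact congrArg (· * _) (cj_of k))).qx
  rw [cj_dist, cj_dist, e₁, e₂]
  exact ⟨_, ok.InD_mul (ok.InD_mul (ok.InD_U _ _ _) (ok.InD_r (h.lam _))) e₄⟩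

theorem H0.onto {g : G} (h : δ.H0 g) (a c : F) : ∃ b c', δ.U a 0 c = g * δ.U 0 b c' * g⁻¹ := by
  choose fa fc hf using h.gV
  have : Function.Injective fun v : F × F => (fa v.1 v.2, fc v.1 v.2) := fun v w e => by
    simp only [Prod.mk.injEq] at e
    obtain ⟨-, h2, h3⟩ := h.ci.ok.U_inj ((eq_cj g _ _).mp (by rw [hf, hf, e.1, e.2]) :
      δ.U 0 v.1 v.2 = δ.U 0 w.1 w.2)
    exact Prod.ext h2 h3
  obtain ⟨v, e⟩ := Finite.surjective_of_injective this (a, c)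
  simp only [Prod.mk.injEq] at e
  exact ⟨_, _, by rw [hf, e.1, e.2]⟩

theorem H0.ac {g : G} (h : δ.H0 g) (ρ : F) : δ.Ac (g * δ.r ρ * g⁻¹) (f1 1 ρ) :=
  h.ci.1.a1 _ _ _ (h.gr ρ)

theorem H0.nnz {g : G} (h : δ.H0 g) : ¬ δ.NZ g := fun hZ => by
  have ok := h.ci.ok
  have lam := h.ci.lam
  obtain ⟨y, hy⟩ := ok.exists_Wy 1
  have hd : δ.InD (δ.r ω * y) (0, 0, ω, 1) := ok.InD_mul (ok.InD_r (lam ω)) (ok.InD_W hy)
  obtain ⟨d, e⟩ := sur_cj g (δ.r ω * y)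
  rw [e] at hd
  obtain ⟨c, e₁⟩ := ok.InD_diff hd (h.ac ω _ _ hd)
  obtain ⟨c₁, e₂⟩ := ok.NZ_inv hZ c
  rw [← cj_cj_inv g (δ.C c), e₂, conj_inv, conj_mul, conj_mul, conj_mul, eq_cj] at e₁
  obtain ⟨y₁, h₁⟩ := ok.exists_Wy (ω * ω * c₁)
  have k : Commute (d * y₁) (δ.r ω) := of_cj (by
    rw [cj_mul, ok.W_t h₁ (lam _), (by decide : ∀ c : F, ω * (ω * ω * c) = c), (ok.r_C _ _).eq,
      ← mul_assoc, ← e₁]; group)
  obtain ⟨b, s, k', hk, e₃⟩ := ok.sw.hy.cenV (ok.sw.cent_r (lam ω) (by decide) k) fun b s => by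
    refine Commute.mul_left ?_ (((sw_Wy y₁ _).mpr h₁).1.1 b 0 s)
    obtain ⟨a, s', e⟩ := h.gV b s
    rw [← U, sw_U, mul_zero, add_zero, ← cm_cj g, e]
    exact (ok.InD_Qx hd).1.1 _ _
  rw [sw_Kc] at hk
  rw [← U, sw_U] at e₃
  obtain ⟨o, ρ, ho, rfl⟩ := h.ci.ck hk (ρ := ω) (by decide) (by
    rw [eq_inv_mul_of_mul_eq e₃.symm]
    exact (ok.r_U _ _ _ _).symm.inv_left.mul_left k)
  have e₄ : d * δ.r 1 * d⁻¹ = δ.r 1 * δ.C (1 * (ω * ω * c₁)) := by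
    rw [eq_mul_inv_of_mul_eq e₃, cj_mul, ok.W_t (ok.Wy_inv h₁) (lam _)]
    exact cj_of (((ok.r_U _ _ _ _).symm.mul_left ((ho.2.1 _ (lam _)).mul_left
      (ok.r_comm (lam _) (lam _)))).mul_right ((δ.C_U _ _ _ _).symm.mul_left
        ((K_C ho.1 _).mul_left (ok.r_C _ _))))
  obtain ⟨c₂, e₅⟩ := hZ (1 * (ω * ω * c₁))
  have a := h.ac 1 _ _ hd
  rw [conj_inv, conj_mul, conj_mul, show δ.r 1 * d * (δ.r 1)⁻¹ = (δ.C (1 * (ω * ω * c₁)))⁻¹ * d by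
    rw [eq_inv_mul_iff_mul_eq, ← mul_assoc, ← mul_assoc, ← (ok.r_C _ _).eq, ← e₄]; group, C_inv,
    cj_dist, e₅] at a
  exact absurd (ok.InD_uniq a (ok.InD_mul (ok.InD_C _) hd)) (by decide)

theorem H0.cw {g : G} (h : δ.H0 g) : ∃ b c, b ≠ 0 ∧ δ.C ω = g * δ.U 0 b c * g⁻¹ := by
  obtain ⟨b, c, e⟩ := h.onto 0 ω
  refine ⟨b, c, ?_, e⟩
  rintro rfl
  have e1 : g * δ.C 1 * g⁻¹ = δ.C 1 := cj_of h.gz
  refine h.nnz fun d => ?_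
  rcases (by decide : ∀ c d : F, c = 0 ∨ c = 1 ∨ d = 0 ∨ d = 1 ∨ d = c ∨ d = c + 1) c d with
    rfl | rfl | rfl | rfl | rfl | rfl
  · rw [U_zero, mul_one, mul_inv_cancel, ← δ.U_zero] at e
    exact absurd (h.ci.ok.U_inj e).2.2 (by decide)
  · exact absurd (h.ci.ok.C_inj (e.trans e1)) (by decide)
  · exact ⟨0, by rw [C_zero, mul_one, mul_inv_cancel]⟩
  · exact ⟨1, e1⟩
  · exact ⟨ω, e.symm⟩
  · exact ⟨ω + 1, by rw [C_add, C_add, cj_dist, e1]; exact congrArg (· * _) e.symm⟩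

theorem H0.z4 {g : G} (h : δ.H0 g) {a : G} (hZ : δ.CZ a) {μ : F} (h0 : μ ≠ 0) (ac : δ.Ac a (f1 1 μ))
    {c : F} (sq : a * a = δ.C c) :
    ∃ m v c', δ.InD m v ∧ a = m * (g * δ.r μ * g⁻¹ * δ.C c') * m⁻¹ := by
  have ok := h.ci.ok
  have q := h.gr μ
  have s := h.ac μ
  have s2 : g * δ.r μ * g⁻¹ * (g * δ.r μ * g⁻¹) = 1 := by
    rw [conj_mul, ok.r_sq (h.ci.lam μ), mul_one, mul_inv_cancel]
  generalize g * δ.r μ * g⁻¹ = x at q s s2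
  have si : x⁻¹ = x := inv_eq_of_mul_eq_one_right s2
  obtain ⟨d, v, o, hd, ho, e⟩ := ok.ker (q.cz.mul hZ) ((s.mul ac).congr fun v => by
    rw [Function.comp, f1_f1, SA.two]; revert v; decide +kernel)
  rw [← eq_inv_mul_iff_mul_eq, si, ← mul_assoc] at e
  have hd2 := ok.InD_mul (s _ _ hd) hd
  rw [si, mul_assoc] at hd2
  obtain rfl := ho.eq_one ((q.2.1.mul hd.co) o ho) (n := 3) (by
    rw [pow_succ' 2, pow_mul, pow_two]; exact ok.InD_four hd2) (by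
    rw [← e, pow_succ' 2, pow_mul, pow_two, sq]; exact ok.InD_four (ok.InD_C c))
  rw [e, mul_one] at sq ⊢
  obtain ⟨w, rfl⟩ := free_f1 h0 (V4_eq (ok.InD_uniq hd2 (sq ▸ ok.InD_C c)))
  obtain ⟨m, hm⟩ := ok.exists_InD (h.ci.lam w.2.2.1)
  obtain ⟨c', rfl⟩ := ok.InD_diff (add_comm w _ ▸ ok.InD_mul (s _ _ hm) (ok.InD_inv hm)) hd
  exact ⟨m, w, c', hm, by
    rw [cj_dist, cj_of (ok.InD_cz hm _), si, ← mul_assoc, ← mul_assoc, ← mul_assoc, ← mul_assoc, s2,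
      one_mul]⟩

omit [Finite G] in
theorem ZL.conj {a m : G} (h : δ.ZL a) (c : Commute m δ.z) : δ.ZL (m * a * m⁻¹) := by
  obtain ⟨n, h1, h2⟩ := h
  exact ⟨n * m⁻¹, by rwa [cj_mul, cj_inv_cj], by rwa [cj_mul, cj_of c.inv_left]⟩

theorem OK.ZL_r (ok : δ.OK) (ρ : F) : δ.ZL (δ.r ρ) :=
  ⟨1, by simpa using ok.rK ρ, u 0 0 1, by simp [z, C, U]⟩

/-- `r μ · v` is conjugate to `r μ` under `Q₂` -/
theorem H0.rC {g : G} (h : δ.H0 g) {μ : F} (h0 : μ ≠ 0) (a c : F) : ∃ x, (∀ b s, Commute x (δ.U 0 b s)) ∧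
    g * δ.r μ * g⁻¹ * δ.U a 0 c = g * x * δ.r μ * (g * x)⁻¹ := by
  obtain ⟨b, s, e⟩ := h.onto a c
  obtain ⟨x, hx⟩ := h.ci.ok.sw.exists_Qx (μ⁻¹ * b) (μ⁻¹ * s)
  have := hx.1.2 μ (h.ci.lam μ)
  rw [mul_inv_cancel_left₀ h0, mul_inv_cancel_left₀ h0, sw_U, mul_zero, add_zero] at this
  exact ⟨x, fun b s => by simpa only [sw_U, mul_zero, add_zero] using hx.1.1 b s, by
    rw [e, conj_mul, cj_mul]; exact congrArg (g * · * g⁻¹) this.symm⟩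

/-- an element with square in `Z` acting as an involution of `A₅` -/
theorem H0.inv_ev {g : G} (h : δ.H0 g) {a : G} (hZ : δ.CZ a) {i : Ix} (ac : δ.Ac a (ev i)) {c : F}
    (sq : a * a = δ.C c) : (∃ v, δ.InD a v) ∨ (DD δ.ι a ∧ δ.ZL a) := by
  have ok := h.ci.ok
  rcases ev_invol (i := i) fun v => ok.Ac_uniq (f' := id) (ac.mul ac) (sq ▸ ok.InD_ac (ok.InD_C c))
    (h.ci.lam v.2.2.1)
    with e | ⟨j, μ, h0, e⟩
  · exact Or.inl (ok.ker2 hZ (ac.congr e) (k := 2) (by erw [pow4, sq, C_sq]))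
  obtain ⟨m, -, b, am⟩ := h.ci.G1 j
  obtain ⟨k, e₁, e₂⟩ := ev_inv j
  obtain ⟨n, v, c', hn, e'⟩ := h.z4 ((b.mul hZ).mul b.inv) h0
    (((am.mul ac).mul (ok.Ac_inv am e₁)).congr fun v => by simp only [Function.comp, e, e₂])
    (c := c) (by rw [conj_mul, sq, cj_of (b c)])
  obtain ⟨x, hx, e''⟩ := h.rC h0 0 c'
  rw [C, e''] at e'
  rw [← cj_inv_cj m a, e']
  exact Or.inr ⟨(((ok.DD_r (h.ci.lam μ) h0).conj _).conj _).conj _,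
    (((ok.ZL_r μ).conj (h.gz.mul_left (hx 0 1))).conj (ok.InD_cz hn 1)).conj (b.inv 1)⟩

end Dat

end Cfsg.Agent.LT
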