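import Cfsg.Agent.LT.LemB
import Cfsg.Agent.H49.SylowOf

/-! Construction of the data `δ` (notes/LX.md, section LemD). -/

set_option autoImplicit false

namespace Cfsg.Agent.LT

open Subgroup H29 LS
open scoped commutatorElement

namespace D24

variable {G : Type*} [Group G]

theorem invol : ∀ (n : ℕ) (x : G), x ≠ 1 → x ^ 2 ^ n = 1 → ∃ m : ℕ, x ^ m * x ^ m = 1 ∧ x ^ m ≠ 1
  | 0, x, h, e => absurd (by simpa using e) h
  | n + 1, x, h, e => by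
    by_cases c : x ^ 2 = 1
    · exact ⟨1, by rwa [pow_one, ← pow_two], by rwa [pow_one]⟩
    · obtain ⟨m, h1, h2⟩ := invol n (x ^ 2) c (by rwa [← pow_mul, ← pow_succ'])
      exact ⟨2 * m, by rwa [pow_mul], by rwa [pow_mul]⟩

theorem pg_zpowers {x : G} {n : ℕ} (e : x ^ 2 ^ n = 1) : IsPGroup 2 (zpowers x) := by
  rintro ⟨_, i, rfl⟩
  refine ⟨n, Subtype.ext ?_⟩
  change (x ^ i) ^ 2 ^ n = 1
  rw [← zpow_natCast, ← zpow_mul, mul_comm, zpow_mul, zpow_natCast, e, one_zpow]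

variable [Finite G] {ι ι' : P →* G}

theorem odd_part (k : G) : ∃ m n : ℕ, Odd m ∧ (k ^ m) ^ 2 ^ n = 1 := by
  obtain ⟨n, m, hm, e⟩ := Nat.exists_eq_two_pow_mul_odd (orderOf_pos k).ne'
  exact ⟨m, n, hm, by rw [← pow_mul, mul_comm, ← e, pow_orderOf_eq_one]⟩

omit [Finite G] in
theorem c_add (ι : P →* G) (c d : F) : ι (u 0 0 (c + d)) = ι (u 0 0 c) * ι (u 0 0 d) := by
  rw [← map_mul, u_mul]
  simp

omit [Finite G] in
theorem c_sq (ι : P →* G) (c : F) : ι (u 0 0 c) * ι (u 0 0 c) = 1 := by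
  rw [← map_mul, LA.c_sq, map_one]

omit [Finite G] in
theorem c_ne (h : Hy ι) {c : F} (hc : c ≠ 0) : ι (u 0 0 c) ∉ Kc ι := fun e => hc (LA.u_one (h.LKu e)).2.2

theorem key (h : Hy ι) (f : Fr ι ι') {t : G} (ht : t ∈ Kc ι) (t2 : t * t = 1) (t1 : t ≠ 1) {c : F}
    (hc : c ≠ 0) (hs : t * ι (u 0 0 c) ∈ Kc ι') :
    (∀ a b d, ι (u a b d) ∈ ι'.range) ∧ (∀ p, Commute (ι' p) (ι (u 0 0 c)) → p ^ 2 ^ 2 = 1 → ι' p ∈ ι.range) ∧
      ∀ k ∈ Kc ι, Commute k t → ∃ d, k * ι (u 0 0 d) ∈ Kc ι' := by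
  have h' := h.fr f
  have c1 : u 0 0 c ≠ 1 := fun e => hc (LA.u_one e).2.2
  have hT : ∀ a b d, ι (u a b d) ∈ ι'.range := fun a b d =>
    (h.lemB f ht t2 t1 (LA.c_sq c) c1 hs).1 _ (LT.B24.comm_uz a b d c) (u_four ..)
  obtain ⟨l, hl⟩ := hT 0 0 c
  have e : t * ι (u 0 0 c) * ι' l = t := by rw [hl, mul_assoc, c_sq, mul_one]
  obtain ⟨k1, k2⟩ := h'.lemB f.symm hs (l := l)
    (by rw [(mem_Kc.1 ht _).symm.mul_mul_mul_comm, t2, c_sq, mul_one])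
    (fun e => c_ne h hc (by rw [eq_inv_of_mul_eq_one_right e]; exact inv_mem ht))
    (h'.inj (by rw [map_mul, hl, c_sq, map_one]))
    (fun e => c1 (h.inj (by rw [← hl, e, map_one, map_one]))) (by rwa [e])
  have cm : ∀ {p q}, Commute (ι' p) (ι' q) → Commute p q := fun c =>
    h'.inj (by rw [map_mul, map_mul]; exact c)
  refine ⟨hT, fun p c => k1 p (cm (by rwa [hl])), fun k hk c => ?_⟩
  obtain ⟨k', hk', p, p2, hp, rfl⟩ := k2 k hk (by rwa [e])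
  obtain ⟨q, hq⟩ := k1 p (hp l (Commute.refl l)).symm (LA.four_of (by rw [p2, one_mul]))
  have hc' : ∀ a b d, Commute q (u a b d) := fun a b d => by
    obtain ⟨p', e'⟩ := hT a b d
    have := (hp p' (cm (by rw [e', hl]; exact (LT.B24.comm_uz a b d _).map ι))).map ι'
    rw [e', ← hq] at this
    exact h.inj (by rw [map_mul, map_mul]; exact this.symm)
  obtain ⟨a, b, d, rfl⟩ := cent_z2 (hc' 0 0 1) (n := 1) (h.inj (by
    rw [pow_one, pow_two, map_mul, hq, ← map_mul, p2, map_one, map_one]))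
  have e1 := LT.B24.comm_u (hc' 0 1 0)
  have e2 := LT.B24.comm_u (hc' 1 0 0)
  rw [mul_one, zero_mul] at e1
  rw [mul_zero, one_mul] at e2
  subst e1 e2
  exact ⟨d, by rwa [← hq, mul_assoc, c_sq, mul_one]⟩

omit [Finite G] in
theorem ps_mul {k k' : G} {c d : F} (hk' : k' ∈ Kc ι) (e : k * ι (u 0 0 c) ∈ Kc ι')
    (e' : k' * ι (u 0 0 d) ∈ Kc ι') : k * k' * ι (u 0 0 (c + d)) ∈ Kc ι' := by
  rw [c_add, (mem_Kc.1 hk' _).mul_mul_mul_comm]
  exact mul_mem e e'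

omit [Finite G] in
theorem ps_inv {k : G} {c : F} (hk : k ∈ Kc ι) (e : k * ι (u 0 0 c) ∈ Kc ι') :
    k⁻¹ * ι (u 0 0 c) ∈ Kc ι' := by
  have := inv_mem e
  rwa [(mem_Kc.1 hk _).mul_inv, inv_eq_of_mul_eq_one_right (c_sq ι c)] at this

omit [Finite G] in
theorem ps_zero {k : G} : k * ι (u 0 0 0) ∈ Kc ι' ↔ k ∈ Kc ι' := by rw [u_zero, map_one, mul_one]

end D24

open LT.D24

theorem ok_of_good {G : Type*} [Group G] [Finite G] {ι : P →* G} (h : Hy ι) {t : G} (ht : t ∈ Kc ι)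
    (t2 : t * t = 1) (t1 : t ≠ 1) (hs : DD ι (t * ι (u 0 0 1))) : ∃ δ : Dat G, δ.OK ∧ δ.ι = ι := by
  classical
  obtain ⟨g, hg, gz⟩ : ∃ g, t * ι (u 0 0 1) ∈ Kc (cj g ι) ∧ cj g ι (u 0 0 1) = ι (u 0 0 1) := by
    obtain ⟨g0, h0⟩ := hs.exists_fr
    have h' := h.fr (Fr.cj ι g0)
    obtain ⟨l, hl⟩ := (key h (Fr.cj ι g0) ht t2 t1 one_ne_zero h0).1 0 0 1
    obtain ⟨x, hx⟩ := inv_conj (p := l) (h'.inj (by rw [map_mul, hl, c_sq, map_one]))
      (fun e => LA.z_ne (h.inj (by rw [← hl, e, map_one, map_one])))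
    refine ⟨g0 * ι x⁻¹, ?_, ?_⟩
    · rw [mem_Kc_cj] at h0 ⊢
      simpa [mul_assoc] using Kc_conj (mem_Nn_self x) h0
    · rw [← hl, ← hx]
      simp [cj_apply, mul_assoc]
  generalize hι : cj g ι = ι' at hg gz
  have f : Fr ι ι' := hι ▸ Fr.cj ι g
  have h' := h.fr f
  obtain ⟨hT, hT', hk⟩ := key h f ht t2 t1 one_ne_zero hg
  have uq : ∀ d, ι (u 0 0 d) ∈ Kc ι' → d = 0 := fun d e => by
    obtain ⟨p, hp⟩ := hT 0 0 d
    rw [← hp] at e
    exact (LA.u_one (h.inj (by rw [← hp, h'.LK1 e (h'.inj (by rw [map_mul, hp, c_sq, map_one])), map_one, map_one]))).2.2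
  obtain ⟨R, hR, tR⟩ := H49.exists_sylowOf_ge (p := 2) (X := zpowers t) (M := Kc ι)
    (H49.isPi_of_isPGroup Nat.prime_two (pg_zpowers (n := 1) (by rwa [pow_one, pow_two])))
    (zpowers_le.2 ht)
  replace tR := tR (mem_zpowers t)
  have pR := (H49.Cfsg.IsPiHallOf.pi hR).isPGroup Nat.prime_two
  have ker : ∀ k ∈ R, k ∈ Kc ι' → k = 1 := fun k hk hk' => by
    by_contra k1
    obtain ⟨n, hn⟩ := pR ⟨k, hk⟩
    obtain ⟨m, h1, h2⟩ := invol n k k1 (congrArg Subtype.val hn)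
    have := h.same f (pow_mem (hR.1 hk) m) (pow_mem hk' m) h1 h2
    rw [Kc, this] at hg
    exact c_ne h one_ne_zero ((mul_mem_cancel_left ht).1 hg)
  have inj : ∀ k ∈ R, ∀ k' ∈ R, ∀ d, k * ι (u 0 0 d) ∈ Kc ι' → k' * ι (u 0 0 d) ∈ Kc ι' → k = k' :=
    fun k hk k' hk' d e e' => by
      have := ps_mul (inv_mem (hR.1 hk')) e (ps_inv (hR.1 hk') e')
      rw [SA.two, ps_zero] at this
      exact mul_inv_eq_one.1 (ker _ (mul_mem hk (inv_mem hk')) this)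
  have all : ∀ k ∈ R, ∃ d, k * ι (u 0 0 d) ∈ Kc ι' := by
    haveI : Nontrivial R := (nontrivial_iff_exists_ne_one R).2 ⟨t, tR, t1⟩
    haveI : Fact (Nat.Prime 2) := ⟨Nat.prime_two⟩
    obtain ⟨⟨z, hz⟩, z1⟩ := @exists_ne _ pR.center_nontrivial 1
    obtain ⟨n, hn⟩ := pR z
    obtain ⟨m, h1, h2⟩ := invol n (z : G) (fun e => z1 (Subtype.ext (Subtype.ext e)))
      (congrArg Subtype.val hn)
    have cz : ∀ k ∈ R, Commute k ((z : G) ^ m) := fun k hk =>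
      Commute.pow_right (congrArg Subtype.val (mem_center_iff.1 hz ⟨k, hk⟩)) m
    have hz' := pow_mem z.2 m
    obtain ⟨ρ, hρ⟩ := hk _ (hR.1 hz') (cz t tR).symm
    intro k hk
    exact (key h f (hR.1 hz') h1 h2 (fun e => h2 (ker _ hz' (by rwa [e, ps_zero] at hρ))) hρ).2.2 k
      (hR.1 hk) (cz k hk)
  have ab : ∀ k ∈ R, Commute k t := fun k hk => by
    obtain ⟨d, hd⟩ := all k hk
    exact inj _ (mul_mem hk tR) _ (mul_mem tR hk) _ (ps_mul ht hd hg)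
      (add_comm d 1 ▸ ps_mul (hR.1 hk) hg hd)
  let I : F → Prop := fun d => ∃ k ∈ R, k * ι (u 0 0 d) ∈ Kc ι'
  have Iadd : ∀ a b, I a → I b → I (a + b) := fun a b ⟨k, hk, e⟩ ⟨k', hk', e'⟩ =>
    ⟨_, mul_mem hk hk', ps_mul (hR.1 hk') e e'⟩
  have I0 : I 0 := ⟨1, one_mem _, ps_zero.2 (one_mem _)⟩
  have I1 : I 1 := ⟨t, tR, hg⟩
  have Idef : ∀ d, I d ↔ ∃ k ∈ R, k * ι (u 0 0 d) ∈ Kc ι' := fun _ => Iff.rfl
  clear_value I
  have hL : ∀ d, Lam (decide (I ω)) d ↔ I d := fun d => by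
    rw [Lam, decide_eq_true_iff]
    rcases (by decide : ∀ x : F, x = 0 ∨ x = 1 ∨ x = ω ∨ x = ω + 1) d with rfl | rfl | rfl | rfl
    · simp [I0]
    · simp [I1]
    · exact ⟨fun e => e.resolve_right (by decide), Or.inl⟩
    · exact ⟨fun e => Iadd _ _ (e.resolve_right (by decide)) I1,
        fun e => Or.inl (by have := Iadd _ _ e I1; rwa [add_assoc, SA.two, add_zero] at this)⟩
  have hr : ∀ d, ∃ k ∈ R, I d → k * ι (u 0 0 d) ∈ Kc ι' := fun d => by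
    by_cases e : I d
    · obtain ⟨k, hk, e⟩ := (Idef d).1 e
      exact ⟨k, hk, fun _ => e⟩
    · exact ⟨1, one_mem _, fun e' => absurd e' e⟩
  choose r rR hr using hr
  have r1 : r 1 = t := inj _ (rR 1) _ tR 1 (hr 1 I1) hg
  refine ⟨⟨ι, decide (I ω), r, g⟩, ⟨h, fun ρ => hR.1 (rR ρ), fun a b ha hb => ?_, fun a ha a0 e => ?_,
    fun a b c => ?_, fun ρ e => hι ▸ hr ρ ((hL ρ).1 e), fun k kK c => ?_, fun k kK k2 => ?_⟩, rfl⟩
  · replace ha := (hL a).1 ha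
    replace hb := (hL b).1 hb
    exact inj _ (rR _) _ (mul_mem (rR a) (rR b)) _ (hr _ (Iadd a b ha hb))
      (ps_mul (hR.1 (rR b)) (hr a ha) (hr b hb))
  · have := hr a ((hL a).1 ha)
    rw [show r a = 1 from e, one_mul] at this
    exact a0 (uq a this)
  · have c1 : Commute (ι' (u a b c)) (ι (u 0 0 1)) := gz ▸ (LT.B24.comm_uz a b c 1).map ι'
    obtain ⟨q, hq⟩ := hT' _ c1 (u_four ..)
    obtain ⟨a', b', c', rfl⟩ := cent_z2 (p := q)
      (h.inj (by rw [map_mul, map_mul, hq]; exact c1)) (n := 2) (h.inj (by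
        rw [map_pow, hq, ← map_pow, u_four, map_one, map_one]))
    exact ⟨a', b', c', by rw [← hι] at hq; exact hq.symm⟩
  · replace c : Commute k t := r1 ▸ c
    obtain ⟨d, hd⟩ := hk k kK c
    have hI : I d := by
      obtain ⟨m, n, hm, e⟩ := odd_part k
      obtain ⟨x, hx, le⟩ := H49.sylowOf_subJ (H49.Cfsg.IsPiHallOf.sub hR (L := Kc ι ⊓ centralizer {t})
        (fun y hy => ⟨hR.1 hy, mem_centralizer_singleton_iff.2 (ab y hy)⟩) inf_le_left)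
        (X := zpowers (k ^ m)) (zpowers_le.2 (pow_mem (mem_inf.2 ⟨kK, mem_centralizer_singleton_iff.2 c⟩) m))
        (H49.isPi_of_isPGroup Nat.prime_two (pg_zpowers e))
      refine (Idef d).2 ⟨x * k ^ m * x⁻¹, le ⟨_, mem_zpowers _, rfl⟩, ?_⟩
      obtain ⟨d', hd'⟩ := hk x hx.1 (mem_centralizer_singleton_iff.1 hx.2)
      have e1 : k ^ m * ι (u 0 0 d) ∈ Kc ι' := by
        obtain ⟨j, rfl⟩ := hm
        have := pow_mem hd (2 * j + 1)
        rwa [(mem_Kc.1 kK _).mul_pow, pow_succ (ι _), pow_mul (ι _), pow_two, c_sq, one_pow,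
          one_mul] at this
      have := ps_mul (inv_mem hx.1) (ps_mul (pow_mem kK m) hd' e1) (ps_inv hx.1 hd')
      rwa [add_right_comm, SA.two, zero_add] at this
    refine ⟨d, (hL d).2 hI, ?_⟩
    have := ps_mul (hR.1 (rR d)) hd (hr d hI)
    rw [SA.two, ps_zero, ← hι] at this
    exact this
  · obtain ⟨x, hx, le⟩ := H49.sylowOf_subJ hR (X := zpowers k) (zpowers_le.2 kK)
      (H49.isPi_of_isPGroup Nat.prime_two (pg_zpowers (n := 1) (by rwa [pow_one, pow_two])))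
    have hm : x * k * x⁻¹ ∈ R := le ⟨_, mem_zpowers _, rfl⟩
    obtain ⟨d, hd⟩ := all _ hm
    have hI := (Idef d).2 ⟨_, hm, hd⟩
    exact ⟨x, hx, d, (hL d).2 hI, inj _ hm _ (rR d) d hd (hr d hI)⟩

end Cfsg.Agent.LT
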