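import Cfsg.Agent.LT.Defs

/-! Matrix facts in `SL₃(4)` and its automorphisms, read off from `L₃(4)`. -/

set_option autoImplicit false

namespace Cfsg.Agent.LT

open Subgroup H29 LS
open scoped commutatorElement

theorem pr_u (a b c : F) : pr (u a b c) = LS.u a b c := rfl

theorem pr_hh : pr hh = LS.hh := rfl

theorem pr_w1 : pr w1 = LS.w1 := rfl

theorem pr_surj : Function.Surjective pr := QuotientGroup.mk'_surjective _

theorem pr_eq_one {p : P} : pr p = 1 ↔ p ∈ center P := QuotientGroup.eq_one_iff p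

theorem pr_eq {p q : P} (h : pr p = pr q) : ∃ y ∈ center P, p = q * y :=
  ⟨q⁻¹ * p, pr_eq_one.1 (by rw [map_mul, map_inv, h, inv_mul_cancel]), by simp⟩

theorem cen_cube {y : P} (h : y ∈ center P) : y ^ 3 = 1 := by
  obtain ⟨r, h1, h2⟩ := Matrix.SpecialLinearGroup.mem_center_iff.1 h
  apply Subtype.ext
  rw [Matrix.SpecialLinearGroup.coe_pow, ← h2, ← map_pow]
  rw [show r ^ 3 = 1 by simpa using h1, map_one]
  rfl

theorem cen_comm {y : P} (h : y ∈ center P) (p : P) : Commute p y := mem_center_iff.1 h p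

/-- a central `2`-element is trivial -/
theorem cen_two {y : P} (h : y ∈ center P) {n : ℕ} (e : y ^ 2 ^ n = 1) : y = 1 := by
  have := Nat.dvd_gcd (orderOf_dvd_of_pow_eq_one e) (orderOf_dvd_of_pow_eq_one (cen_cube h))
  rw [Nat.Coprime.gcd_eq_one (Nat.Coprime.pow_left n (by norm_num))] at this
  exact orderOf_eq_one_iff.1 (Nat.dvd_one.1 this)

theorem cen_sq {y : P} (h : y ∈ center P) (e : y * y = 1) : y = 1 :=
  cen_two h (n := 1) (by rw [pow_one, pow_two, e])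

/-- `2`-elements are determined by their images -/
theorem eq_of_pr {p q : P} (h : pr p = pr q) {n : ℕ} (hp : p ^ 2 ^ n = 1) (hq : q ^ 2 ^ n = 1) : p = q := by
  obtain ⟨y, hy, rfl⟩ := pr_eq h
  rw [(cen_comm hy q).mul_pow, hq, one_mul] at hp
  rw [cen_two hy hp, mul_one]

theorem y0_mem : y0 ∈ center P := mem_center_iff.2 fun p => Subtype.ext (by
  change (p : Matrix (Fin 3) (Fin 3) F) * !![ω, 0, 0; 0, ω, 0; 0, 0, ω] = !![ω, 0, 0; 0, ω, 0; 0, 0, ω] * p
  rw [show (!![ω, 0, 0; 0, ω, 0; 0, 0, ω] : Matrix (Fin 3) (Fin 3) F) = ω • 1 by decide +kernel]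
  simp)

theorem y0_ne : y0 ≠ 1 := fun e => absurd (congrArg Subtype.val e) (by decide +kernel)

theorem u_mul (a b c a' b' c' : F) :
    u a b c * u a' b' c' = u (a + a') (b + b') (c + c' + a * b') :=
  Subtype.ext (by
    change !![1, a, c; 0, 1, b; 0, 0, 1] * !![1, a', c'; 0, 1, b'; 0, 0, 1] =
      !![1, a + a', c + c' + a * b'; 0, 1, b + b'; 0, 0, 1]
    rw [Matrix.mul_fin_three, add_comm a, add_comm b, show c + c' + a * b' = c' + a * b' + c by ring]
    simp)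

theorem u_zero : u 0 0 0 = 1 := Subtype.ext (by decide +kernel)

theorem u_inj {a b c a' b' c' : F} (h : u a b c = u a' b' c') : a = a' ∧ b = b' ∧ c = c' :=
  LS.u_inj (congrArg pr h)

theorem u_four (a b c : F) : u a b c ^ 2 ^ 2 = 1 := by
  rw [show 2 ^ 2 = 2 * 2 from rfl, pow_mul, pow_two, pow_two, u_mul, u_mul, SA.two, SA.two, SA.two, SA.two,
    SA.two, zero_mul, add_zero, u_zero]

theorem u_central {a b c : F} (h : u a b c ∈ center P) : u a b c = 1 := cen_two h (u_four a b c)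

theorem eq_u {p : P} {a b c : F} (h : pr p = LS.u a b c) {n : ℕ} (hp : p ^ 2 ^ n = 1) : p = u a b c :=
  eq_of_pr (n := n + 2) h (by rw [pow_add, pow_mul, hp, one_pow])
    (by rw [pow_add, mul_comm, pow_mul, u_four, one_pow])

theorem aut_four (β : MulAut P) (a b c : F) : β (u a b c) ^ 2 ^ 2 = 1 := by rw [← map_pow, u_four, map_one]

theorem hh_u (a b c : F) : hh * u a b c * hh⁻¹ = u (ω * a) (ω * b) (ω * ω * c) :=
  eq_u (by rw [map_mul, map_mul, map_inv]; exact LS.hh_u a b c) (aut_four (MulAut.conj hh) a b c)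

theorem hh_cube : hh ^ 3 = 1 := Subtype.ext (by decide +kernel)

theorem w1_u (a c : F) : w1 * u a 0 c * w1⁻¹ = u c 0 a :=
  eq_u (by rw [map_mul, map_mul, map_inv]; exact LS.w1_u a c) (aut_four (MulAut.conj w1) a 0 c)

theorem w1_hh : w1 * hh * w1⁻¹ = hh⁻¹ * y0⁻¹ := by
  rw [← mul_inv_rev, mul_inv_eq_iff_eq_mul, eq_inv_mul_iff_mul_eq]
  exact Subtype.ext (by decide +kernel)

theorem card_P : Nat.card P = 60480 := by
  have h1 : 3 * Nat.card M49.S3 = 181440 := (H9.card_sl_fin (F := F) 3 (by norm_num)).trans (by decide +kernel)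
  change Nat.card M49.S3 = _
  omega

instance : Finite P := Nat.finite_of_card_ne_zero (by rw [card_P]; norm_num)

theorem perfect_P : commutator P = ⊤ := H9.commutator_sl_eq_top (by simp)

/-- a subgroup that covers `L₃(4)` is everything -/
theorem top_of_pr (H : Subgroup P) (h : ∀ x, ∃ p ∈ H, pr p = x) : H = ⊤ := by
  refine eq_top_iff.2 (perfect_P ▸ commutator_le.2 fun a _ b _ => ?_)
  obtain ⟨p, hp, e⟩ := h (pr a)
  obtain ⟨q, hq, e'⟩ := h (pr b)
  obtain ⟨y, hy, rfl⟩ := pr_eq e.symm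
  obtain ⟨y', hy', rfl⟩ := pr_eq e'.symm
  have : ⁅p * y, q * y'⁆ = ⁅p, q⁆ := by
    rw [commutatorElement_def, commutatorElement_def, mul_inv_rev, mul_inv_rev]
    calc p * y * (q * y') * (y⁻¹ * p⁻¹) * (y'⁻¹ * q⁻¹)
        = p * (y * (q * y') * y⁻¹) * (p⁻¹ * y'⁻¹) * q⁻¹ := by group
      _ = p * q * (y' * y'⁻¹) * p⁻¹ * q⁻¹ := by
        rw [(cen_comm hy _).symm.mul_inv_cancel, (cen_comm hy' p⁻¹).inv_right.eq]; group
      _ = _ := by group
  rw [this]
  exact mul_mem (mul_mem (mul_mem hp hq) (inv_mem hp)) (inv_mem hq)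

/-- the induced automorphism of `L₃(4)` -/
noncomputable def bar : MulAut P →* MulAut LS.P where
  toFun β := centerQuotEquiv β
  map_one' := MulEquiv.ext fun x => by
    obtain ⟨s, rfl⟩ := QuotientGroup.mk_surjective x
    rfl
  map_mul' g h := MulEquiv.ext fun x => by
    obtain ⟨s, rfl⟩ := QuotientGroup.mk_surjective x
    rfl

theorem bar_pr (β : MulAut P) (p : P) : bar β (pr p) = pr (β p) := rfl

theorem bar_inj : Function.Injective bar := by
  refine (injective_iff_map_eq_one _).2 fun β h => ?_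
  have c : ∀ p, p⁻¹ * β p ∈ center P := fun p =>
    pr_eq_one.1 (by rw [map_mul, ← bar_pr, h, map_inv]; simp)
  have : β.toMonoidHom.eqLocus (MonoidHom.id P) = ⊤ :=
    eq_top_iff.2 (perfect_P ▸ commutator_le.2 fun p _ q _ => ?_)
  · exact MulEquiv.ext fun p => (this.ge (mem_top p) : β p = p)
  · change β ⁅p, q⁆ = ⁅p, q⁆
    rw [map_commutatorElement, show β p = p * (p⁻¹ * β p) by group, show β q = q * (q⁻¹ * β q) by group]
    have hy := c p
    have hy' := c q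
    generalize p⁻¹ * β p = y, q⁻¹ * β q = y' at hy hy'
    rw [commutatorElement_def, commutatorElement_def, mul_inv_rev, mul_inv_rev]
    calc p * y * (q * y') * (y⁻¹ * p⁻¹) * (y'⁻¹ * q⁻¹)
        = p * (y * (q * y') * y⁻¹) * (p⁻¹ * y'⁻¹) * q⁻¹ := by group
      _ = p * q * (y' * y'⁻¹) * p⁻¹ * q⁻¹ := by
        rw [(cen_comm hy _).symm.mul_inv_cancel, (cen_comm hy' p⁻¹).inv_right.eq]; group
      _ = _ := by group

theorem bar_conj (p : P) : bar (MulAut.conj p) = MulAut.conj (pr p) := MulEquiv.ext fun x => by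
  obtain ⟨s, rfl⟩ := pr_surj x
  rw [bar_pr]; simp

theorem bar_dg (l m : Fˣ) : bar (dg l m) = LS.dg l m := rfl

theorem bar_fr : bar fr = LS.fr := rfl

theorem bar_gr : bar gr = LS.gr := by
  rw [gr, map_mul, bar_conj]; rfl

theorem bar_autS (x : SA) : bar x.autS = x.aut := by
  rw [SA.autS, SA.aut, map_mul, map_mul, bar_conj, pr_u]
  cases x.j <;> cases x.k <;> simp [bar_fr, bar_gr]

theorem bar_surj : Function.Surjective bar := fun β => by
  obtain ⟨g, j, k, rfl⟩ := A49.aut_cases β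
  refine ⟨slConj g * (cond j fr 1 * cond k gr 1), ?_⟩
  rw [map_mul, map_mul, A49.ph]
  cases j <;> cases k <;> simp [bar_fr, bar_gr] <;> rfl

theorem dg_u (l m : Fˣ) (a b c : F) : dg l m (u a b c) = u (l * a) (m * b) (l * m * c) :=
  eq_u (by rw [← bar_pr, bar_dg]; exact LS.dg_u l m a b c) (aut_four _ a b c)

theorem fr_u (a b c : F) : fr (u a b c) = u (a * a) (b * b) (c * c) :=
  eq_u (by rw [← bar_pr, bar_fr]; exact LS.fr_u a b c) (aut_four _ a b c)

theorem gr_u (a b c : F) : gr (u a b c) = u b a (c + a * b) :=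
  eq_u (by rw [← bar_pr, bar_gr]; exact LS.gr_u a b c) (aut_four _ a b c)

theorem dg_hh (l m : Fˣ) : dg l m hh = hh := Subtype.ext (by
  change (Matrix.GeneralLinearGroup.mkOfDetNeZero _ _ : GL (Fin 3) F).val * (hh : P).val * _ = _
  rw [show ∀ g : GL (Fin 3) F, g.val = !![(l : F) * m, 0, 0; 0, m, 0; 0, 0, 1] →
    g.val * (hh : P).val * (g⁻¹).val = (hh : P).val from fun g e => ?_]
  · rfl
  · rw [show g.val * (hh : P).val = (hh : P).val * g.val from ?_, Matrix.mul_assoc, Units.mul_inv, Matrix.mul_one]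
    rw [e]
    exact (by decide +kernel : ∀ l m : F, !![l * m, 0, 0; 0, m, 0; 0, 0, 1] * !![ω, 0, 0; 0, 1, 0; 0, 0, ω * ω] =
      !![ω, 0, 0; 0, 1, 0; 0, 0, ω * ω] * !![l * m, 0, 0; 0, m, 0; 0, 0, 1]) l m)

theorem gr_hh : gr hh = hh := by
  have e : hh⁻¹ = hh * hh := inv_eq_of_mul_eq_one_right (by rw [← hh_cube, pow_three])
  rw [gr, MulAut.mul_apply, MulAut.conj_apply, mul_inv_eq_iff_eq_mul]
  refine Subtype.ext ?_
  rw [Matrix.SpecialLinearGroup.coe_mul, invTSL_coe, e]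
  decide +kernel

theorem gr_gr : gr * gr = 1 := bar_inj (by rw [map_mul, bar_gr, LS.gr_gr, map_one])

theorem dg_one : dg 1 1 = 1 := bar_inj (by rw [bar_dg, LS.dg_one, map_one])

theorem cent_z {p : P} (h : Commute p (u 0 0 1)) : ∃ a b c, ∃ y ∈ center P, p = u a b c * y := by
  obtain ⟨a, b, c, e⟩ := LS.cent_z (h.map pr)
  exact ⟨a, b, c, pr_eq e⟩

theorem cent_z2 {p : P} (h : Commute p (u 0 0 1)) {n : ℕ} (hp : p ^ 2 ^ n = 1) : ∃ a b c, p = u a b c := by
  obtain ⟨a, b, c, e⟩ := LS.cent_z (h.map pr)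
  exact ⟨a, b, c, eq_u e hp⟩

/-- a normal subgroup is central or everything -/
theorem quasi_P (H : Subgroup P) [hH : H.Normal] : H ≤ center P ∨ H = ⊤ := by
  rcases LS.simple_P.eq_bot_or_eq_top_of_normal (H.map pr) (hH.map pr pr_surj) with e | e
  · exact Or.inl fun p hp => pr_eq_one.1 (mem_bot.1 (e ▸ mem_map_of_mem pr hp))
  · exact Or.inr (top_of_pr H fun x => e.ge (mem_top x))

namespace M49

theorem mul_conj {G : Type*} [Group G] (β : MulAut G) (p : G) : β * MulAut.conj p = MulAut.conj (β p) * β :=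
  LS.M49.mul_conj β p

theorem u_inv (a b c : F) : (u a b c)⁻¹ = u a b (c + a * b) :=
  inv_eq_of_mul_eq_one_right (by rw [u_mul, SA.two, SA.two, ← add_assoc, SA.two, zero_add, SA.two, u_zero])

/-- the unitriangular group -/
def Tg : Subgroup P where
  carrier := {p | ∃ a b c, p = u a b c}
  mul_mem' := by rintro _ _ ⟨a, b, c, rfl⟩ ⟨a', b', c', rfl⟩; exact ⟨_, _, _, u_mul ..⟩
  one_mem' := ⟨0, 0, 0, u_zero.symm⟩
  inv_mem' := by rintro _ ⟨a, b, c, rfl⟩; exact ⟨_, _, _, u_inv ..⟩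

theorem card_Tg : Nat.card Tg = 64 := by
  rw [← Nat.card_congr (Equiv.ofBijective (fun x : F × F × F => (⟨u x.1 x.2.1 x.2.2, _, _, _, rfl⟩ : Tg))
    ⟨fun x y e => by
      obtain ⟨a, b, c⟩ := u_inj (congrArg Subtype.val e)
      exact Prod.ext a (Prod.ext b c), by rintro ⟨_, a, b, c, rfl⟩; exact ⟨(a, b, c), rfl⟩⟩),
    Nat.card_eq_fintype_card]
  rfl

theorem conj_into {G : Type*} [Group G] [Finite G] {H Y : Subgroup G} {k m : ℕ} (h : Nat.card H = 2 ^ k)
    (hG : Nat.card G = 2 ^ k * m) (hm : ¬ 2 ∣ m) (hY : IsPGroup 2 Y) : ∃ g, ∀ y ∈ Y, g * y * g⁻¹ ∈ H :=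
  LS.M49.conj_into h hG hm hY

end M49

theorem inv_conj {p : P} (h : p * p = 1) (h1 : p ≠ 1) : ∃ g, g * p * g⁻¹ = u 0 0 1 := by
  obtain ⟨x, e⟩ := LS.inv_conj (p := pr p) (by rw [← map_mul, h, map_one]) fun e => h1 (cen_sq (pr_eq_one.1 e) h)
  obtain ⟨g, rfl⟩ := pr_surj x
  exact ⟨g, eq_u (n := 1) (by rw [map_mul, map_mul, map_inv, e]) (by
    rw [pow_one, pow_two, conj_mul, h, mul_one, mul_inv_cancel])⟩

theorem gen_P (H : Subgroup P) (h : ∀ a b c, u a b c ∈ H) (h1 : w1 ∈ H) (h2 : gr w1 ∈ H) : H = ⊤ :=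
  top_of_pr H fun x => (LS.gen_P (H.map pr) (fun a b c => ⟨_, h a b c, rfl⟩) ⟨_, h1, rfl⟩
    ⟨_, h2, by rw [← bar_pr, bar_gr]; rfl⟩).ge (mem_top x)

namespace A49

/-- the outer part -/
noncomputable def ph (j k : Bool) : MulAut P := cond j fr 1 * cond k gr 1

theorem ph_u (j k : Bool) (a b c : F) :
    ph j k (u a b c) = u (SA.ac j k a b c).1 (SA.ac j k a b c).2.1 (SA.ac j k a b c).2.2 := by
  cases j <;> cases k <;> simp [ph, SA.ac, SA.fz, fr_u, gr_u]

theorem aut_eq (x : SA) : x.autS = MulAut.conj (u x.a x.b x.c) * ph x.j x.k := mul_assoc _ _ _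

end A49

theorem aut_mul (x y : SA) : (x * y).autS = x.autS * y.autS :=
  bar_inj (by rw [map_mul, bar_autS, bar_autS, bar_autS, LS.aut_mul])

theorem aut_u (x : SA) (a b c : F) : x.autS (u a b c) = u (x * ⟨a, b, c, false, false⟩ * x⁻¹).a
    (x * ⟨a, b, c, false, false⟩ * x⁻¹).b (x * ⟨a, b, c, false, false⟩ * x⁻¹).c :=
  eq_u (by rw [← bar_pr, bar_autS]; exact LS.aut_u x a b c) (aut_four _ a b c)

theorem aut_inj {x : SA} (h : x.autS = 1) : x = 1 := LS.aut_inj (by rw [← bar_autS, h, map_one])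

theorem aut_T (β : MulAut P) (h : ∀ a b c, ∃ a' b' c', β (u a b c) = u a' b' c') :
    ∃ (l m : Fˣ) (x : SA), β = dg l m * x.autS := by
  obtain ⟨l, m, x, e⟩ := LS.aut_T (bar β) fun a b c => by
    obtain ⟨a', b', c', e⟩ := h a b c
    exact ⟨a', b', c', by rw [← pr_u, bar_pr, e]; rfl⟩
  exact ⟨l, m, x, bar_inj (by rw [e, map_mul, bar_dg, bar_autS])⟩

theorem inner_comm {β : MulAut P} (h : β ∈ commutator (MulAut P)) {n : ℕ} (e : β ^ 2 ^ n = 1) :
    ∃ p, β = MulAut.conj p := by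
  obtain ⟨x, hx⟩ := LS.inner_comm (β := bar β) (n := n)
    (by
      have := mem_map_of_mem bar h
      rw [_root_.commutator_def, map_commutator] at this
      exact commutator_mono le_top le_top this) (by rw [← map_pow, e, map_one])
  obtain ⟨p, rfl⟩ := pr_surj x
  exact ⟨p, bar_inj (by rw [hx, bar_conj])⟩

theorem inner_sq (β : MulAut P) {n : ℕ} (e : (β * β) ^ 2 ^ n = 1) :
    ∃ p, β * β = MulAut.conj p := by
  obtain ⟨x, hx⟩ := LS.inner_sq (bar β) (n := n) (by rw [← map_mul, ← map_pow, e, map_one])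
  obtain ⟨p, rfl⟩ := pr_surj x
  exact ⟨p, bar_inj (by rw [map_mul, hx, bar_conj])⟩

theorem exists_sa (Y : Subgroup (MulAut P)) (hY : IsPGroup 2 Y) :
    ∃ β : MulAut P, ∀ y ∈ Y, ∃ x : SA, y = β * x.autS * β⁻¹ := by
  obtain ⟨β, hβ⟩ := LS.exists_sa (Y.map bar) (hY.map _)
  obtain ⟨β, rfl⟩ := bar_surj β
  refine ⟨β, fun y hy => ?_⟩
  obtain ⟨x, e⟩ := hβ _ (mem_map_of_mem bar hy)
  exact ⟨x, bar_inj (by rw [e, map_mul, map_mul, map_inv, bar_autS])⟩

end Cfsg.Agent.LT
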