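import Cfsg.Agent.LT.Z2

/-! Reflections (notes/LX.md, section NR1). -/

set_option autoImplicit false

namespace Cfsg.Agent.LT

open Subgroup H29 LS
open scoped commutatorElement

namespace Dat

variable {G : Type*} [Group G] [Finite G] {δ : Dat G}

/-- candidates for reflections -/
def Pr (δ : Dat G) (n : G) : Prop := δ.Ac n swp ∧ (∀ p, n * δ.ι p * n⁻¹ = δ.ι (LT.gr p)) ∧
  ∀ ρ, Commute n (δ.r ρ)

omit [Finite G] in
theorem gr_two (p : P) : LT.gr (LT.gr p) = p := by rw [← MulAut.mul_apply, gr_gr]; rfl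

omit [Finite G] in
theorem Pr.cz {n : G} (h : δ.Pr n) : δ.CZ n := fun c =>
  of_cj ((h.2.1 _).trans (by rw [gr_u, mul_zero, add_zero]; rfl))

omit [Finite G] in
theorem Pr.pow {n : G} (h : δ.Pr n) : ∀ k, δ.Pr (n ^ (2 * k + 1))
  | 0 => by simpa using h
  | k + 1 => by
    have := h.pow k
    rw [show 2 * (k + 1) + 1 = 2 * k + 1 + 1 + 1 by ring, pow_succ, pow_succ]
    exact ⟨((this.1.mul h.1).mul h.1).congr fun _ => rfl,
      fun p => by rw [cj_mul, cj_mul, h.2.1, h.2.1, gr_two, this.2.1],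
      fun ρ => ((this.2.2 ρ).mul_left (h.2.2 ρ)).mul_left (h.2.2 ρ)⟩

theorem CI.exists_Rf (h : δ.CI) {n : G} (hZ : δ.CZ n) {i : Ix} (ac : δ.Ac n (ev i ∘ swp)) :
    ∃ γ, δ.Rf γ := by
  have ok := h.1.ok
  have l : ∀ ρ, Lam δ.e ρ := fun ρ => Or.inl h.2
  obtain ⟨n, hn⟩ : ∃ n, δ.Pr n := by
    obtain ⟨j, hj, -⟩ := ev_inv i
    obtain ⟨m, -, -, hm⟩ := h.G1 j
    have a0 : δ.Ac (m * n) swp := (hm.mul ac).congr fun v => hj _
    obtain ⟨c, hc⟩ := ok.InD_diff ok.InD_t (a0 _ _ ok.InD_t)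
    obtain ⟨y, hy, c1⟩ := ok.fix_t hc
    have a1 : δ.Ac (y⁻¹ * (m * n)) swp := (ok.InD_ac (ok.InD_inv (ok.InD_W hy))).mul a0
    have n1 := ok.cent_r (l 1) one_ne_zero c1
    obtain ⟨a, b, c, e⟩ := ok.hy.cG n1 fun a b => ok.InD_T (a1 _ _ (ok.InD_U a b 0))
    have a2 : δ.Ac (δ.U a b c * (y⁻¹ * (m * n))) swp := (ok.InD_ac (ok.InD_U a b c)).mul a1
    exact ⟨_, a2, e, fun ρ => of_cj (ok.InD_K (a2 _ _ (ok.InD_r (l ρ)))
      (Kc_conj (mul_mem (mem_Nn_self _) n1) (ok.rK ρ))).1⟩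
  have hw : ∀ {n y σ}, δ.Pr n → δ.Wy y σ → ∃ c, n * y * n⁻¹ = y * δ.C c := fun hn hy =>
    ok.InD_diff (ok.InD_W hy) (hn.1 _ _ (ok.InD_W hy))
  obtain ⟨y, hy⟩ := ok.exists_Wy 1
  obtain ⟨n, hn, n2⟩ : ∃ n, δ.Pr n ∧ n * n = 1 := by
    obtain ⟨o, ρ, ho, -, e⟩ := ok.cR (k := n * n)
      (mem_Kc.2 fun p => of_cj (by rw [cj_mul, hn.2.1, hn.2.1, gr_two]))
      fun ρ _ => (hn.2.2 ρ).mul_left (hn.2.2 ρ)
    obtain ⟨k, hk⟩ := ho.2.2
    have hm := hn.pow k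
    have e1 : n ^ (2 * k + 1) * n ^ (2 * k + 1) = δ.r ρ := by
      rw [← (Commute.refl n).mul_pow, e, (ho.2.1 ρ (l ρ)).mul_pow, ← hk, pow_orderOf_eq_one, one_mul, hk,
        pow_succ, pow_mul, pow_two, ok.r_sq (l ρ), one_pow, one_mul]
    obtain ⟨c, hc⟩ := hw hm hy
    have e2 := ok.r_W (l ρ) hy.1
    rw [← e1, cj_mul, hc, cj_dist, hc, cj_of (hm.cz c), mul_assoc, C_sq, mul_right_inj, mul_one,
      ← C_zero δ] at e2
    exact ⟨_, hm, by rw [e1, ← ok.C_inj e2, ok.r_zero]⟩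
  obtain ⟨c, hc⟩ := hw hn hy
  have hγ : δ.Pr (n * δ.r c) := ⟨hn.1.mul (ok.InD_ac (ok.InD_r (l c))),
    fun p => by rw [cj_mul, cj_of (ok.r_L c p), hn.2.1],
    fun ρ => (hn.2.2 ρ).mul_left (ok.r_comm (l c) (l ρ))⟩
  have c1 : Commute (n * δ.r c) y := of_cj (by
    rw [cj_mul, ok.r_W (l c) hy.1, cj_dist, hc, cj_of (hn.cz _), mul_one, mul_assoc, C_sq, mul_one])
  have ch : Commute (n * δ.r c) δ.h := of_cj ((hγ.2.1 hh).trans (by rw [gr_hh]; rfl))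
  have c2 := (ch.mul_right c1).mul_right ch.inv_right
  have c3 := (ch.mul_right c2).mul_right ch.inv_right
  refine ⟨n * δ.r c, by rw [(hn.2.2 c).symm.mul_mul_mul_comm, n2, ok.r_sq (l c), mul_one], hγ.1, hγ.2.1,
    hγ.2.2, fun y' σ hy' => ?_⟩
  obtain ⟨y0, h0, c0⟩ : ∃ y0, δ.Wy y0 σ ∧ Commute (n * δ.r c) y0 := by
    rcases (by decide : ∀ σ : F, σ = 0 ∨ σ = 1 ∨ σ = ω * ω * 1 ∨ σ = ω * ω * (ω * ω * 1)) σ with
      rfl | rfl | rfl | rfl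
    exacts [⟨1, ok.Wy_one, Commute.one_right _⟩, ⟨y, hy, c1⟩, ⟨_, ok.Wy_h hy, c2⟩,
      ⟨_, ok.Wy_h (ok.Wy_h hy), c3⟩]
  obtain ⟨c', rfl⟩ := ok.Wy_diff h0 hy'
  exact c0.mul_right (hγ.cz c')

/-- the group `T₁ = R W` -/
def Yg (ok : δ.OK) : Subgroup G where
  carrier := {j | ∃ ρ σ, δ.InD j (0, 0, ρ, σ)}
  mul_mem' := by
    rintro _ _ ⟨ρ, σ, h⟩ ⟨ρ', σ', h'⟩
    exact ⟨ρ + ρ', σ + σ', ok.InD_mul h h'⟩
  one_mem' := ⟨0, 0, δ.C_zero ▸ ok.InD_C 0⟩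
  inv_mem' := by
    rintro _ ⟨ρ, σ, h⟩
    exact ⟨ρ, σ, ok.InD_inv h⟩

theorem H0.Rf_ndd {g : G} (h : δ.H0 g) {γ : G} (r : δ.Rf γ) : ¬ DD δ.ι γ := by
  intro hD
  have ok := h.ci.1.ok
  have l : ∀ ρ, Lam δ.e ρ := fun ρ => Or.inl h.ci.2
  have cz : δ.CZ γ := Pr.cz ⟨r.ac, r.gr, r.cr⟩
  obtain ⟨y0, e0⟩ := h.ci.conj_t hD
  have ci' := h.ci.cj y0
  have ok' := ci'.1.ok
  replace e0 : γ = (δ.cj y0).r 1 := e0
  have cN : ∀ {n}, Commute γ n → n ∈ Nn (δ.cj y0).ι := fun c =>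
    ok'.cent_r (lam_one _) one_ne_zero (e0 ▸ c.symm)
  have cY : ∀ j ∈ Yg ok, Commute γ j := by
    rintro _ ⟨ρ, σ, -, c, y, hy, rfl⟩
    exact ((cz c).mul_right (r.cr ρ)).mul_right (r.cw y σ hy)
  have hC : ∀ c, δ.C c ∈ Kc (δ.cj y0).ι → c = 0 := fun c e => by
    by_contra c0
    exact ok.nDD_U 0 0 c (DD.of_mem (Fr.cj _ y0) e (C_sq δ c) fun e' => c0 (ok.C_inj (e'.trans δ.C_zero.symm)))
  obtain ⟨p, κ, m, f, -, f1, f2⟩ := ok'.hy.sa (Y := Yg ok)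
    (fun ⟨j, ρ, σ, hj⟩ => ⟨2, Subtype.ext (ok.InD_four hj)⟩) fun j hj => cN (cY j hj)
  have fi : Function.Injective f := (injective_iff_map_eq_one f).2 fun ⟨j, ρ, σ, hj⟩ e => by
    have hK := (f1 _).1 e
    have k : ∀ ρ' σ', b4 (0, 0, ρ', σ') (0, 0, ρ, σ) = 0 := fun ρ' σ' => by
      obtain ⟨d, hd⟩ := ok.exists_InD (v := (0, 0, ρ', σ')) (l _)
      have := Kc_conj (cN (cY d ⟨_, _, hd⟩)) hK
      rw [ok.InD_comm hd hj] at this
      exact hC _ ((mul_mem_cancel_left hK).1 this)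
    have k1 := k 1 0
    have k2 := k 0 1
    simp only [b4, mul_zero, zero_add, one_mul, add_zero, zero_mul, mul_one] at k1 k2
    subst k1 k2
    obtain ⟨c, rfl⟩ := ok.InD_zero hj
    exact Subtype.ext (show δ.C c = 1 by rw [hC c hK, C_zero])
  choose d hd using fun v : F × F => ok.exists_InD (v := (0, 0, v.1, v.2)) (l _)
  have key : ∀ c, ∃ c' ρ, ρ ≠ 1 ∧ δ.C c = tw (δ.cj y0).ι (MulAut.conj p * dg κ m) (u 0 0 c') *
      (δ.cj y0).r ρ := fun c => by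
    let x : Yg ok := ⟨δ.C c, 0, 0, ok.InD_C c⟩
    have hz : (f x).inZ := SA.C64 (by rw [← map_mul, show x * x = 1 from Subtype.ext (C_sq δ c), map_one]) (by
      refine lt_of_lt_of_le (show 32 < Nat.card (F × F × F) by rw [Nat.card_eq_fintype_card]; decide)
        (Nat.card_le_card_of_injective (fun v => ⟨f ⟨d v.2 * δ.C v.1, _, _, ok.InD_mulC (hd v.2) v.1⟩,
          mem_centralizer_singleton_iff.2 ?_⟩) fun v w e => ?_)
      · rw [← map_mul, ← map_mul]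
        exact congrArg f (Subtype.ext (ok.InD_cz (ok.InD_mulC (hd v.2) v.1) c))
      · have e1 : d v.2 * δ.C v.1 = d w.2 * δ.C w.1 := congrArg Subtype.val (fi (congrArg Subtype.val e))
        have e2 := ok.InD_uniq (ok.InD_mulC (hd v.2) v.1) (e1 ▸ ok.InD_mulC (hd w.2) w.1)
        have e3 : v.2 = w.2 := congrArg (fun v : V4 => v.2.2) e2
        rw [e3, mul_right_inj] at e1
        exact Prod.ext (ok.C_inj e1) e3)
    obtain ⟨k, hk, e⟩ := f2 x hz.2.2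
    rw [hz.1, hz.2.1] at e
    change δ.C c = _ at e
    have hγ : γ ∈ Kc (δ.cj y0).ι := e0 ▸ ok'.rK 1
    have c1 : Commute k γ := by
      have := (mem_Kc.1 hγ ((MulAut.conj p * dg κ m) (u 0 0 (f x).c))).inv_right.mul_right (show Commute γ (_ * k) from e ▸ cz c)
      rw [tw_apply, inv_mul_cancel_left] at this
      exact this.symm
    have k2 := (LA.sq_of ok'.hy hk (e ▸ C_sq δ c) (aut_four ..)).2
    obtain ⟨o, ρ, ho, e1⟩ := ci'.ck hk one_ne_zero (e0 ▸ c1)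
    have c2 := ho.2.1 ρ (l ρ)
    rw [ho.eq_one c2.symm (n := 1) (by rw [pow_one, pow_two, ok'.r_sq (l ρ)])
      (by rw [pow_one, pow_two, ← c2.eq, ← e1, k2]), one_mul] at e1
    refine ⟨_, ρ, fun e2 => ?_, e1 ▸ e⟩
    have e3 : δ.C c * γ = δ.U (c * c) (c * c) 0 * γ * (δ.U (c * c) (c * c) 0)⁻¹ := by
      have := r.gr (u (c * c) (c * c) (0 + c * c * (c * c)))
      rw [gr_u, mul_inv_eq_iff_eq_mul] at this
      rw [U_inv, mul_assoc, U, U, this, ← mul_assoc, ← map_mul, u_mul, C, U]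
      rw [SA.two, (by decide : ∀ c : F, 0 + (0 + c * c * (c * c) + c * c * (c * c)) + c * c * (c * c) = c)]
    refine ok'.hy.not_DD (Fr.tw _ (MulAut.conj p * dg κ m)) (u 0 0 (f x).c) ((DD_cj δ y0 _).2 ?_)
    rw [e1, e2, ← e0] at e
    rw [← mul_inv_eq_iff_eq_mul, inv_eq_of_mul_eq_one_right r.sq] at e
    rw [← e, e3]
    exact hD.conj _
  choose c' ρ hρ hc using key
  have z0 : ∀ {s q}, (δ.cj y0).r s = (δ.cj y0).ι q → s = 0 := fun {s q} e => by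
    by_contra s0
    exact ok'.rne s (l s) s0 (by rw [e, ok'.hy.LK1 (p := q) (e ▸ ok'.rK s)
      (ok'.hy.inj (by rw [map_mul, ← e, ok'.r_sq (l s), map_one])), map_one])
  have mem : ∀ c, δ.C c ∈ (δ.cj y0).ι.range ↔ ρ c = 0 := fun c => by
    rw [hc c, tw_apply, mul_mem_cancel_left (MonoidHom.mem_range.2 ⟨_, rfl⟩)]
    exact ⟨fun ⟨q, e⟩ => z0 e.symm, fun e => by rw [e, ok'.r_zero]; exact one_mem _⟩
  have sum : ρ 1 + ρ ω + ρ (1 + ω) = 0 := by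
    have e1 : δ.C 1 * δ.C ω * δ.C (1 + ω) = 1 := by rw [← C_add, C_sq]
    rw [hc, hc, hc, tw_apply, tw_apply, tw_apply, (ok'.r_L _ _).mul_mul_mul_comm,
      ← ok'.radd _ _ (l _) (l _), (ok'.r_L _ _).mul_mul_mul_comm, ← ok'.radd _ _ (l _) (l _),
      ← map_mul, ← map_mul] at e1
    exact z0 (by rw [eq_inv_of_mul_eq_one_right e1, ← map_inv])
  have nh : ∀ c, ρ c = 0 → ρ (ω * ω * c) = 0 := fun c e => by
    rw [← mem] at e ⊢
    rw [← h_C]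
    exact (mem_normalizer_iff.1 (cN (of_cj ((r.gr hh).trans (by rw [gr_hh])))) _).1 e
  have all : ∀ c, ρ c = 0 := by
    have r0 : ρ 0 = 0 := (mem 0).1 (δ.C_zero ▸ one_mem _)
    have := (by decide : ∀ a b c : F, a ≠ 1 → b ≠ 1 → c ≠ 1 → a + b + c = 0 → a = 0 ∨ b = 0 ∨ c = 0)
      _ _ _ (hρ 1) (hρ ω) (hρ (1 + ω)) sum
    have r1 : ρ 1 = 0 := by
      rcases this with e | e | e
      exacts [e, nh _ e, nh _ (nh _ e)]
    intro c
    rcases F4c c with rfl | rfl | rfl | rfl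
    exacts [r0, r1, nh _ (nh _ r1), nh _ r1]
  have nz : δ.NZ (y0 * δ.ι p)⁻¹ := fun c => ⟨κ * m * c' c, by
    rw [hc c, all c, ok'.r_zero, mul_one, tw_apply, MulAut.mul_apply, dg_u, mul_zero, mul_zero, cj_ι,
      MulAut.conj_apply, map_mul, map_mul, map_inv, C, U]
    group⟩
  obtain ⟨v, hv⟩ := h.z2 (inv_inv (y0 * δ.ι p) ▸ ok.NZ_inv nz) _ _ ok.InD_t
  rw [cj_mul, t, cj_of (ok.r_L 1 p).symm, ← cj_r, ← e0] at hv
  exact absurd (ok.Ac_uniq (ok.InD_ac hv) r.ac (v := (1, 0, 0, 0)) (l _)) (by decide)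

end Dat

end Cfsg.Agent.LT
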