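import Cfsg.Agent.LT.CL
import Cfsg.Agent.LS.EXl

set_option autoImplicit false

namespace Cfsg.Agent.LT

open Subgroup H29 LS
open scoped commutatorElement

theorem q_free {v : V4} (h : sg v = v) : ∃ w, v = sg w + w := by
  have e : ∀ v, f1 1 0 v = v := fun v => by ext <;> simp [f1]
  obtain ⟨w, hw⟩ := free_sg 0 (v := v) (by rw [e, h])
  exact ⟨w, by rw [hw, e, add_comm]⟩

theorem q_card : Fintype.card {v : V4 // sg v = v} = 16 := by
  rw [Fintype.card_subtype]; decide +kernel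

namespace Dat

variable {G : Type*} [Group G] [Finite G] {δ : Dat G}

theorem Fn.ev {g τ : G} (h : δ.Fn g τ) {n : G} (hn : δ.MM n) : δ.Ev τ n := by
  rcases h.toHp.cz_or hn with c | c <;> obtain ⟨i, a⟩ := h.nr _ c
  · exact ⟨i, Or.inl ⟨c, a⟩⟩
  · exact ⟨i, Or.inr ⟨c, a⟩⟩

omit [Finite G] in
theorem q_Cww (δ : Dat G) : δ.C (ω * ω) = δ.C ω * δ.z := by
  rw [show ω * ω = ω + (1 : F) by decide, δ.C_add]; rfl

omit [Finite G] in
theorem q_zz (δ : Dat G) : δ.z * δ.z = 1 := δ.C_sq 1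

omit [Finite G] in
theorem q_gen {x : G} (c : Commute x δ.z) (e : x * δ.C ω * x⁻¹ = δ.C ω * δ.z) (a : F) :
    x * δ.C a * x⁻¹ = δ.C (a * a) := by
  have ez : x * δ.z * x⁻¹ = δ.z := by rw [c.eq, mul_inv_cancel_right]
  rcases (by decide : ∀ a : F, a = 0 ∨ a = 1 ∨ a = ω ∨ a = ω * ω) a with rfl | rfl | rfl | rfl
  · rw [mul_zero, δ.C_zero]; group
  · rw [mul_one]; exact ez
  · rw [e, q_Cww]
  · rw [show ω * ω * (ω * ω) = (ω : F) by decide, q_Cww,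
      show x * (δ.C ω * δ.z) * x⁻¹ = x * δ.C ω * x⁻¹ * (x * δ.z * x⁻¹) by group, e, ez, mul_assoc,
      q_zz, mul_one]

theorem OK.MM_Q (ok : δ.OK) {n : G} (hn : δ.MM n) : n ∈ normalizer (δ.Qg : Set G) := by
  refine mem_normalizer_fintype fun x hx => ?_
  have : δ.Qg ≤ δ.Qg.comap (MulAut.conj n).toMonoidHom := by
    refine (closure_le _).2 fun y ⟨y2, yz, yC, yD⟩ => subset_closure ⟨?_, ?_, ?_, fun d => yD ?_⟩
    · change n * y * n⁻¹ * (n * y * n⁻¹) = 1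
      rw [show n * y * n⁻¹ * (n * y * n⁻¹) = n * (y * y) * n⁻¹ by group, y2]; group
    · exact (hn.2.mul_left yz).mul_left hn.2.inv_left
    · change n * y * n⁻¹ * δ.C ω * (n * y * n⁻¹)⁻¹ = _
      rw [show n * y * n⁻¹ * δ.C ω * (n * y * n⁻¹)⁻¹ = n * (y * (n⁻¹ * δ.C ω * n⁻¹⁻¹) * y⁻¹) * n⁻¹ by
        group, ← q_Cww]
      rcases ok.MM_cases hn with c | c
      · rw [(c.inv ω).eq, mul_inv_cancel_right, q_gen yz yC, (c _).eq, mul_inv_cancel_right]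
      · have : n⁻¹ * δ.C ω * n⁻¹⁻¹ = δ.C (ω * ω) := by
          rw [show δ.C ω = δ.C (ω * ω * (ω * ω)) from congrArg δ.C (by decide), ← c]; group
        rw [this, q_gen yz yC, c]
        exact congrArg δ.C (by decide)
    · have := DD.conj d n⁻¹
      rwa [show n⁻¹ * (MulAut.conj n).toMonoidHom y * n⁻¹⁻¹ = y by simp [mul_assoc]] at this
  exact this hx

theorem Hp.q_tau {g τ : G} (h : δ.Hp g τ) : τ ∈ δ.Qg :=
  subset_closure ⟨h.sq, h.mm.2, by rw [h.tC, q_Cww], h.ndd⟩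

/-- the right side of `mem_Qg` -/
def Hp.Xg {g τ : G} (h : δ.Hp g τ) : Subgroup G where
  carrier := {x | ∃ v, sg v = v ∧ (δ.InD x v ∨ δ.InD (τ * x) v)}
  one_mem' := ⟨0, by decide, Or.inl (δ.C_zero ▸ h.toH0.c_ok.InD_C 0)⟩
  mul_mem' := by
    have ok := h.toH0.c_ok
    rintro x y ⟨v, e, a⟩ ⟨w, e', a'⟩
    refine ⟨v + w, by rw [sg_add, e, e'], ?_⟩
    rcases a with a | a <;> rcases a' with a' | a'
    · exact Or.inl (ok.InD_mul a a')
    · have := ok.InD_mul (h.ac _ _ a) a'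
      rw [e, show τ * x * τ⁻¹ * (τ * y) = τ * (x * y) by group] at this
      exact Or.inr this
    · exact Or.inr (mul_assoc τ x y ▸ ok.InD_mul a a')
    · have := ok.InD_mul (h.ac _ _ a) a'
      rw [e, show τ * (τ * x) * τ⁻¹ * (τ * y) = τ * τ * (x * y) by group, h.sq, one_mul] at this
      exact Or.inl this
  inv_mem' := by
    have ok := h.toH0.c_ok
    rintro x ⟨v, e, a | a⟩
    · exact ⟨v, e, Or.inl (ok.InD_inv a)⟩
    · have := h.ac _ _ (ok.InD_inv a)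
      rw [e, show τ * (τ * x)⁻¹ * τ⁻¹ = τ * x⁻¹ * (τ * τ)⁻¹ by group, h.sq, inv_one, mul_one] at this
      exact ⟨v, e, Or.inr this⟩

theorem Hp.q_DQ {g τ : G} (h : δ.Hp g τ) {x : G} {v : V4} (hx : δ.InD x v) (e : sg v = v) :
    x ∈ δ.Qg := by
  have ok := h.toH0.c_ok
  have cj : ∀ {m w}, δ.InD m w → ∀ y ∈ δ.Qg, m * y * m⁻¹ ∈ δ.Qg := fun hm y hy =>
    (mem_normalizer_iff.1 (ok.MM_Q (ok.InD_cz hm).mm) y).1 hy
  have ex : ∀ v, sg v = v → ∃ d ∈ δ.Qg, δ.InD d v := fun v e => by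
    obtain ⟨w, rfl⟩ := q_free e
    obtain ⟨m, hm⟩ := ok.exists_InD (v := w) (h.toH0.c_lam _)
    refine ⟨τ * m * τ⁻¹ * m⁻¹, ?_, ok.InD_mul (h.ac _ _ hm) (ok.InD_inv hm)⟩
    rw [h.c_inv, show τ * m * τ * m⁻¹ = τ * (m * τ * m⁻¹) by group]
    exact mul_mem h.q_tau (cj hm _ h.q_tau)
  have hC : ∀ c, δ.C c ∈ δ.Qg := fun c => by
    obtain ⟨d, hd, a⟩ := ex (1, 0, 0, 0) (by decide)
    have := cj (ok.InD_U 0 c 0) d hd
    rw [ok.InD_comm (ok.InD_U 0 c 0) a, show b4 (0, c, 0, 0) (1, 0, 0, 0) = c by simp [b4]] at this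
    exact (mul_mem_cancel_left hd).1 this
  obtain ⟨d, hd, a⟩ := ex v e
  obtain ⟨c, rfl⟩ := ok.InD_diff a hx
  exact mul_mem hd (hC c)

theorem Fn.mem_Qg {g τ : G} (h : δ.Fn g τ) {x : G} :
    x ∈ δ.Qg ↔ ∃ v, sg v = v ∧ (δ.InD x v ∨ δ.InD (τ * x) v) := by
  have ok := h.toH0.c_ok
  refine ⟨fun hx => (show δ.Qg ≤ h.toHp.Xg from (closure_le _).2 fun y ⟨y2, yz, yC, yD⟩ => ?_) hx,
    fun ⟨v, e, a⟩ => a.elim (fun a => h.toHp.q_DQ a e) fun a =>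
      (mul_mem_cancel_left h.toHp.q_tau).1 (h.toHp.q_DQ a e)⟩
  have mm : δ.MM y := ⟨fun c => ⟨_, q_gen yz yC c⟩, yz⟩
  have nc : ¬ δ.CZ y := fun c => by
    have e := q_gen yz yC ω
    rw [(c ω).eq, mul_inv_cancel_right] at e
    exact absurd (ok.C_inj e) (by decide)
  rcases h.toHp.cl y2 (fun e => nc (by rw [e]; exact fun c => Commute.one_left _)) mm (h.ev mm) with
    a | ⟨-, ⟨v, a⟩ | ⟨m, w, a, e⟩⟩
  · exact absurd a.1 yD
  · exact absurd (ok.InD_cz a) nc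
  · refine ⟨sg w + w, by rw [sg_add, sg_sg, add_comm], Or.inr ?_⟩
    have := ok.InD_mul (h.ac _ _ a) (ok.InD_inv a)
    rwa [h.toHp.c_inv, show τ * m * τ * m⁻¹ = τ * (m * τ * m⁻¹) by group, ← e] at this

theorem Hp.q_not {g τ : G} (h : δ.Hp g τ) {x : G} {v : V4} (c : δ.CZ x) (a : δ.InD (τ * x) v) :
    False := h.c_ncz (by
  have := (h.toH0.c_ok.InD_cz a).mul c.inv
  rwa [mul_inv_cancel_right] at this)

theorem Fn.q_fix {g τ : G} (h : δ.Fn g τ) {x : G} {v : V4} (hx : x ∈ δ.Qg) (a : δ.InD x v) :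
    sg v = v := by
  obtain ⟨w, e, a' | a'⟩ := h.mem_Qg.1 hx
  · rwa [h.toH0.c_ok.InD_uniq a a']
  · exact (h.toHp.q_not (h.toH0.c_ok.InD_cz a) a').elim

theorem Fn.card_Qg {g τ : G} (h : δ.Fn g τ) : Nat.card δ.Qg = 128 := by
  have ok := h.toH0.c_ok
  choose dv hdv using fun v : V4 => ok.exists_InD (v := v) (h.toH0.c_lam _)
  have hd : ∀ v c, δ.InD (dv v * δ.C c) v := fun v c => by
    have := ok.InD_mul (hdv v) (ok.InD_C c)
    rwa [add_zero] at this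
  have tt : ∀ x, τ * (τ * x) = x := fun x => by rw [← mul_assoc, h.toHp.sq, one_mul]
  let φ : Bool × {v : V4 // sg v = v} × F → δ.Qg := fun p =>
    ⟨cond p.1 τ 1 * (dv p.2.1 * δ.C p.2.2), mul_mem (by
      cases p.1
      exacts [one_mem _, h.toHp.q_tau]) (h.toHp.q_DQ (hd _ _) p.2.1.2)⟩
  have inj : ∀ v c v' c', dv v * δ.C c = dv v' * δ.C c' → v = v' ∧ c = c' := fun v c v' c' e => by
    obtain rfl := ok.InD_uniq (hd v c) (e ▸ hd v' c')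
    exact ⟨rfl, ok.C_inj (mul_left_cancel e)⟩
  rw [← Nat.card_eq_of_bijective φ ⟨?_, ?_⟩]
  · simp only [Nat.card_eq_fintype_card, Fintype.card_prod, q_card, Fintype.card_bool]
    rfl
  · rintro ⟨b, ⟨v, hv⟩, c⟩ ⟨b', ⟨v', hv'⟩, c'⟩ e
    have e := congrArg Subtype.val e
    cases b <;> cases b' <;> simp only [φ, cond_true, cond_false, one_mul] at e
    · obtain ⟨rfl, rfl⟩ := inj _ _ _ _ e; rfl
    · exact (h.toHp.q_not (ok.InD_cz (hd v' c')) (e ▸ hd v c)).elim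
    · exact (h.toHp.q_not (ok.InD_cz (hd v c)) (e ▸ hd v' c')).elim
    · obtain ⟨rfl, rfl⟩ := inj _ _ _ _ (mul_left_cancel e); rfl
  · rintro ⟨x, hx⟩
    obtain ⟨v, e, a | a⟩ := h.mem_Qg.1 hx <;> obtain ⟨c, hc⟩ := ok.InD_diff (hdv v) a
    · exact ⟨(false, ⟨v, e⟩, c), Subtype.ext (by simp only [φ, cond_false, one_mul]; exact hc.symm)⟩
    · exact ⟨(true, ⟨v, e⟩, c), Subtype.ext (by simp only [φ, cond_true]; rw [← hc, tt])⟩

theorem Hp.q_tD {g τ : G} (h : δ.Hp g τ) {d : G} {v : V4} (a : δ.InD d v) (e : sg v = v) :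
    ∃ c, (c = 0 ∨ c = 1) ∧ τ * d * τ⁻¹ = d * δ.C c := by
  have ok := h.toH0.c_ok
  obtain ⟨c, hc⟩ := ok.InD_diff a (e ▸ h.ac d v a)
  refine ⟨c, (by decide : ∀ c : F, c + c * c = 0 → c = 0 ∨ c = 1) c (ok.C_inj ?_), hc⟩
  rw [δ.C_add, δ.C_zero, ← h.tC]
  have : d * (δ.C c * (τ * δ.C c * τ⁻¹)) = d * 1 := by
    calc d * (δ.C c * (τ * δ.C c * τ⁻¹)) = (d * δ.C c) * (τ * δ.C c * τ⁻¹) := by group
      _ = (τ * d * τ⁻¹) * (τ * δ.C c * τ⁻¹) := by rw [hc]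
      _ = τ * (d * δ.C c) * τ⁻¹ := by group
      _ = τ * (τ * d * τ⁻¹) * τ⁻¹ := by rw [hc]
      _ = τ * τ * d * (τ * τ)⁻¹ := by group
      _ = d * 1 := by rw [h.sq]; group
  exact mul_left_cancel this

theorem Fn.q_mm {g τ : G} (h : δ.Fn g τ) {a : G} (ha : a ∈ δ.Qg) : δ.MM a := by
  have ok := h.toH0.c_ok
  obtain ⟨v, -, e | e⟩ := h.mem_Qg.1 ha
  · exact (ok.InD_cz e).mm
  · have := (ok.MM_inv h.toHp.mm).mul (ok.InD_cz e).mm
    rwa [inv_mul_cancel_left] at this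

theorem Fn.ex {g τ : G} (h : δ.Fn g τ) : H15.EX δ.Qg δ.z := by
  have ok := h.toH0.c_ok
  have tt : ∀ x, τ * (τ * x) = x := fun x => by rw [← mul_assoc, h.toHp.sq, one_mul]
  have cz : ∀ a ∈ δ.Qg, a * δ.z = δ.z * a := fun a ha => (h.q_mm ha).2
  have c01 : ∀ {b x : G} {c : F}, b * δ.z = δ.z * b → (c = 0 ∨ c = 1) → x = b * δ.C c →
      x = b ∨ x = δ.z * b := by
    rintro b x c hb (rfl | rfl) e
    · exact Or.inl (by rw [e, δ.C_zero, mul_one])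
    · exact Or.inr (by rw [e, ← hb]; rfl)
  have mul : ∀ a a' b : G, a * δ.z = δ.z * a → (a * b * a⁻¹ = b ∨ a * b * a⁻¹ = δ.z * b) →
      (a' * b * a'⁻¹ = b ∨ a' * b * a'⁻¹ = δ.z * b) →
      (a * a' * b * (a * a')⁻¹ = b ∨ a * a' * b * (a * a')⁻¹ = δ.z * b) := by
    intro a a' b az e e'
    rw [show a * a' * b * (a * a')⁻¹ = a * (a' * b * a'⁻¹) * a⁻¹ by group]
    rcases e' with e' | e' <;> rw [e']
    · exact e
    · rw [show a * (δ.z * b) * a⁻¹ = (a * δ.z) * b * a⁻¹ by group, az,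
        show δ.z * a * b * a⁻¹ = δ.z * (a * b * a⁻¹) by group]
      rcases e with e | e <;> rw [e]
      · exact Or.inr rfl
      · exact Or.inl (by rw [← mul_assoc, q_zz, one_mul])
  have sym : ∀ a b : G, (a * b * a⁻¹ = b ∨ a * b * a⁻¹ = δ.z * b) →
      (b * a * b⁻¹ = a ∨ b * a * b⁻¹ = δ.z * a) := by
    rintro a b (e | e)
    · exact Or.inl (by rw [← mul_inv_eq_iff_eq_mul.1 e, mul_inv_cancel_right])
    · refine Or.inr ?_
      calc b * a * b⁻¹ = (δ.z * δ.z) * b * a * b⁻¹ := by rw [q_zz]; group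
        _ = δ.z * (δ.z * b) * a * b⁻¹ := by group
        _ = δ.z * a := by rw [← e]; group
  have DD' : ∀ a ∈ δ.Qg, ∀ b w, δ.InD b w → sg w = w →
      (a * b * a⁻¹ = b ∨ a * b * a⁻¹ = δ.z * b) := by
    intro a ha b w hb e'
    have bz := cz b (h.toHp.q_DQ hb e')
    obtain ⟨v, e, a' | a'⟩ := h.mem_Qg.1 ha
    · exact c01 bz (fix_b4 e e') (ok.InD_comm a' hb)
    · obtain ⟨c, hc, e1⟩ := h.toHp.q_tD hb e'
      rw [← tt a]
      exact mul _ _ _ h.toHp.mm.2 (c01 bz hc e1) (c01 bz (fix_b4 e e') (ok.InD_comm a' hb))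
  refine ⟨h.toHp.q_DQ (ok.InD_C 1) (by decide), ok.z_ne, δ.q_zz, cz, fun a ha b hb => ?_,
    fun a ha => ?_, fun a ha c => ?_⟩
  · obtain ⟨w, e, b' | b'⟩ := h.mem_Qg.1 hb
    · exact DD' a ha b w b' e
    · refine sym _ _ ?_
      rw [← tt b]
      refine mul _ _ _ h.toHp.mm.2 (sym _ _ ?_) (sym _ _ (DD' a ha _ w b' e))
      obtain ⟨v, e', a' | a'⟩ := h.mem_Qg.1 ha
      · exact sym _ _ (DD' τ h.toHp.q_tau a v a' e')
      · rw [← tt a]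
        exact mul _ _ _ h.toHp.mm.2 (Or.inl (by group)) (sym _ _ (DD' τ h.toHp.q_tau _ v a' e'))
  · have o : ∀ c : F, (c = 0 ∨ c = 1) → δ.C c = 1 ∨ δ.C c = δ.z := by
      rintro c (rfl | rfl)
      exacts [Or.inl δ.C_zero, Or.inr rfl]
    obtain ⟨v, e, a' | a'⟩ := h.mem_Qg.1 ha
    · rw [ok.InD_sq a']; exact o _ (fix_q4 e)
    · obtain ⟨c, hc, e1⟩ := h.toHp.q_tD a' e
      have : a * a = δ.C (q4 v + c) := by
        rw [δ.C_add, ← ok.InD_sq a', mul_assoc, (ok.InD_cz a' c).eq, ← mul_assoc, ← e1,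
          h.toHp.c_inv, tt, mul_assoc, tt]
      rw [this]
      exact o _ ((by decide : ∀ x y : F, (x = 0 ∨ x = 1) → (y = 0 ∨ y = 1) → x + y = 0 ∨ x + y = 1)
        _ _ (fix_q4 e) hc)
  · have hC : ∀ x, δ.C x ∈ δ.Qg := fun x => h.toHp.q_DQ (ok.InD_C x) (by decide)
    obtain ⟨v, e, a' | a'⟩ := h.mem_Qg.1 ha
    · obtain rfl : v = 0 := b4_fix fun w hw => by
        obtain ⟨d, hd⟩ := ok.exists_InD (v := w) (h.toH0.c_lam _)
        have e1 := ok.InD_comm a' hd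
        rw [c d (h.toHp.q_DQ hd hw), mul_inv_cancel_right] at e1
        exact ok.C_inj (by rw [δ.C_zero]; exact mul_eq_left.1 e1.symm)
      obtain ⟨x, rfl⟩ := ok.InD_zero a'
      have e1 := h.tC x
      rw [← c τ h.toHp.q_tau, mul_inv_cancel_right] at e1
      rcases (by decide : ∀ x : F, x = x * x → x = 0 ∨ x = 1) x (ok.C_inj e1) with rfl | rfl
      exacts [Or.inl δ.C_zero, Or.inr rfl]
    · exact (h.toHp.q_not (fun x => c _ (hC x)) a').elim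

theorem Fn.Q_ndd {g τ : G} (h : δ.Fn g τ) {x : G} (hx : x ∈ δ.Qg) : ¬ DD δ.ι x := by
  intro dd
  obtain ⟨v, e, a | a⟩ := h.mem_Qg.1 hx
  · obtain ⟨v0, q, n⟩ := (h.ci.DV_iff a).1 dd
    exact n ⟨v0, q, 1, by rw [e, one_smul]⟩
  · have tt : τ * (τ * x) = x := by rw [← mul_assoc, h.toHp.sq, one_mul]
    obtain ⟨m, w, -, e'⟩ := h.toHp.conj_tau a (by rw [tt]; exact dd.1)
    have := dd.conj m⁻¹
    rw [← tt, e', show m⁻¹ * (m * τ * m⁻¹) * m⁻¹⁻¹ = τ by group] at this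
    exact h.toHp.ndd this

theorem Fn.qu {g τ : G} (h : δ.Fn g τ) {m : G} (c : Commute m δ.z) (hm : m * δ.C ω * m⁻¹ ∈ δ.Qg) :
    m ∈ normalizer (δ.Qg : Set G) := by
  have ok := h.toH0.c_ok
  have mz : m * δ.z * m⁻¹ = δ.z := by rw [c.eq, mul_inv_cancel_right]
  have le := EX_gen h.ex (by rw [h.card_Qg]; norm_num) hm
    (by rw [show m * δ.C ω * m⁻¹ * (m * δ.C ω * m⁻¹) = m * (δ.C ω * δ.C ω) * m⁻¹ by group, δ.C_sq]
        group)
    (fun e => absurd (ok.C_inj (c := ω) (c' := 0) (by rw [δ.C_zero]; simpa using e)) (by decide))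
    (fun e => absurd (ok.C_inj (c := ω) (c' := 1) (by
      rw [← mz] at e
      exact mul_left_cancel (mul_right_cancel e))) (by decide))
  have z' : (δ.cj m).z = δ.z := (δ.cj_C m 1).trans mz
  have le' : δ.Qg ≤ (δ.cj m).Qg := le.trans (closure_mono fun i ⟨hi, i2, e⟩ =>
    ⟨i2, z' ▸ (h.q_mm hi).2, by rw [z', δ.cj_C]; exact e, fun d => h.Q_ndd hi ((δ.DD_cj m i).1 d)⟩)
  refine inv_mem_iff.1 (mem_normalizer_fintype fun x hx => (cj_Qg m _).1 ?_)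
  rw [show m * (m⁻¹ * x * m⁻¹⁻¹) * m⁻¹ = x by group]
  exact le' hx

theorem Fn.trans {g τ : G} (h : δ.Fn g τ) {s : G} (hs : s ∈ δ.Qg) (s2 : s * s = 1) (s1 : s ≠ 1)
    (sz : s ≠ δ.z) : ∃ n, Commute n δ.z ∧ n ∈ normalizer (δ.Qg : Set G) ∧ s = n * δ.C ω * n⁻¹ := by
  have ok := h.toH0.c_ok
  let T : G → Prop := fun s =>
    ∃ n, Commute n δ.z ∧ n ∈ normalizer (δ.Qg : Set G) ∧ s = n * δ.C ω * n⁻¹
  have cj : ∀ m s, Commute m δ.z → m ∈ normalizer (δ.Qg : Set G) → T s → T (m * s * m⁻¹) := by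
    rintro m _ c hm ⟨n, c', hn, rfl⟩
    exact ⟨m * n, c.mul_left c', mul_mem hm hn, by group⟩
  have cj' : ∀ m s, δ.MM m → T s → T (m * s * m⁻¹) := fun m s hm => cj m s hm.2 (ok.MM_Q hm)
  have T0 : T (δ.C ω) := ⟨1, Commute.one_left _, one_mem _, by group⟩
  obtain ⟨a, ha⟩ := h.tL
  obtain ⟨a', c', e'⟩ := h.gV 0 ω
  have e' : g * δ.C ω * g⁻¹ = δ.U a' 0 c' := e'
  have gz : g * δ.z * g⁻¹ = δ.z := by rw [h.gz.eq, mul_inv_cancel_right]
  have gQ : g * δ.C ω * g⁻¹ ∈ δ.Qg := by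
    have e1 : g * δ.U a 0 ω * g⁻¹ = τ * (g * δ.C ω * g⁻¹) := by
      rw [ha, show δ.U a 0 ω = δ.U a 0 0 * δ.C ω by rw [δ.U_C, zero_add]]; group
    refine (mul_mem_cancel_left h.toHp.q_tau).1 (e1 ▸ subset_closure ⟨?_, ?_, ?_, ok.nDD_L g _⟩)
    · rw [show g * δ.U a 0 ω * g⁻¹ * (g * δ.U a 0 ω * g⁻¹) = g * (δ.U a 0 ω * δ.U a 0 ω) * g⁻¹ by
        group, δ.U_mul, SA.two a, SA.two ω, mul_zero, add_zero, δ.U_zero]
      group
    · exact (h.gz.mul_left (δ.C_U a 0 ω 1).symm).mul_left h.gz.inv_left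
    · rw [e1, e', show τ * δ.U a' 0 c' * δ.C ω * (τ * δ.U a' 0 c')⁻¹ =
        τ * (δ.U a' 0 c' * δ.C ω * (δ.U a' 0 c')⁻¹) * τ⁻¹ by group, ← (δ.C_U a' 0 c' ω).eq,
        mul_inv_cancel_right, h.tC, q_Cww]
  have gN := h.qu h.gz gQ
  obtain rfl : a' = 1 := by
    have := congrArg Prod.fst (h.q_fix (e' ▸ gQ) (ok.InD_U a' 0 c'))
    rcases (by decide : ∀ x : F, x * x = x → x = 0 ∨ x = 1) a' this with rfl | rfl
    · exfalso
      obtain ⟨b, c, b0, e⟩ := h.toH0.cw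
      have e' : g * δ.C ω * g⁻¹ = δ.C c' := e'
      have k : ∀ x, g * δ.C x * g⁻¹ = δ.C ω → False := fun x hx => b0 (ok.U_inj
        (mul_left_cancel (mul_right_cancel (e.symm.trans hx.symm)))).2.1
      rcases (by decide : ∀ a : F, a = 0 ∨ a = 1 ∨ a = ω ∨ a = ω * ω) c' with rfl | rfl | rfl | rfl
      · rw [δ.C_zero] at e'
        exact absurd (ok.C_inj (c := ω) (c' := 0) (by rw [δ.C_zero]; simpa using e')) (by decide)
      · rw [show δ.C 1 = δ.z from rfl, ← gz] at e'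
        exact absurd (ok.C_inj (c' := 1) (mul_left_cancel (mul_right_cancel e'))) (by decide)
      · exact k _ e'
      · refine k (ω * ω) ?_
        rw [q_Cww, show g * (δ.C ω * δ.z) * g⁻¹ = g * δ.C ω * g⁻¹ * (g * δ.z * g⁻¹) by group, e', gz,
          q_Cww, mul_assoc, q_zz, mul_one]
    · rfl
  have T1 : ∀ c, T (δ.U 1 0 c) := fun c => by
    have := cj' _ _ (ok.InD_cz (ok.InD_U 0 (c + c') 0)).mm (e' ▸ cj g _ h.gz gN T0)
    rwa [δ.U_conj, show c' + 0 * 0 + 1 * (c + c') = c from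
      (by decide : ∀ c c' : F, c' + 0 * 0 + 1 * (c + c') = c) c c'] at this
  have TD : ∀ s ∈ δ.Qg, ∀ v, δ.InD s v → s * s = 1 → s ≠ 1 → s ≠ δ.z → T s := by
    intro s hs v hv s2 s1 sz
    have e := h.q_fix hs hv
    by_cases v0 : v = 0
    · subst v0
      obtain ⟨c, rfl⟩ := ok.InD_zero hv
      rcases (by decide : ∀ a : F, a = 0 ∨ a = 1 ∨ a = ω ∨ a = ω * ω) c with rfl | rfl | rfl | rfl
      · exact absurd δ.C_zero s1
      · exact absurd rfl sz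
      · exact T0
      · exact h.tC ω ▸ cj' _ _ h.toHp.mm T0
    have q : q4 v = 0 := ok.C_inj (by rw [← ok.InD_sq hv, s2, δ.C_zero])
    obtain ⟨i, hi⟩ := NV5_orb ⟨v0, q, 1, by rw [e, one_smul]⟩ e
    obtain ⟨m, -, mz, am⟩ := h.ci.G1 i
    obtain ⟨c, hc⟩ := ok.InD_diff (ok.InD_U 1 0 0) (hi ▸ am s v hv)
    have := cj' _ _ mz.inv.mm (T1 (0 + c))
    rwa [← δ.U_C, ← hc, show m⁻¹ * (m * s * m⁻¹) * m⁻¹⁻¹ = s by group] at this
  obtain ⟨v, e, a1 | a1⟩ := h.mem_Qg.1 hs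
  · exact TD s hs v a1 s2 s1 sz
  · have tt : τ * (τ * s) = s := by rw [← mul_assoc, h.toHp.sq, one_mul]
    obtain ⟨m, w, hm, e1⟩ := h.toHp.conj_tau a1 (by rw [tt]; exact s2)
    have uQ : δ.U a 0 0 ∈ δ.Qg := (mem_normalizer_iff.1 gN _).2 (ha ▸ h.toHp.q_tau)
    have t1 := TD _ uQ _ (ok.InD_U a 0 0)
      (by rw [δ.U_mul, SA.two, mul_zero, add_zero, add_zero, δ.U_zero])
      (fun e => h.toHp.c_ncz (by
        rw [ha, e, mul_one, mul_inv_cancel]; exact fun c => Commute.one_left _))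
      (fun e => h.toHp.c_ncz (by rw [ha, e, gz]; exact ok.InD_cz (ok.InD_C 1)))
    have := cj' _ _ (ok.InD_cz hm).mm (cj g _ h.gz gN t1)
    rwa [← ha, ← e1, tt] at this

end Dat

end Cfsg.Agent.LT
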