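import Cfsg.Agent.LT.Gam2

/-! Project LS (notes/LX.md): conjugates of `C ω` in `V₁`. -/

set_option autoImplicit false

namespace Cfsg.Agent.LT

open Subgroup H29 LS
open scoped commutatorElement

namespace Dat

variable {G : Type*} [Group G] [Finite G] {δ : Dat G}

theorem Fn.cv {g τ : G} (h : δ.Fn g τ) {x : G} (c : ∀ a c, Commute x (δ.U a 0 c)) (x4 : x ^ 4 = 1) :
    ∃ μ, δ.Ac x (f1 1 μ) := by
  have ok := h.ci.1.ok
  obtain ⟨i, hi⟩ := h.nr x fun d => c 0 d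
  have h1 := hi _ _ (ok.InD_U 1 0 0)
  rw [(c 1 0).eq, mul_inv_cancel_right] at h1
  obtain ⟨μ, ν, e⟩ := ev_fix one_ne_zero (ok.InD_uniq h1 (ok.InD_U 1 0 0))
  have h2 := (hi.mul hi).mul (hi.mul hi)
  have h3 := ok.InD_ac (ok.InD_C 0)
  rw [C_zero, ← x4, show x ^ 4 = x * x * (x * x) by rw [show 4 = 2 + 2 from rfl, pow_add, pow_two]] at h3
  refine ⟨μ, hi.congr fun v => ?_⟩
  rw [e, f1_rot_four (μ := μ) fun w => by
    simpa only [Function.comp_apply, e, id] using ok.Ac_uniq h2 h3 (v := w) (Or.inl h.ci.2)]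

theorem CI.qn1_nv (h : δ.CI) {d : G} {v : V4} (hd : δ.InD d v) (d2 : d * d = 1) (n : ¬ DD δ.ι d) :
    v = 0 ∨ NV v := by
  refine or_iff_not_imp_left.2 fun h0 => by_contra fun h1 => n ((h.DV_iff hd).2 ⟨h0, ?_, h1⟩)
  exact h.1.ok.C_inj ((h.1.ok.InD_sq hd).symm.trans (d2.trans δ.C_zero.symm))

omit [Finite G] in
theorem qn1_C {δ δ' : Dat G} {a d : F} (hz : δ'.C 1 = δ.C 1) (hu : δ'.C ω = δ.U a 0 d) (c : F) :
    (δ'.C c = δ.C c ∧ (c = 0 ∨ c = 1)) ∨ ∃ d', δ'.C c = δ.U a 0 d' := by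
  cases c
  · exact Or.inl ⟨δ'.C_zero.trans δ.C_zero.symm, Or.inl rfl⟩
  · exact Or.inl ⟨hz, Or.inr rfl⟩
  · exact Or.inr ⟨d, hu⟩
  · exact Or.inr ⟨d + 1, (δ'.C_add ω 1).trans (by rw [hu, hz, U_C])⟩

omit [Finite G] in
theorem qn1_C' {δ δ' : Dat G} {a d : F} (hz : δ'.C 1 = δ.C 1) (hu : δ'.C ω = δ.U a 0 d) (c : F) :
    ∃ a' d', δ'.C c = δ.U a' 0 d' := by
  rcases qn1_C hz hu c with h | ⟨d', h⟩
  exacts [⟨0, c, h.1⟩, ⟨a, d', h⟩]

omit [Finite G] in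
theorem qn1_V (δ : Dat G) (a c a' c' : F) : Commute (δ.U a 0 c) (δ.U a' 0 c') := by
  rw [Commute, SemiconjBy, U_mul, U_mul, add_comm a, add_comm c, mul_zero, mul_zero]

/-- normalise the frame so that `V₁` is fixed -/
theorem Fn.qn1_fr {g τ : G} (h : δ.Fn g τ) {y : G} (c : Commute y δ.z) {a d : F} (ha : a ≠ 0)
    (e : y * δ.C ω * y⁻¹ = δ.U a 0 d) : ∃ y', Commute y' δ.z ∧ y' * δ.C ω * y'⁻¹ = δ.U a 0 d ∧
      ∀ a c, ∃ a' c', y' * δ.U a 0 c * y'⁻¹ = δ.U a' 0 c' := by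
  have ok := h.ci.1.ok
  have h' := h.cj y
  have ok' := h'.ci.1.ok
  have hz : (δ.cj y).C 1 = δ.C 1 := by rw [cj_C]; exact mul_inv_eq_iff_eq_mul.2 c.eq
  have hu : (δ.cj y).C ω = δ.U a 0 d := (cj_C ..).trans e
  have sq : ∀ a c, δ.U a 0 c * δ.U a 0 c = 1 := fun a c => by
    rw [U_mul, SA.two, SA.two, SA.two, mul_zero, add_zero, U_zero]
  have nd : ∀ m a c, ¬ DD (δ.cj y).ι (m * δ.U a 0 c * m⁻¹) := fun m a c =>
    (DD_cj ..).not.2 (ok.nDD_L m _)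
  have inD : ∀ a c, ∃ v, (δ.cj y).InD (δ.U a 0 c) v := fun a' c' => by
    have cz : (δ.cj y).CZ (δ.U a' 0 c') := fun c => by
      obtain ⟨a2, d2, e2⟩ := qn1_C' hz hu c
      exact e2 ▸ δ.qn1_V ..
    obtain ⟨i, hi⟩ := h'.nr _ cz
    exact (h'.toH0.inv_ev cz hi ((sq a' c').trans (C_zero _).symm)).resolve_right fun h1 =>
      ok.nDD_U _ _ _ ((DD_cj ..).1 h1.1)
  obtain ⟨v, hv⟩ := inD 0 ω
  have nv : NV v := (h'.ci.qn1_nv hv (sq 0 ω) (by simpa using nd 1 0 ω)).resolve_left fun h0 => by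
    obtain ⟨c, hc⟩ := ok'.InD_zero (h0 ▸ hv)
    rcases qn1_C hz hu c with ⟨h1, h2⟩ | ⟨d', h1⟩
    · obtain rfl : ω = c := ok.C_inj (hc.trans h1)
      exact absurd h2 (by decide)
    · exact ha (ok.U_inj (hc.trans h1)).1.symm
  obtain ⟨m, a1, c1, -, mZ, mD, a0, em⟩ := h'.ci.G3 hv nv
  have key : ∀ p : F × F, ∃ q : F × F, δ.U p.1 0 p.2 = m⁻¹ * y * δ.U q.1 0 q.2 * (m⁻¹ * y)⁻¹ := by
    rintro ⟨a', c'⟩
    obtain ⟨w, hw⟩ := inD a' c'
    obtain ⟨w', hw'⟩ := mD _ _ hw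
    have u1 := ok'.InD_U a1 0 c1
    obtain ⟨l, rfl⟩ : ∃ l : F, w' = (l, 0, 0, 0) := by
      rcases h'.ci.qn1_nv hw' (by rw [conj_mul, sq, mul_one, mul_inv_cancel]) (nd m a' c') with h0 | h0
      · exact ⟨0, h0⟩
      · have h1 := ok'.InD_comm u1 hw'
        rw [← em, ((δ.qn1_V 0 ω a' c').conj m).eq, mul_inv_cancel_right, left_eq_mul,
          ← (δ.cj y).C_zero] at h1
        obtain ⟨l, hl⟩ := NV_pt (v := (a1, 0, 0, 0)) ((by decide : ∀ a : F, a ≠ 0 → NV (a, 0, 0, 0)) a1 a0) h0 (ok'.C_inj h1)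
        exact ⟨l * a1, by simpa using hl⟩
    obtain ⟨c2, e2⟩ := ok'.InD_diff (ok'.InD_U l 0 0) hw'
    rw [U_C, cj_U] at e2
    exact ⟨(l, 0 + c2), by
      calc δ.U a' 0 c' = m⁻¹ * (m * δ.U a' 0 c' * m⁻¹) * m := by group
        _ = _ := by rw [e2]; group⟩
  choose φ hφ using key
  have φs : Function.Surjective φ := Finite.surjective_of_injective fun p q e => by
    obtain ⟨h1, -, h2⟩ := ok.U_inj ((hφ p).trans (e ▸ (hφ q).symm))
    exact Prod.ext h1 h2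
  refine ⟨m⁻¹ * y, Commute.mul_left (Commute.inv_left (hz ▸ mZ 1 :)) c, ?_, fun a' c' => ?_⟩
  · calc m⁻¹ * y * δ.C ω * (m⁻¹ * y)⁻¹ = m⁻¹ * (y * δ.C ω * y⁻¹) * m := by group
      _ = _ := by rw [e, ← hu, mul_assoc, ← (mZ ω).eq, inv_mul_cancel_left]
  · obtain ⟨p, hp⟩ := φs (a', c')
    exact ⟨p.1, p.2, by rw [hφ p, hp]⟩

theorem Fn.hyp {g τ : G} (h : δ.Fn g τ) {y : G} (c : Commute y δ.z) {a d : F} (ha : a ≠ 0)
    (e : y * δ.C ω * y⁻¹ = δ.U a 0 d) : a = 1 := by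
  obtain ⟨y, c, e, hV⟩ := h.qn1_fr c ha e
  have ok := h.ci.1.ok
  have h' := h.cj y
  have ok' := h'.ci.1.ok
  have hz : (δ.cj y).C 1 = δ.C 1 := by rw [cj_C]; exact mul_inv_eq_iff_eq_mul.2 c.eq
  have hu : (δ.cj y).C ω = δ.U a 0 d := (cj_C ..).trans e
  have hV' : ∀ x, (∀ a c, Commute x (δ.U a 0 c)) → ∀ a c, Commute x ((δ.cj y).U a 0 c) :=
    fun x hx a c => by
      obtain ⟨a', c', e'⟩ := hV a c
      rw [cj_U, e']
      exact hx a' c'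
  have cV : ∀ {j ρ σ}, δ.InD j (0, 0, ρ, σ) → ∀ a c, Commute j (δ.U a 0 c) := fun hj a c => by
    have := ok.InD_comm hj (ok.InD_U a 0 c)
    simp only [b4, mul_zero, zero_mul, add_zero, C_zero, mul_one] at this
    exact mul_inv_eq_iff_eq_mul.1 this
  obtain ⟨j, ρ, σ, v', h0, hj, hj'⟩ : ∃ j ρ σ v', ¬ (ρ = 0 ∧ σ = 0) ∧ δ.InD j (0, 0, ρ, σ) ∧
      (δ.cj y).InD j v' := by
    choose J hJ using fun p : F × F => ok.exists_InD (v := (0, 0, p.1, p.2)) (Or.inl h.ci.2)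
    choose μ hμ using fun p => h'.cv (hV' _ (cV (hJ p))) (ok.InD_four (hJ p))
    obtain ⟨p, q, hpq, e⟩ := Fintype.exists_ne_map_eq_of_card_lt μ (by decide)
    have h1 := ok.InD_mul (hJ p) (hJ q)
    simp only [Prod.mk_add_mk, add_zero] at h1
    obtain ⟨v', hv'⟩ := ok'.ker2 (fun c => hV' _ (cV h1) 0 c) (((hμ p).mul (hμ q)).congr fun v => by
      rw [Function.comp_apply, f1_f1, e, SA.two]
      simp [f1]) (k := 2) (ok.InD_four h1)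
    refine ⟨_, _, _, v', fun h2 => hpq ?_, h1, hv'⟩
    have t : ∀ a b : F, a + b = 0 → a = b := by decide
    exact Prod.ext (t _ _ h2.1) (t _ _ h2.2)
  by_cases h1 : ρ * σ = 0
  · exfalso
    have dv : DV (0, 0, ρ, σ) := by clear hj; revert ρ σ; decide
    obtain ⟨m1, -, z1, -, e1⟩ := h.ci.G2 hj dv
    obtain ⟨m2, -, z2, -, e2⟩ := h'.ci.G2 hj' ((h'.ci.DV_iff hj').1 ((DD_cj ..).2 ((h.ci.DV_iff hj).2 dv)))
    have ct : Commute (m1⁻¹ * m2 * y) δ.t := by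
      calc m1⁻¹ * m2 * y * δ.t = m1⁻¹ * (m2 * (y * δ.t * y⁻¹) * m2⁻¹) * m2 * y := by group
        _ = _ := by rw [show m2 * (y * δ.t * y⁻¹) * m2⁻¹ = _ from e2.symm.trans e1]; group
    have cz : Commute (m1⁻¹ * m2 * y) δ.z :=
      ((z1 1).inv_left.mul_left (hz ▸ z2 1 :)).mul_left c
    obtain ⟨a', b', d', e3⟩ := ok.hy.zT (inv_mem (ok.cent_r (lam_one _) one_ne_zero ct)) one_ne_zero
      cz.inv_left 0 1 0
    obtain ⟨a2, b2, d2, e4⟩ := ok.hy.zT (inv_mem (ok.cent_r (lam_one _) one_ne_zero ct)) one_ne_zero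
      cz.inv_left 1 0 0
    obtain ⟨a3, b3, d3, e5⟩ := ok.hy.zT (ok.cent_r (lam_one _) one_ne_zero ct) one_ne_zero cz 0 0 ω
    have gg : ∀ n x : G, n * (n⁻¹ * x * n⁻¹⁻¹) * n⁻¹ = x := fun n x => by group
    have k1 : Commute (δ.U a3 b3 d3) (δ.U 0 1 0) := by
      have := (δ.C_U a' b' d' ω).conj (m1⁻¹ * m2 * y)
      rw [show δ.U a' b' d' = _ from e3.symm, show _ * δ.C ω * _ = _ from e5, gg] at this
      exact this
    have k2 : Commute (δ.U a3 b3 d3) (δ.U 1 0 0) := by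
      have := (δ.C_U a2 b2 d2 ω).conj (m1⁻¹ * m2 * y)
      rw [show δ.U a2 b2 d2 = _ from e4.symm, show _ * δ.C ω * _ = _ from e5, gg] at this
      exact this
    rw [Commute, SemiconjBy, U_mul, U_mul] at k1 k2
    have k3 := (ok.U_inj k1).2.2
    have k4 := (ok.U_inj k2).2.2
    simp only [mul_zero, mul_one, zero_mul, one_mul, add_zero, zero_add, add_eq_left, left_eq_add] at k3 k4
    subst k3 k4
    have e6 : δ.U a 0 d = m1 * δ.C d3 * m1⁻¹ := by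
      rw [show δ.C d3 = _ from e5.symm,
        ← hu, ← mul_inv_cancel_right ((δ.cj y).C ω) m2, ← (z2 ω).eq, cj_C, Dat.C, Dat.U]
      group
    rw [(z1 d3).eq, mul_inv_cancel_right] at e6
    exact ha (ok.U_inj e6).1
  have e1 := (ok.InD_sq hj).symm.trans (ok'.InD_sq hj')
  have q1 : q4 (0, 0, ρ, σ) = ρ * σ := by simp [q4]
  rw [q1] at e1
  obtain ⟨e2, e3⟩ : ρ * σ = 1 ∧ q4 v' = 1 := by
    rcases qn1_C hz hu (q4 v') with ⟨h2, h3⟩ | ⟨d', h2⟩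
    · have := ok.C_inj (e1.trans h2)
      exact ⟨this ▸ h3.resolve_left (this ▸ h1), h3.resolve_left (this ▸ h1)⟩
    · exact (ha (ok.U_inj (e1.trans h2)).1.symm).elim
  obtain ⟨a', b', ρ', σ'⟩ := v'
  have e4 := ok'.InD_comm hj' (ok'.InD_U 1 0 0)
  rw [(hV' _ (cV hj) 1 0).eq, mul_inv_cancel_right, left_eq_mul, ← (δ.cj y).C_zero] at e4
  have e5 := ok'.C_inj e4
  simp only [b4, mul_zero, zero_mul, add_zero, zero_add, one_mul] at e5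
  have r0 : ρ' ≠ 0 := by
    rintro rfl
    simp [q4, e5] at e3
  obtain ⟨y2, hy2⟩ := ok'.exists_Wy (ρ'⁻¹ * ω)
  have e6 := ok'.InD_comm (ok'.InD_W hy2) hj'
  simp only [b4, mul_zero, zero_mul, add_zero, zero_add, mul_inv_cancel_left₀ r0, hu] at e6
  obtain ⟨μ, hμ⟩ := h.cv (x := y2) (fun a c => by
    obtain ⟨φ, hφ⟩ : ∃ φ : F × F → F × F, ∀ p, y * δ.U p.1 0 p.2 * y⁻¹ = δ.U (φ p).1 0 (φ p).2 := by
      choose A B hAB using hV
      exact ⟨fun p => (A p.1 p.2, B p.1 p.2), fun p => hAB _ _⟩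
    obtain ⟨p, hp⟩ := Finite.surjective_of_injective (f := φ) (fun p q e => by
      have := (hφ p).trans (e ▸ (hφ q).symm)
      rw [mul_left_inj, mul_right_inj] at this
      exact Prod.ext (ok.U_inj this).1 (ok.U_inj this).2.2) (a, c)
    have := hy2.1.1 p.1 0 p.2
    rwa [cj_U, hφ, hp] at this) hy2.1.2.2.2
  have e7 := ok.InD_uniq (e6 ▸ hμ _ _ hj) (ok.InD_mul hj (ok.InD_U a 0 d))
  have e8 := congrArg Prod.fst e7
  simp only [f1, Prod.fst_add, mul_zero, add_zero, zero_add, one_mul] at e8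
  subst e8
  revert ha e2
  clear * -
  revert μ ρ σ
  decide

end Dat

end Cfsg.Agent.LT
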