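import Cfsg.Agent.LT.BaseD

/-! `C_K(R) = O × R` and the translations centralising `T` (notes/LX.md). -/

set_option autoImplicit false

namespace Cfsg.Agent.LT

open Subgroup H29 LS
open scoped commutatorElement

theorem F4c (d : F) : d = 0 ∨ d = 1 ∨ d = ω ∨ d = ω + 1 := by revert d; decide

theorem lin_of {A : F → F} (h : ∀ x y, A (x + y) = A x + A y) :
    ∃ l l', ∀ x, A x = l * x + l' * (x * x) := by
  have e : ∀ p q : F, ∃ l l' : F, p = l * 1 + l' * (1 * 1) ∧ q = l * ω + l' * (ω * ω) ∧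
      q + p = l * (ω + 1) + l' * ((ω + 1) * (ω + 1)) := by decide
  obtain ⟨l, l', h1, h2, h3⟩ := e (A 1) (A ω)
  refine ⟨l, l', fun x => ?_⟩
  rcases F4c x with rfl | rfl | rfl | rfl
  · have := h 0 0
    rw [SA.two, SA.two] at this
    simp [this]
  · exact h1
  · exact h2
  · rw [h, h3]

theorem rot_of {A : F → F} (h : ∀ x y, A (x + y) = A x + A y) (e : ∀ x, x + A x + A (A x) = 0) :
    ∃ α, (α = ω ∨ α = ω + 1) ∧ ∀ x, A x = α * x := by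
  obtain ⟨l, l', hl⟩ := lin_of h
  simp only [hl] at e ⊢
  clear hl
  revert l l'
  decide

theorem inv_of_even {G : Type*} [Group G] [Finite G] {k : G} (h : ¬ Odd (orderOf k)) :
    ∃ m, k ^ m * k ^ m = 1 ∧ k ^ m ≠ 1 := by
  obtain ⟨m, hm⟩ := Nat.not_odd_iff_even.mp h
  have := orderOf_pos k
  exact ⟨m, by rw [← pow_add, ← hm, pow_orderOf_eq_one],
    pow_ne_one_of_lt_orderOf (by omega) (by omega)⟩

theorem odd_conj {G : Type*} [Group G] {y a b : G} (e : y * a * y⁻¹ = b) (c : Commute (y * y) b)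
    {n : ℕ} (hn : Odd n) : y ^ n * a * (y ^ n)⁻¹ = b := by
  obtain ⟨m, rfl⟩ := hn
  rw [pow_succ, pow_mul, pow_two, show (y * y) ^ m * y * a * ((y * y) ^ m * y)⁻¹ =
    (y * y) ^ m * (y * a * y⁻¹) * ((y * y) ^ m)⁻¹ by group, e, (c.pow_left m).eq, mul_inv_cancel_right]

theorem cj_mul {G : Type*} [Group G] (x y a : G) :
    x * y * a * (x * y)⁻¹ = x * (y * a * y⁻¹) * x⁻¹ := by group

theorem cj_dist {G : Type*} [Group G] (x a b : G) :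
    x * (a * b) * x⁻¹ = x * a * x⁻¹ * (x * b * x⁻¹) := conj_mul.symm

theorem pow4 {G : Type*} [Group G] (y : G) : y ^ 4 = y * y * (y * y) := by
  rw [← pow_two, ← pow_two, ← pow_mul]

theorem cj_of {G : Type*} [Group G] {x a : G} (c : Commute x a) : x * a * x⁻¹ = a :=
  mul_inv_eq_of_eq_mul c.eq

theorem of_cj {G : Type*} [Group G] {x a : G} (c : x * a * x⁻¹ = a) : Commute x a :=
  mul_inv_eq_iff_eq_mul.mp c

namespace Dat

section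

variable {G : Type*} [Group G] {δ : Dat G}

theorem OK.r_U (ok : δ.OK) (ρ a b c : F) : Commute (δ.r ρ) (δ.U a b c) := ok.r_L ρ _

theorem OK.r_C (ok : δ.OK) (ρ c : F) : Commute (δ.r ρ) (δ.C c) := ok.r_L ρ _

theorem OK.r_h (ok : δ.OK) (ρ : F) : Commute (δ.r ρ) δ.h := ok.r_L ρ _

theorem OK.r_w (ok : δ.OK) (ρ : F) : Commute (δ.r ρ) δ.w := ok.r_L ρ _

theorem K_U {k : G} (hk : k ∈ Kc δ.ι) (a b c : F) : Commute k (δ.U a b c) := mem_Kc.mp hk _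

theorem K_C {k : G} (hk : k ∈ Kc δ.ι) (c : F) : Commute k (δ.C c) := mem_Kc.mp hk _

theorem OK.U_comm (ok : δ.OK) {a b c a' b' c' : F} :
    Commute (δ.U a b c) (δ.U a' b' c') ↔ a * b' = a' * b := by
  rw [Commute, SemiconjBy, U_mul, U_mul]
  refine ⟨fun h => ?_, fun h => by rw [h, add_comm a, add_comm b, add_comm c]⟩
  have := (ok.U_inj h).2.2
  rwa [add_comm c, add_right_inj] at this

theorem OK.U_cen (ok : δ.OK) {a b c : F} (h : ∀ a' b' c', Commute (δ.U a b c) (δ.U a' b' c')) :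
    a = 0 ∧ b = 0 :=
  ⟨by simpa using ok.U_comm.mp (h 0 1 0), by simpa using (ok.U_comm.mp (h 1 0 0)).symm⟩

theorem U_split (δ : Dat G) (a b c : F) : δ.U a b c = δ.U a 0 0 * δ.U 0 b 0 * δ.C (c + a * b) := by
  rw [U_mul, U_C]; congr 1 <;> revert a b c <;> decide

theorem U_add1 (δ : Dat G) (a b : F) : δ.U (a + b) 0 0 = δ.U a 0 0 * δ.U b 0 0 := by
  rw [U_mul, mul_zero, add_zero, add_zero]

theorem U_add2 (δ : Dat G) (a b : F) : δ.U 0 (a + b) 0 = δ.U 0 a 0 * δ.U 0 b 0 := by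
  rw [U_mul, zero_mul, add_zero, add_zero]

theorem U_uc (δ : Dat G) (a b c : F) : δ.U a b c = δ.U a b 0 * δ.C c := by rw [U_C, zero_add]

theorem hi_U (δ : Dat G) (a b c : F) :
    δ.h⁻¹ * δ.U a b c * δ.h⁻¹⁻¹ = δ.U (ω * ω * a) (ω * ω * b) (ω * c) := by
  rw [← eq_cj δ.h, h_U, ← cj_mul, mul_inv_cancel, one_mul, inv_one, mul_one]
  congr 1 <;> revert a b c <;> decide

theorem hi_C (δ : Dat G) (c : F) : δ.h⁻¹ * δ.C c * δ.h⁻¹⁻¹ = δ.C (ω * c) := by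
  rw [C, hi_U, mul_zero, C]

theorem OK.gT' (ok : δ.OK) (a b c : F) : ∃ a' b' c', δ.U a b c = δ.g * δ.U a' b' c' * δ.g⁻¹ := by
  choose fa fb fc hf using ok.gT
  have : Function.Injective fun v : F × F × F =>
      (fa v.1 v.2.1 v.2.2, fb v.1 v.2.1 v.2.2, fc v.1 v.2.1 v.2.2) := fun v w e => by
    simp only [Prod.mk.injEq] at e
    obtain ⟨h1, h2, h3⟩ := ok.U_inj ((eq_cj δ.g _ _).mp (by rw [hf, hf, e.1, e.2.1, e.2.2]) :
      δ.U v.1 v.2.1 v.2.2 = δ.U w.1 w.2.1 w.2.2)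
    exact Prod.ext h1 (Prod.ext h2 h3)
  obtain ⟨v, e⟩ := Finite.surjective_of_injective this (a, b, c)
  simp only [Prod.mk.injEq] at e
  exact ⟨_, _, _, by rw [hf, e.1, e.2.1, e.2.2]⟩

theorem OK.star_C (ok : δ.OK) {c : F} (h : δ.C c ∈ Kc (LT.cj δ.g δ.ι)) : c = 0 := by
  obtain ⟨a', b', c', e⟩ := ok.gT' 0 0 c
  have := (ok.hy.fr (Fr.cj _ δ.g)).LK2 (p := u a' b' c') (e := u_four ..) (by rwa [C, e] at h)
  rw [U, U, this, map_one, mul_one, mul_inv_cancel, ← δ.C_zero] at e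
  exact ok.C_inj e

theorem OK.star_U (ok : δ.OK) {k : G} (h : k ∈ Kc (LT.cj δ.g δ.ι)) (a b c : F) :
    Commute k (δ.U a b c) := by
  obtain ⟨a', b', c', e⟩ := ok.gT' a b c
  rw [e]; exact mem_Kc.mp h _

theorem OK.gC (ok : δ.OK) (c : F) : ∃ c', δ.g * δ.C c * δ.g⁻¹ = δ.C c' := by
  obtain ⟨a', b', c', e⟩ := ok.gT 0 0 c
  obtain ⟨rfl, rfl⟩ := ok.U_cen (a := a') (b := b') (c := c') fun x y z => by
    obtain ⟨x, y, z, e'⟩ := ok.gT' x y z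
    rw [← e, e', cm_cj]; exact δ.C_U _ _ _ _
  exact ⟨c', e⟩

theorem OK.gC' (ok : δ.OK) (c : F) : ∃ c', δ.C c = δ.g * δ.C c' * δ.g⁻¹ := by
  obtain ⟨a', b', c', e⟩ := ok.gT' 0 0 c
  obtain ⟨rfl, rfl⟩ := ok.U_cen (a := a') (b := b') (c := c') fun x y z => by
    obtain ⟨x, y, z, e'⟩ := ok.gT x y z
    rw [← cm_cj δ.g, ← e, e']; exact δ.C_U _ _ _ _
  exact ⟨c', e⟩

/-- `h^g` acts on `T / Z` and `Z` like `h` or `h⁻¹` -/
theorem OK.hstar (ok : δ.OK) {s : G} (hs : s = δ.g * δ.h * δ.g⁻¹) : ∃ α, (α = ω ∨ α = ω + 1) ∧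
    (∀ a, ∃ c, s * δ.U a 0 0 * s⁻¹ = δ.U (α * a) 0 c) ∧
    (∀ b, ∃ c, s * δ.U 0 b 0 * s⁻¹ = δ.U 0 (α * b) c) ∧ ∀ c, s * δ.C c * s⁻¹ = δ.C (α * α * c) := by
  have k : ∀ a b c, s * (δ.g * δ.U a b c * δ.g⁻¹) * s⁻¹ =
      δ.g * δ.U (ω * a) (ω * b) (ω * ω * c) * δ.g⁻¹ := fun a b c => by
    rw [hs, conj_inv, conj_mul, conj_mul, h_U]
  have hT : ∀ a b c, ∃ a' b' c', s * δ.U a b c * s⁻¹ = δ.U a' b' c' := fun a b c => by
    obtain ⟨x, y, z, e⟩ := ok.gT' a b c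
    rw [e, k]; exact ok.gT _ _ _
  have hZ : ∀ c, ∃ c', s * δ.C c * s⁻¹ = δ.C c' := fun c => by
    obtain ⟨x, e⟩ := ok.gC' c
    rw [e, C, k, mul_zero]; exact ok.gC _
  have p2 : ∀ a b c, ∃ d, δ.U a b c * (s * δ.U a b c * s⁻¹) * (s * (s * δ.U a b c * s⁻¹) * s⁻¹) =
      δ.C d := fun a b c => by
    obtain ⟨x, y, z, e⟩ := ok.gT' a b c
    rw [e, k, k, conj_mul, conj_mul, U_mul, U_mul, (by decide : ∀ x : F, x + ω * x + ω * (ω * x) = 0),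
      (by decide : ∀ x : F, x + ω * x + ω * (ω * x) = 0)]
    exact ok.gC _
  have p2' : ∀ c, δ.C c * (s * δ.C c * s⁻¹) * (s * (s * δ.C c * s⁻¹) * s⁻¹) = δ.C 0 := fun c => by
    obtain ⟨x, e⟩ := ok.gC' c
    rw [e, C, k, k, conj_mul, conj_mul, U_mul, U_mul, C_zero, conj_eq_one_iff, ← δ.U_zero]
    clear e
    congr 1 <;> revert x <;> decide
  have p3 : ∀ a b, a * b = 0 → Commute (δ.U a b 0) (s * δ.U a b 0 * s⁻¹) := fun a b h => by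
    obtain ⟨x, y, z, e⟩ := ok.gT' a b 0
    have : δ.U a b 0 * δ.U a b 0 = 1 := by
      rw [U_mul, h, SA.two, SA.two, add_zero, add_zero, U_zero]
    rw [e, conj_mul, conj_eq_one_iff, U_mul, ← δ.U_zero] at this
    have := (ok.U_inj this).2.2
    rw [SA.two, zero_add] at this
    rw [e, k, cm_cj, ok.U_comm, mul_left_comm, this, mul_assoc, this]
  have v1 : ∀ a, ∃ a' c, s * δ.U a 0 0 * s⁻¹ = δ.U a' 0 c := fun a => by
    obtain ⟨x, y, z, e⟩ := hT a 0 0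
    by_cases ha : a = 0
    · exact ⟨0, 0, by rw [ha, U_zero, mul_one, mul_inv_cancel]⟩
    have := p3 a 0 (mul_zero a)
    rw [e, ok.U_comm, mul_zero, mul_eq_zero] at this
    exact ⟨x, z, by rw [e, this.resolve_left ha]⟩
  have v2 : ∀ b, ∃ b' c, s * δ.U 0 b 0 * s⁻¹ = δ.U 0 b' c := fun b => by
    obtain ⟨x, y, z, e⟩ := hT 0 b 0
    by_cases ha : b = 0
    · exact ⟨0, 0, by rw [ha, U_zero, mul_one, mul_inv_cancel]⟩
    have := p3 0 b (zero_mul b)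
    rw [e, ok.U_comm, zero_mul, eq_comm, mul_eq_zero] at this
    exact ⟨y, z, by rw [e, this.resolve_right ha]⟩
  choose A cA hA using v1
  choose B cB hB using v2
  choose Γ hΓ using hZ
  have uc := δ.U_uc
  obtain ⟨α, hα, eα⟩ := rot_of (A := A) (fun x y => by
      have := hA (x + y)
      rw [U_add1, cj_dist, hA, hA, U_mul] at this
      exact (ok.U_inj this).1.symm) fun x => by
      obtain ⟨d, e⟩ := p2 x 0 0
      rw [hA, uc (A x) 0 (cA x), cj_dist s, hA, hΓ, U_C, U_C, U_mul, U_mul] at e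
      exact (ok.U_inj e).1
  obtain ⟨β, hβ, eβ⟩ := rot_of (A := B) (fun x y => by
      have := hB (x + y)
      rw [U_add2, cj_dist, hB, hB, U_mul] at this
      exact (ok.U_inj this).2.1.symm) fun x => by
      obtain ⟨d, e⟩ := p2 0 x 0
      rw [hB, uc 0 (B x) (cB x), cj_dist s, hB, hΓ, U_C, U_C, U_mul, U_mul] at e
      exact (ok.U_inj e).2.1
  obtain ⟨γ, hγ, eγ⟩ := rot_of (A := Γ) (fun x y => ok.C_inj (by
    rw [← hΓ, C_add, C_add, ← hΓ, ← hΓ, conj_mul])) fun x => by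
      have e := p2' x
      rw [hΓ, hΓ, ← C_add, ← C_add] at e
      exact ok.C_inj e
  have e := congrArg (fun x => s * x * s⁻¹) (δ.U_conj 1 0 0 0 1 0)
  simp only [cj_dist s] at e
  rw [← conj_inv, hA, hB, U_conj, uc 0 1 (0 + 1 * 1 + 0 * 0), cj_dist, hB, hΓ, U_C] at e
  have e := (ok.U_inj e).2.2
  rw [eα, eβ, eγ, mul_zero, add_zero, add_right_inj] at e
  have : β = α ∧ γ = α * α := by
    revert e; rcases hα with rfl | rfl <;> rcases hβ with rfl | rfl <;> rcases hγ with rfl | rfl <;>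
      decide
  obtain ⟨rfl, rfl⟩ := this
  exact ⟨β, hβ, fun a => ⟨_, by rw [hA, eα]⟩, fun b => ⟨_, by rw [hB, eβ]⟩, fun c => by rw [hΓ, eγ]⟩

theorem CZ.twice {x : G} (hx : δ.CZ x) {a : G} {c : F} (e : x * a * x⁻¹ = a * δ.C c) :
    x⁻¹ * a * x⁻¹⁻¹ = a * δ.C c := by
  rw [← eq_cj x, ← cj_mul, mul_inv_cancel, one_mul, inv_one, mul_one, ← conj_mul, e, cj_of (hx c),
    mul_assoc, C_sq, mul_one]

/-- the commutator with `h` of a central automorphism of `T` is inner -/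
theorem OK.inner_h (ok : δ.OK) {x : G} (hx : δ.CZ x) (h1 : ∀ a, ∃ c, x * δ.U a 0 0 * x⁻¹ = δ.U a 0 c)
    (h2 : ∀ b, ∃ c, x * δ.U 0 b 0 * x⁻¹ = δ.U 0 b c) :
    ∃ a₀ b₀, ∀ a b c, Commute (δ.U a₀ b₀ 0 * (δ.h * (x * (δ.h⁻¹ * x⁻¹)))) (δ.U a b c) := by
  choose A hA using h1
  choose B hB using h2
  have uc := δ.U_uc
  obtain ⟨l, l', eA⟩ := lin_of (A := A) fun a b => by
    have := hA (a + b)
    rw [U_add1, cj_dist, hA, hA, U_mul, mul_zero, add_zero (A a + _)] at this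
    exact (ok.U_inj this).2.2.symm
  obtain ⟨m, m', eB⟩ := lin_of (A := B) fun a b => by
    have := hB (a + b)
    rw [U_add2, cj_dist, hB, hB, U_mul, zero_mul, add_zero (B a + _)] at this
    exact (ok.U_inj this).2.2.symm
  refine ⟨ω * ω * m, ω * ω * l, fun a b c => ?_⟩
  rw [δ.U_split a b c]
  refine Commute.mul_right (Commute.mul_right (of_cj ?_) (of_cj ?_)) (of_cj ?_)
  · rw [cj_mul, cj_mul, cj_mul, cj_mul, hx.twice ((hA a).trans (uc _ _ _)), U_C, hi_U, mul_zero,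
      uc _ 0, cj_dist x, hA, cj_of (hx _), U_C, h_U, U_conj, eA, eA]
    clear eA eB
    refine congrArg₂ (δ.U · 0 ·) ?_ ?_ <;> revert a l l' m <;> decide
  · rw [cj_mul, cj_mul, cj_mul, cj_mul, hx.twice ((hB b).trans (uc _ _ _)), U_C, hi_U, mul_zero,
      uc 0, cj_dist x, hB, cj_of (hx _), U_C, h_U, U_conj, eB, eB]
    clear eA eB
    congr 1 <;> revert b l m m' <;> decide
  · rw [cj_mul, cj_mul, cj_mul, cj_mul, cj_of (hx.inv _), hi_C, cj_of (hx _), h_C,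
      (by decide : ∀ c : F, ω * ω * (ω * c) = c), cj_of (δ.C_U _ _ _ _).symm]

end

variable {G : Type*} [Group G] [Finite G] {δ : Dat G}

theorem OK.KK (ok : δ.OK) {k : G} (hk : k ∈ Kc δ.ι) (hk' : k ∈ Kc (LT.cj δ.g δ.ι)) :
    Odd (orderOf k) := by
  by_contra h
  obtain ⟨m, h2, h1⟩ := inv_of_even h
  have e := ok.hy.same (Fr.cj _ δ.g) (pow_mem hk m) (pow_mem hk' m) h2 h1
  have := ok.gR 1 (lam_one _)
  rw [Kc, e] at this
  exact one_ne_zero (ok.U_K ((mul_mem_cancel_left (ok.rK 1)).mp this)).2.2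

theorem OK.cR (ok : δ.OK) {k : G} (hk : k ∈ Kc δ.ι) (c : ∀ ρ, Lam δ.e ρ → Commute k (δ.r ρ)) :
    ∃ o ρ, δ.Od o ∧ Lam δ.e ρ ∧ k = o * δ.r ρ := by
  obtain ⟨ρ, h, e⟩ := ok.cen k hk (c 1 (lam_one _))
  have m := mul_mem hk (ok.rK ρ)
  exact ⟨_, ρ, ⟨m, fun σ hσ => (c σ hσ).mul_left (ok.r_comm h hσ), ok.KK m e⟩, h, by
    rw [mul_assoc, ok.r_sq h, mul_one]⟩

/-- elements of odd order in `C_K(t)` -/
theorem OK.odd_star (ok : δ.OK) {k : G} (hk : k ∈ Kc δ.ι) (c : Commute k δ.t) :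
    Odd (orderOf k) ↔ k ∈ Kc (LT.cj δ.g δ.ι) := by
  refine ⟨fun h => ?_, ok.KK hk⟩
  obtain ⟨ρ, l, e⟩ := ok.cen k hk c
  have m := mul_mem e (ok.gR ρ l)
  rw [mul_assoc, ← mul_assoc (δ.r ρ), ok.r_sq l, one_mul] at m
  have p := pow_mem m (orderOf k)
  obtain ⟨n, hn⟩ := h
  rw [(show Commute k (δ.C ρ) from mem_Kc.mp hk _).mul_pow, pow_orderOf_eq_one, one_mul, hn, pow_succ,
    pow_mul, pow_two, C_sq, one_pow, one_mul] at p
  rwa [ok.star_C p, C_zero, mul_one] at m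

theorem OK.Od_star (ok : δ.OK) {o : G} (h : δ.Od o) : o ∈ Kc (LT.cj δ.g δ.ι) :=
  (ok.odd_star h.1 (h.2.1 1 (lam_one _))).mp h.2.2

theorem OK.Od_mul (ok : δ.OK) {o o' : G} (h : δ.Od o) (h' : δ.Od o') : δ.Od (o * o') :=
  ⟨mul_mem h.1 h'.1, fun ρ l => (h.2.1 ρ l).mul_left (h'.2.1 ρ l),
    ok.KK (mul_mem h.1 h'.1) (mul_mem (ok.Od_star h) (ok.Od_star h'))⟩

theorem Od.inv {o : G} (h : δ.Od o) : δ.Od o⁻¹ :=
  ⟨inv_mem h.1, fun ρ l => (h.2.1 ρ l).inv_left, by rw [orderOf_inv]; exact h.2.2⟩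

theorem OK.exists_Ty1 (ok : δ.OK) : ∃ y σ, σ ≠ 0 ∧ δ.Ty y σ := by
  obtain ⟨α, hα, s1, s2, s3⟩ := ok.hstar rfl
  set s := δ.g * δ.h * δ.g⁻¹ with hs
  have sK : ∀ k ∈ Kc (LT.cj δ.g δ.ι), Commute s k := fun k hk => (mem_Kc.mp hk hh).symm
  obtain ⟨p, hp⟩ : ∃ p, ∀ a b c, δ.ι p * δ.U a b c * (δ.ι p)⁻¹ =
      δ.U (α * α * a) (α * α * b) (α * c) := by
    rcases hα with rfl | rfl
    · exact ⟨hh⁻¹, fun a b c => by rw [map_inv]; exact δ.hi_U a b c⟩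
    · exact ⟨hh, fun a b c => δ.h_U a b c⟩
  have a3 : ∀ x, α * α * (α * x) = x := by rcases hα with rfl | rfl <;> decide
  have a3' : ∀ x, α * (α * α * x) = x := by rcases hα with rfl | rfl <;> decide
  have cz : δ.CZ (δ.ι p * s) := fun c => of_cj (by rw [cj_mul, s3, C, hp, mul_zero, a3', C])
  obtain ⟨a₀, b₀, hT⟩ := ok.inner_h cz (fun a => by
    obtain ⟨c, e⟩ := s1 a
    exact ⟨_, by rw [cj_mul, e, hp, a3, mul_zero]⟩) fun b => by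
    obtain ⟨c, e⟩ := s2 b
    exact ⟨_, by rw [cj_mul, e, hp, a3, mul_zero]⟩
  have xr : ∀ ρ, Lam δ.e ρ → δ.ι p * s * δ.r ρ * (δ.ι p * s)⁻¹ = δ.r ρ * δ.C (α * (ρ + α * α * ρ)) :=
    fun ρ l => by
      have := cj_of (sK _ (ok.gR ρ l))
      rw [← conj_mul, s3, ← eq_mul_inv_iff_mul_eq, C_inv, mul_assoc (δ.r ρ), ← C_add] at this
      rw [cj_mul, this, ← conj_mul, cj_of (ok.r_L ρ p).symm, C, hp, mul_zero, C]
  have xo : δ.CO (δ.ι p * s) := (δ.CO_L p).mul fun o h => sK o (ok.Od_star h)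
  generalize δ.ι p * s = x at cz hT xr xo
  have yo : δ.CO (δ.U a₀ b₀ 0 * (δ.h * (x * (δ.h⁻¹ * x⁻¹)))) :=
    (δ.CO_L _).mul ((δ.CO_L _).mul (xo.mul ((δ.CO_L _).inv.mul xo.inv)))
  have yr : ∀ ρ, Lam δ.e ρ → δ.U a₀ b₀ 0 * (δ.h * (x * (δ.h⁻¹ * x⁻¹))) * δ.r ρ *
      (δ.U a₀ b₀ 0 * (δ.h * (x * (δ.h⁻¹ * x⁻¹))))⁻¹ = δ.r ρ * δ.C (ρ * (ω * (α + 1))) := fun ρ l => by
    have hr : Commute δ.h (δ.r ρ) := (ok.r_L ρ _).symm
    rw [cj_mul, cj_mul, cj_mul, cj_mul, cz.twice (xr ρ l), cj_dist δ.h⁻¹, cj_of hr.inv_left, hi_C,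
      cj_dist x, xr ρ l, cj_of (cz _), mul_assoc (δ.r ρ), ← C_add, cj_dist δ.h, cj_of hr, h_C,
      cj_of ((ok.r_U ρ _ _ _).symm.mul_right (δ.C_U _ _ _ _).symm)]
    congr 2
    clear l hr
    revert ρ
    rcases hα with rfl | rfl <;> decide
  generalize δ.U a₀ b₀ 0 * (δ.h * (x * (δ.h⁻¹ * x⁻¹))) = y at hT yo yr
  have y2 : ∀ ρ, Lam δ.e ρ → Commute (y * y) (δ.r ρ) := fun ρ l => of_cj (by
    rw [cj_mul, yr ρ l, ← conj_mul, yr ρ l, C, cj_of (hT _ _ _), mul_assoc, ← C, C_sq, mul_one])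
  obtain ⟨c, k, hk, e⟩ := ok.hy.cenT (ok.cent_r (lam_one _) one_ne_zero (y2 1 (lam_one _)))
    fun a b c => (hT a b c).mul_left (hT a b c)
  obtain ⟨o, ρ, ho, l, rfl⟩ := ok.cR hk fun ρ l => by
    rw [show k = (δ.C c)⁻¹ * (y * y) from eq_inv_mul_of_mul_eq e.symm]
    exact (ok.r_L ρ _).symm.inv_left.mul_left (y2 ρ l)
  refine ⟨y ^ orderOf o, ω * (α + 1), by rcases hα with rfl | rfl <;> decide,
    fun a b c => (hT a b c).pow_left _, fun ρ l => odd_conj (yr ρ l)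
      ((y2 ρ l).mul_right ((hT _ _ _).mul_left (hT _ _ _))) ho.2.2,
    fun o' h' => (yo o' h').pow_left _, ?_⟩
  rw [← pow_mul, mul_comm, pow_mul, pow4, e,
    (mem_Kc.mp hk _).mul_mul_mul_comm, (ho.2.1 ρ l).symm.mul_mul_mul_comm, ok.r_sq l, mul_one]
  erw [δ.C_sq c]
  rw [one_mul, ← pow_two, ← pow_mul, mul_comm, pow_mul, pow_orderOf_eq_one, one_pow]

omit [Finite G] in
theorem OK.Ty_h' (ok : δ.OK) {y : G} {σ : F} (h : δ.Ty y σ) :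
    δ.Ty (δ.h * y * δ.h⁻¹) (ω * ω * σ) := by
  refine ⟨fun a b c => of_cj ?_, fun ρ l => ?_, (δ.CO_L _).mul h.2.2.1 |>.mul (δ.CO_L _).inv, by
    rw [conj_pow, h.2.2.2, mul_one, mul_inv_cancel]⟩
  · rw [cj_mul, cj_mul, hi_U, cj_of (h.1 _ _ _), h_U]
    congr 1 <;> revert a b c <;> decide
  · have hr : Commute δ.h (δ.r ρ) := (ok.r_L ρ _).symm
    rw [cj_mul, cj_mul, cj_of hr.inv_left, h.2.1 ρ l, ← conj_mul, cj_of hr, h_C, mul_left_comm ρ]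

theorem OK.exists_Ty (ok : δ.OK) (σ : F) : ∃ y, δ.Ty y σ := by
  obtain ⟨y, s, hs, h⟩ := ok.exists_Ty1
  rcases (by decide : ∀ s σ : F, s ≠ 0 → σ = 0 ∨ σ = s ∨ σ = ω * ω * s ∨ σ = ω * ω * (ω * ω * s))
    s σ hs with rfl | rfl | rfl | rfl
  · exact ⟨1, fun _ _ _ => Commute.one_left _, fun ρ _ => by simp [C_zero], CO.one, one_pow _⟩
  · exact ⟨_, h⟩
  · exact ⟨_, ok.Ty_h' h⟩
  · exact ⟨_, ok.Ty_h' (ok.Ty_h' h)⟩

end Dat

end Cfsg.Agent.LT
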