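import Cfsg.Agent.LT.Tr1

/-! The groups `Q₁`, `T₁`, `W` (notes/LX.md). -/

set_option autoImplicit false

namespace Cfsg.Agent.LT

open Subgroup H29 LS
open scoped commutatorElement

theorem nm_aux {G : Type*} [Group G] {a₁ a₂ a₃ b₁ b₂ b₃ c₁ c₂ : G} (h₁ : b₁ * a₂ = a₂ * b₁ * c₁)
    (h₂ : b₁ * b₂ * a₃ = a₃ * (b₁ * b₂) * c₂) (k₁ : Commute c₁ (b₂ * a₃ * b₃)) (k₂ : Commute c₂ b₃) :
    a₁ * b₁ * (a₂ * b₂) * (a₃ * b₃) = a₁ * a₂ * a₃ * (b₁ * b₂ * b₃) * (c₂ * c₁) :=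
  calc _ = a₁ * (b₁ * a₂) * (b₂ * a₃ * b₃) := by group
    _ = a₁ * a₂ * b₁ * (c₁ * (b₂ * a₃ * b₃)) := by rw [h₁]; group
    _ = a₁ * a₂ * (b₁ * b₂ * a₃) * b₃ * c₁ := by rw [k₁.eq]; group
    _ = a₁ * a₂ * a₃ * (b₁ * b₂) * (c₂ * b₃) * c₁ := by rw [h₂]; group
    _ = _ := by rw [k₂.eq]; group

theorem sq_comm {G : Type*} [Group G] {x x' : G} (c : Commute x' (x * x)) :
    x * x' * (x * x') = ⁅x, x'⁆ * (x * x) * (x' * x') := by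
  rw [mul_assoc ⁅x, x'⁆, ← mul_assoc (x * x), ← c.eq, commutatorElement_def]; group

namespace Dat

section

variable {G : Type*} [Group G] {δ : Dat G}

theorem V_mul (δ : Dat G) (a c a' c' : F) : δ.U a 0 c * δ.U a' 0 c' = δ.U (a + a') 0 (c + c') := by
  rw [U_mul, mul_zero, add_zero, add_zero]

theorem V_sq (δ : Dat G) (a c : F) : δ.U a 0 c * δ.U a 0 c = 1 := by
  rw [V_mul, SA.two, SA.two, U_zero]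

theorem V_inv (δ : Dat G) (a c : F) : (δ.U a 0 c)⁻¹ = δ.U a 0 c :=
  inv_eq_of_mul_eq_one_right (δ.V_sq a c)

theorem V_comm (δ : Dat G) (a c a' c' : F) : Commute (δ.U a 0 c) (δ.U a' 0 c') := by
  rw [Commute, SemiconjBy, V_mul, V_mul, add_comm a, add_comm c]

theorem wi_U (δ : Dat G) (a c : F) : δ.w⁻¹ * δ.U a 0 c * δ.w⁻¹⁻¹ = δ.U c 0 a := by
  rw [← δ.w_U c a]; group

theorem hi_eq (δ : Dat G) (y : G) : δ.h⁻¹ * y * δ.h = δ.h * (δ.h * y * δ.h⁻¹) * δ.h⁻¹ := by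
  have : δ.h⁻¹ = δ.h * δ.h := inv_eq_of_mul_eq_one_left δ.h_cube
  rw [← cj_mul, ← this, inv_inv]

theorem OK.VR_sq (ok : δ.OK) (a c : F) {ρ : F} (l : Lam δ.e ρ) :
    δ.U a 0 c * δ.r ρ * (δ.U a 0 c * δ.r ρ) = 1 := by
  rw [(ok.r_U ρ _ _ _).mul_mul_mul_comm, V_sq, ok.r_sq l, one_mul]

theorem Tr.mul {x x' : G} {μ σ μ' σ' : F} (h : δ.Tr x μ σ) (h' : δ.Tr x' μ' σ') :
    δ.Tr (x * x') (μ + μ') (σ + σ') :=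
  ⟨fun a c => (h.1 a c).mul_left (h'.1 a c), fun ρ l => by
    rw [cj_mul, h'.2 ρ l, cj_dist, h.2 ρ l, cj_of (h.1 _ _), mul_assoc, V_mul, mul_add, mul_add]⟩

theorem Tr.inv {x : G} {μ σ : F} (h : δ.Tr x μ σ) : δ.Tr x⁻¹ μ σ :=
  ⟨fun a c => (h.1 a c).inv_left, fun ρ l => by
    rw [← eq_cj x, ← cj_mul, mul_inv_cancel, one_mul, inv_one, mul_one, cj_dist, h.2 ρ l,
      cj_of (h.1 _ _), mul_assoc, V_sq, mul_one]⟩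

theorem Tr.zero {x : G} (h : δ.Tr x 0 0) {ρ : F} (l : Lam δ.e ρ) : Commute x (δ.r ρ) :=
  of_cj (by rw [h.2 ρ l, mul_zero, U_zero, mul_one])

theorem Qx.cz {x : G} {μ σ : F} (h : δ.Qx x μ σ) : δ.CZ x := fun c => h.1.1 0 c

theorem Ty.cz {x : G} {σ : F} (h : δ.Ty x σ) : δ.CZ x := fun c => h.1 0 0 c

theorem Qx.ty {y : G} {σ : F} (h : δ.Qx y 0 σ) (c : ∀ a b c, Commute y (δ.U a b c)) : δ.Ty y σ :=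
  ⟨c, fun ρ l => by rw [h.1.2 ρ l, mul_zero, C], h.2⟩

theorem OK.nm_r (ok : δ.OK) {ρ : F} (l : Lam δ.e ρ) : δ.nm (δ.r ρ) = δ.r ρ := by
  rw [nm, hi_eq, cj_of (ok.r_h ρ).symm, cj_of (ok.r_h ρ).symm, ok.r_sq l, one_mul]

theorem nm_V (δ : Dat G) (a c : F) : δ.nm (δ.U a 0 c) = 1 := by
  rw [nm, hi_eq, h_U, h_U, mul_zero, mul_zero, V_mul, V_mul, ← δ.U_zero]
  congr 1 <;> revert a c <;> decide

theorem nm_h (δ : Dat G) (x : G) : δ.nm (δ.h * x * δ.h⁻¹) = δ.h * δ.nm x * δ.h⁻¹ := by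
  simp only [nm]; group

theorem OK.r_Z (ok : δ.OK) {ρ a b c : F} (l : Lam δ.e ρ) (e : δ.r ρ = δ.U a b c) : ρ = 0 := by
  by_contra h
  obtain ⟨rfl, rfl, rfl⟩ := ok.U_K (e ▸ ok.rK ρ)
  exact ok.rne ρ l h (e.trans δ.U_zero)

end

variable {G : Type*} [Group G] [Finite G] {δ : Dat G}

theorem OK.cenVR (ok : δ.OK) {x : G} (h : δ.Tr x 0 0) :
    ∃ a c ρ o, Lam δ.e ρ ∧ δ.Od o ∧ x = δ.U a 0 c * δ.r ρ * o := by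
  obtain ⟨a, c, k, hk, e⟩ := ok.hy.cenV (ok.cent_r (lam_one _) one_ne_zero (h.zero (lam_one _))) h.1
  obtain ⟨o, ρ, ho, l, rfl⟩ := ok.cR hk fun ρ l => by
    rw [show k = (δ.U a 0 c)⁻¹ * x from eq_inv_mul_of_mul_eq e.symm]
    exact (ok.r_U ρ _ _ _).symm.inv_left.mul_left (h.zero l)
  exact ⟨a, c, ρ, o, l, ho, by rw [e, (ho.2.1 ρ l).eq, mul_assoc]; rfl⟩

theorem Ty.qx {y : G} {σ : F} (h : δ.Ty y σ) : δ.Qx y 0 σ :=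
  ⟨⟨fun a c => h.1 a 0 c, fun ρ l => by rw [h.2.1 ρ l, mul_zero, C]⟩, h.2.2⟩

theorem OK.Qx_V (ok : δ.OK) (a c : F) {ρ : F} (h : Lam δ.e ρ) : δ.Qx (δ.U a 0 c * δ.r ρ) 0 0 :=
  ⟨⟨fun _ _ => (δ.V_comm _ _ _ _).mul_left (ok.r_U _ _ _ _), fun σ l => by
    rw [mul_zero, U_zero, mul_one]
    exact cj_of ((ok.r_U _ _ _ _).symm.mul_left (ok.r_comm h l))⟩, (δ.CO_L _).mul (CO_r h), by
    rw [pow4, ok.VR_sq a c h, one_mul]⟩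

theorem OK.Qx_zero (ok : δ.OK) {x : G} (h : δ.Qx x 0 0) :
    ∃ a c ρ, Lam δ.e ρ ∧ x = δ.U a 0 c * δ.r ρ := by
  obtain ⟨a, c, ρ, o, l, ho, rfl⟩ := ok.cenVR h.1
  have q := ok.Qx_V a c l
  exact ⟨a, c, ρ, l, by rw [ho.eq_one (q.2.1 o ho) (n := 2) q.2.2 h.2.2, mul_one]⟩

theorem OK.Qx_uniq (ok : δ.OK) {x : G} {μ σ μ' σ' : F} (h : δ.Qx x μ σ) (h' : δ.Qx x μ' σ') :
    μ = μ' ∧ σ = σ' := by
  have := ok.U_inj (mul_left_cancel ((h.1.2 1 (lam_one _)).symm.trans (h'.1.2 1 (lam_one _))))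
  simp only [one_mul] at this
  exact ⟨this.1, this.2.2⟩

theorem OK.Qx_inv (ok : δ.OK) {x : G} {μ σ : F} (h : δ.Qx x μ σ) : δ.Qx x⁻¹ μ σ :=
  ⟨h.1.inv, h.2.1.inv, by rw [inv_pow, h.2.2, inv_one]⟩

theorem OK.Qx_sq (ok : δ.OK) {x : G} {μ σ : F} (h : δ.Qx x μ σ) : ∃ a c, x * x = δ.U a 0 c := by
  have t := h.1.mul h.1
  rw [SA.two, SA.two] at t
  obtain ⟨a, c, ρ, l, e⟩ := ok.Qx_zero ⟨t, h.2.1.mul h.2.1, by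
    rw [(Commute.refl x).mul_pow, h.2.2, one_mul]⟩
  by_cases h0 : ρ = 0
  · exact ⟨a, c, by rw [e, h0, ok.r_zero, mul_one]⟩
  have := cj_of ((Commute.refl x).mul_right (Commute.refl x))
  rw [e, cj_dist, cj_of (h.1.1 _ _), h.1.2 ρ l, mul_right_inj, mul_eq_left, ← δ.U_zero] at this
  obtain ⟨h1, -, h2⟩ := ok.U_inj this
  obtain rfl := (mul_eq_zero.mp h1).resolve_left h0
  obtain rfl := (mul_eq_zero.mp h2).resolve_left h0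
  obtain ⟨a, c, ρ, l, rfl⟩ := ok.Qx_zero h
  exact ⟨0, 0, by rw [ok.VR_sq a c l, U_zero]⟩

theorem OK.Qx_mul (ok : δ.OK) {x x' : G} {μ σ μ' σ' : F} (h : δ.Qx x μ σ) (h' : δ.Qx x' μ' σ') :
    δ.Qx (x * x') (μ + μ') (σ + σ') := by
  refine ⟨h.1.mul h'.1, h.2.1.mul h'.2.1, ?_⟩
  have t := ((h.1.mul h'.1).mul h.1.inv).mul h'.1.inv
  rw [(by decide : ∀ a b : F, a + b + a + b = 0), (by decide : ∀ a b : F, a + b + a + b = 0),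
    ← commutatorElement_def] at t
  obtain ⟨a, c, ρ, o, l, ho, e⟩ := ok.cenVR t
  obtain ⟨a₁, c₁, e₁⟩ := ok.Qx_sq h
  obtain ⟨a₂, c₂, e₂⟩ := ok.Qx_sq h'
  have k : Commute x' (x * x) := e₁ ▸ h'.1.1 _ _
  have q := ok.Qx_V a c l
  have o1 : o = 1 := by
    have : x * ⁅x, x'⁆ * x⁻¹ * ⁅x, x'⁆ = 1 := by
      rw [show x * ⁅x, x'⁆ * x⁻¹ * ⁅x, x'⁆ = x * x * x' * (x * x)⁻¹ * x'⁻¹ by
        simp only [commutatorElement_def]; group, cj_of k.symm, mul_inv_cancel]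
    rw [e, cj_dist, cj_dist, cj_of (h.1.1 _ _), h.1.2 ρ l, cj_of (h.2.1 o ho), ← mul_assoc (δ.U a 0 c),
      (q.1.1 _ _).eq, (q.2.1 o ho).symm.mul_mul_mul_comm, mul_assoc (δ.U _ 0 _), ok.VR_sq a c l,
      mul_one] at this
    have o2 := (ok.Od_mul ho ho).eq_one (x := δ.U (ρ * μ) 0 (ρ * σ)) (δ.CO_L _ _ (ok.Od_mul ho ho))
      (n := 1) (by rw [pow_one, pow_two, V_sq]) (by rw [this, one_pow])
    exact ho.eq_one (Commute.one_left o) (n := 1) (one_pow _) (by rwa [one_mul, pow_one, pow_two])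
  rw [pow4, sq_comm k, e, o1, mul_one, e₁, e₂, mul_assoc _ (δ.U a₁ 0 c₁), V_mul, mul_assoc (δ.U a 0 c),
    (ok.r_U ρ _ _ _).eq, ← mul_assoc (δ.U a 0 c), V_mul, ok.VR_sq _ _ l]

theorem OK.Qx_comm (ok : δ.OK) {x x' : G} {μ σ μ' σ' : F} (h : δ.Qx x μ σ) (h' : δ.Qx x' μ' σ') :
    ∃ a c, ⁅x, x'⁆ = δ.U a 0 c := by
  obtain ⟨a, c, e⟩ := ok.Qx_sq (ok.Qx_mul h h')
  obtain ⟨a₁, c₁, e₁⟩ := ok.Qx_sq h
  obtain ⟨a₂, c₂, e₂⟩ := ok.Qx_sq h'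
  rw [sq_comm (e₁ ▸ h'.1.1 _ _), e₁, e₂, mul_assoc, V_mul, ← eq_mul_inv_iff_mul_eq, V_inv, V_mul] at e
  exact ⟨_, _, e⟩

theorem OK.Qx_h (ok : δ.OK) {x : G} {μ σ : F} (h : δ.Qx x μ σ) :
    δ.Qx (δ.h * x * δ.h⁻¹) (ω * μ) (ω * ω * σ) := by
  refine ⟨⟨fun a c => of_cj ?_, fun ρ l => ?_⟩, (δ.CO_L _).mul h.2.1 |>.mul (δ.CO_L _).inv, by
    rw [conj_pow, h.2.2, mul_one, mul_inv_cancel]⟩
  · rw [cj_mul, cj_mul, hi_U, mul_zero, cj_of (h.1.1 _ _), h_U]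
    congr 1 <;> revert a c <;> decide
  · rw [cj_mul, cj_mul, cj_of (ok.r_h ρ).symm.inv_left, h.1.2 ρ l, cj_dist, cj_of (ok.r_h ρ).symm, h_U,
      mul_zero, mul_left_comm ρ, mul_left_comm ρ]

theorem OK.Qx_w (ok : δ.OK) {x : G} {μ σ : F} (h : δ.Qx x μ σ) : δ.Qx (δ.w * x * δ.w⁻¹) σ μ := by
  refine ⟨⟨fun a c => of_cj ?_, fun ρ l => ?_⟩, (δ.CO_L _).mul h.2.1 |>.mul (δ.CO_L _).inv, by
    rw [conj_pow, h.2.2, mul_one, mul_inv_cancel]⟩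
  · rw [cj_mul, cj_mul, wi_U, cj_of (h.1.1 _ _), w_U]
  · rw [cj_mul, cj_mul, cj_of (ok.r_w ρ).symm.inv_left, h.1.2 ρ l, cj_dist, cj_of (ok.r_w ρ).symm, w_U]

theorem OK.Qx_U (ok : δ.OK) {x : G} {μ σ : F} (h : δ.Qx x μ σ) (a b c : F) :
    δ.Qx (δ.U a b c * x * (δ.U a b c)⁻¹) μ (σ + μ * b) := by
  refine ⟨⟨fun a' c' => ?_, fun ρ l => ?_⟩, (δ.CO_L _).mul h.2.1 |>.mul (δ.CO_L _).inv, by
    rw [conj_pow, h.2.2, mul_one, mul_inv_cancel]⟩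
  · rw [show δ.U a' 0 c' = δ.U a b c * δ.U a' 0 (c' + a' * b) * (δ.U a b c)⁻¹ by
      rw [U_conj, mul_zero, add_zero, add_assoc, SA.two, add_zero], cm_cj]
    exact h.1.1 _ _
  · rw [cj_mul, cj_mul, cj_of (ok.r_U ρ _ _ _).symm.inv_left, h.1.2 ρ l, cj_dist,
      cj_of (ok.r_U ρ _ _ _).symm, U_conj, mul_zero, add_zero, mul_add, mul_assoc]

theorem OK.exists_Qx (ok : δ.OK) (μ σ : F) : ∃ x, δ.Qx x μ σ := by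
  obtain ⟨y, h⟩ := ok.exists_Ty μ
  obtain ⟨y', h'⟩ := ok.exists_Ty σ
  exact ⟨_, by simpa only [add_zero, zero_add] using ok.Qx_mul (ok.Qx_w h.qx) h'.qx⟩

theorem OK.Ty_zero (ok : δ.OK) {y : G} : δ.Ty y 0 ↔ ∃ c ρ, Lam δ.e ρ ∧ y = δ.C c * δ.r ρ := by
  refine ⟨fun h => ?_, fun ⟨c, ρ, l, e⟩ => e ▸ (ok.Qx_V 0 c l).ty fun _ _ _ =>
    (δ.C_U _ _ _ _).mul_left (ok.r_U _ _ _ _)⟩
  obtain ⟨a, c, ρ, l, e⟩ := ok.Qx_zero h.qx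
  obtain ⟨rfl, -⟩ := ok.U_cen (a := a) (b := 0) (c := c) fun _ _ _ => by
    rw [← mul_inv_eq_iff_eq_mul.mpr e]
    exact (h.1 _ _ _).mul_left (ok.r_U _ _ _ _).inv_left
  exact ⟨c, ρ, l, e⟩

theorem OK.Ty_mul (ok : δ.OK) {y y' : G} {σ σ' : F} (h : δ.Ty y σ) (h' : δ.Ty y' σ') :
    δ.Ty (y * y') (σ + σ') :=
  Qx.ty (by simpa only [add_zero] using ok.Qx_mul h.qx h'.qx) fun _ _ _ =>
    (h.1 _ _ _).mul_left (h'.1 _ _ _)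

theorem OK.Ty_inv (ok : δ.OK) {y : G} {σ : F} (h : δ.Ty y σ) : δ.Ty y⁻¹ σ :=
  (ok.Qx_inv h.qx).ty fun _ _ _ => (h.1 _ _ _).inv_left

theorem OK.Ty_sq (ok : δ.OK) {y : G} {σ : F} (h : δ.Ty y σ) : ∃ c, y * y = δ.C c := by
  obtain ⟨a, c, e⟩ := ok.Qx_sq h.qx
  obtain ⟨rfl, -⟩ := ok.U_cen (a := a) (b := 0) (c := c) fun _ _ _ =>
    e ▸ (h.1 _ _ _).mul_left (h.1 _ _ _)
  exact ⟨c, e⟩

theorem OK.Ty_h (ok : δ.OK) {y : G} {σ : F} (h : δ.Ty y σ) :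
    δ.Ty (δ.h * y * δ.h⁻¹) (ω * ω * σ) := ok.Ty_h' h

theorem OK.nm_Qx (ok : δ.OK) {x : G} {μ σ : F} (h : δ.Qx x μ σ) : δ.Qx (δ.nm x) 0 0 := by
  have := ok.Qx_mul (ok.Qx_mul h (ok.Qx_h h)) (ok.Qx_h (ok.Qx_h h))
  rwa [(by decide : ∀ x : F, x + ω * x + ω * (ω * x) = 0),
    (by decide : ∀ x : F, x + ω * ω * x + ω * ω * (ω * ω * x) = 0), ← hi_eq] at this

theorem OK.nm_Ty (ok : δ.OK) {y : G} {σ : F} (h : δ.Ty y σ) : δ.Ty (δ.nm y) 0 := by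
  have := ok.Ty_mul (ok.Ty_mul h (ok.Ty_h h)) (ok.Ty_h (ok.Ty_h h))
  rwa [(by decide : ∀ x : F, x + ω * ω * x + ω * ω * (ω * ω * x) = 0), ← hi_eq] at this

theorem OK.Qx_swap (ok : δ.OK) {x x' : G} {μ σ μ' σ' : F} (h : δ.Qx x μ σ) (h' : δ.Qx x' μ' σ') :
    ∃ a c, x * x' = x' * x * δ.U a 0 c := by
  obtain ⟨a, c, e⟩ := ok.Qx_comm h h'
  exact ⟨a, c, by rw [((h'.1.1 a c).mul_left (h.1.1 a c)).eq, ← e, commutatorElement_def]; group⟩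

theorem OK.nm_mul (ok : δ.OK) {x x' : G} {μ σ μ' σ' : F} (h : δ.Qx x μ σ) (h' : δ.Qx x' μ' σ') :
    ∃ a c, δ.nm (x * x') = δ.nm x * δ.nm x' * δ.U a 0 c := by
  obtain ⟨a, c, e⟩ := ok.Qx_swap h' (ok.Qx_h h)
  obtain ⟨a', c', e'⟩ := ok.Qx_swap (ok.Qx_mul h' (ok.Qx_h h')) (ok.Qx_h (ok.Qx_h h))
  refine ⟨a' + a, c' + c, ?_⟩
  rw [nm, nm, nm, hi_eq, hi_eq, hi_eq, cj_dist δ.h x, cj_dist δ.h, ← δ.V_mul a' c' a c]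
  exact nm_aux e e' ((ok.Qx_mul (ok.Qx_mul (ok.Qx_h h') (ok.Qx_h (ok.Qx_h h)))
    (ok.Qx_h (ok.Qx_h h'))).1.1 _ _).symm ((ok.Qx_h (ok.Qx_h h')).1.1 _ _).symm

theorem OK.nm_mul_T (ok : δ.OK) {y y' : G} {σ σ' : F} (h : δ.Ty y σ) (h' : δ.Ty y' σ') :
    ∃ c, δ.nm (y * y') = δ.nm y * δ.nm y' * δ.C c := by
  obtain ⟨a, c, e⟩ := ok.nm_mul h.qx h'.qx
  obtain ⟨rfl, -⟩ := ok.U_cen (a := a) (b := 0) (c := c) fun _ _ _ => by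
    rw [← inv_mul_eq_iff_eq_mul.mpr e]
    exact (((ok.nm_Ty h).1 _ _ _).mul_left ((ok.nm_Ty h').1 _ _ _)).inv_left.mul_left
      ((ok.nm_Ty (ok.Ty_mul h h')).1 _ _ _)
  exact ⟨c, e⟩

theorem OK.Ty_C (ok : δ.OK) (c : F) : δ.Ty (δ.C c) 0 :=
  ok.Ty_zero.mpr ⟨c, 0, lam_zero _, by rw [ok.r_zero, mul_one]⟩

theorem OK.Ty_r (ok : δ.OK) {ρ : F} (l : Lam δ.e ρ) : δ.Ty (δ.r ρ) 0 :=
  ok.Ty_zero.mpr ⟨0, ρ, l, by rw [C_zero, one_mul]⟩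

theorem OK.Wy_zero (ok : δ.OK) {y : G} : δ.Wy y 0 ↔ ∃ c, y = δ.C c := by
  refine ⟨fun ⟨h, c', e'⟩ => ?_, fun ⟨c, e⟩ => e ▸ ⟨ok.Ty_C c, 0, (δ.nm_V 0 c).trans δ.C_zero.symm⟩⟩
  obtain ⟨c, ρ, l, rfl⟩ := ok.Ty_zero.mp h
  obtain ⟨d, e⟩ := ok.nm_mul_T (ok.Ty_C c) (ok.Ty_r l)
  rw [e', ok.nm_r l, C, C, nm_V, one_mul, ← mul_inv_eq_iff_eq_mul, C_inv, U_C] at e
  exact ⟨c, by rw [ok.r_Z l e.symm, ok.r_zero, mul_one]⟩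

theorem OK.Wy_uniq (ok : δ.OK) {y : G} {σ σ' : F} (h : δ.Wy y σ) (h' : δ.Wy y σ') : σ = σ' :=
  (ok.Qx_uniq h.1.qx h'.1.qx).2

theorem OK.Wy_mul (ok : δ.OK) {y y' : G} {σ σ' : F} (h : δ.Wy y σ) (h' : δ.Wy y' σ') :
    δ.Wy (y * y') (σ + σ') := by
  obtain ⟨h, c, e⟩ := h
  obtain ⟨h', c', e'⟩ := h'
  obtain ⟨d, k⟩ := ok.nm_mul_T h h'
  exact ⟨ok.Ty_mul h h', _, by rw [k, e, e', ← C_add, ← C_add]⟩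

theorem OK.Wy_inv (ok : δ.OK) {y : G} {σ : F} (h : δ.Wy y σ) : δ.Wy y⁻¹ σ := by
  obtain ⟨h, c, e⟩ := h
  obtain ⟨d, k⟩ := ok.nm_mul_T h (ok.Ty_inv h)
  rw [mul_inv_cancel, ← δ.U_zero, nm_V, e, mul_assoc, ← inv_mul_eq_iff_eq_mul, mul_one,
    ← mul_inv_eq_iff_eq_mul, C_inv, C_inv, ← C_add] at k
  exact ⟨ok.Ty_inv h, _, k.symm⟩

theorem OK.Wy_h (ok : δ.OK) {y : G} {σ : F} (h : δ.Wy y σ) :
    δ.Wy (δ.h * y * δ.h⁻¹) (ω * ω * σ) := by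
  obtain ⟨h, c, e⟩ := h
  exact ⟨ok.Ty_h h, _, by rw [nm_h, e, h_C]⟩

theorem OK.Ty_split (ok : δ.OK) {y : G} {σ : F} (h : δ.Ty y σ) :
    ∃ ρ y', Lam δ.e ρ ∧ δ.Wy y' σ ∧ y = δ.r ρ * y' := by
  obtain ⟨c, ρ, l, e⟩ := ok.Ty_zero.mp (ok.nm_Ty h)
  obtain ⟨d, k⟩ := ok.nm_mul_T (ok.Ty_r l) h
  refine ⟨ρ, δ.r ρ * y, l, ⟨by simpa only [zero_add] using ok.Ty_mul (ok.Ty_r l) h, c + d, ?_⟩, by
    rw [← mul_assoc, ok.r_sq l, one_mul]⟩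
  rw [k, e, ok.nm_r l, ← (ok.r_C ρ c).eq, ← mul_assoc, ok.r_sq l, one_mul, C_add]

theorem OK.exists_Wy (ok : δ.OK) (σ : F) : ∃ y, δ.Wy y σ := by
  obtain ⟨y, h⟩ := ok.exists_Ty σ
  obtain ⟨_, y', -, h', -⟩ := ok.Ty_split h
  exact ⟨y', h'⟩

theorem OK.Wy_diff (ok : δ.OK) {y y' : G} {σ : F} (h : δ.Wy y σ) (h' : δ.Wy y' σ) :
    ∃ c, y' = y * δ.C c := by
  have := ok.Wy_mul (ok.Wy_inv h) h'
  rw [SA.two] at this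
  obtain ⟨c, e⟩ := ok.Wy_zero.mp this
  exact ⟨c, inv_mul_eq_iff_eq_mul.mp e⟩

theorem OK.Wy_sq_lin (ok : δ.OK) : ∃ α, ∀ y σ, δ.Wy y σ → y * y = δ.C (α * σ) := by
  obtain ⟨y₁, h₁⟩ := ok.exists_Wy 1
  obtain ⟨α, e⟩ := ok.Ty_sq h₁.1
  have k : ∀ {y y' σ}, δ.Wy y σ → δ.Wy y' σ → y' * y' = y * y := fun h h' => by
    obtain ⟨c, rfl⟩ := ok.Wy_diff h h'
    rw [(h.1.cz c).symm.mul_mul_mul_comm, C_sq, mul_one]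
  refine ⟨α, fun y σ h => ?_⟩
  rcases (by decide : ∀ σ : F, σ = 0 ∨ σ = 1 ∨ σ = ω * ω * 1 ∨ σ = ω * ω * (ω * ω * 1)) σ with
    rfl | rfl | rfl | rfl
  · obtain ⟨c, rfl⟩ := ok.Wy_zero.mp h
    rw [C_sq, mul_zero, C_zero]
  · rw [k h₁ h, e, mul_one]
  · rw [k (ok.Wy_h h₁) h, conj_mul, e, h_C, mul_one, mul_comm α]
  · rw [k (ok.Wy_h (ok.Wy_h h₁)) h, conj_mul, conj_mul, e, h_C, h_C, mul_one, mul_comm α,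
      mul_assoc (ω * ω)]

theorem OK.Wy_comm (ok : δ.OK) {y y' : G} {σ σ' : F} (h : δ.Wy y σ) (h' : δ.Wy y' σ') :
    Commute y y' := by
  obtain ⟨α, k⟩ := ok.Wy_sq_lin
  have := k _ _ (ok.Wy_mul h h')
  rw [mul_add, C_add, ← k _ _ h, ← k _ _ h', mul_assoc, mul_assoc y y, mul_right_inj, ← mul_assoc,
    ← mul_assoc, mul_left_inj] at this
  exact this.symm

end Dat

end Cfsg.Agent.LT
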