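import Cfsg.Agent.LT.Tr2
import Cfsg.Agent.LS.Maps

/-! The group `D = T T₁` and coordinates on `D / Z` (notes/LX.md). -/

set_option autoImplicit false

namespace Cfsg.Agent.LT

open Subgroup H29 LS
open scoped commutatorElement

theorem V4_two (v : V4) : v + v = 0 :=
  Prod.ext (SA.two _) (Prod.ext (SA.two _) (Prod.ext (SA.two _) (SA.two _)))

theorem V4_eq {v w : V4} (h : v + w = 0) : v = w := by
  rw [← add_zero v, ← V4_two w, ← add_assoc, h, zero_add]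

namespace Dat

variable {G : Type*} [Group G] [Finite G] {δ : Dat G}

theorem OK.Wy_C (ok : δ.OK) (c : F) : δ.Wy (δ.C c) 0 := ok.Wy_zero.mpr ⟨c, rfl⟩

theorem OK.Wy_one (ok : δ.OK) : δ.Wy 1 0 := δ.C_zero ▸ ok.Wy_C 0

theorem OK.InD_U (ok : δ.OK) (a b c : F) : δ.InD (δ.U a b c) (a, b, 0, 0) :=
  ⟨lam_zero _, c, 1, ok.Wy_one, by rw [ok.r_zero, mul_one, mul_one]⟩

theorem OK.InD_C (ok : δ.OK) (c : F) : δ.InD (δ.C c) 0 := ok.InD_U 0 0 c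

theorem OK.InD_r (ok : δ.OK) {ρ : F} (h : Lam δ.e ρ) : δ.InD (δ.r ρ) (0, 0, ρ, 0) :=
  ⟨h, 0, 1, ok.Wy_one, by rw [U_zero, mul_one, one_mul]⟩

theorem OK.InD_t (ok : δ.OK) : δ.InD δ.t (0, 0, 1, 0) := ok.InD_r (lam_one _)

theorem OK.InD_W (ok : δ.OK) {y : G} {σ : F} (h : δ.Wy y σ) : δ.InD y (0, 0, 0, σ) :=
  ⟨lam_zero _, 0, y, h, by rw [U_zero, ok.r_zero, mul_one, one_mul]⟩

theorem OK.exists_InD (ok : δ.OK) {v : V4} (h : Lam δ.e v.2.2.1) : ∃ d, δ.InD d v := by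
  obtain ⟨y, hy⟩ := ok.exists_Wy v.2.2.2
  exact ⟨_, h, 0, y, hy, rfl⟩

theorem OK.InD_cz (ok : δ.OK) {d : G} {v : V4} (h : δ.InD d v) : δ.CZ d := by
  obtain ⟨-, c, y, hy, rfl⟩ := h
  exact fun c => ((δ.C_U _ _ _ _).symm.mul_left (ok.r_C _ _)).mul_left (hy.1.cz c)

theorem InD.co {d : G} {v : V4} (h : δ.InD d v) : δ.CO d := by
  obtain ⟨l, c, y, hy, rfl⟩ := h
  exact ((δ.CO_L _).mul (CO_r l)).mul hy.1.2.2.1

theorem OK.InD_mul (ok : δ.OK) {d d' : G} {v v' : V4} (h : δ.InD d v) (h' : δ.InD d' v') :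
    δ.InD (d * d') (v + v') := by
  obtain ⟨a, b, ρ, σ⟩ := v
  obtain ⟨a', b', ρ', σ'⟩ := v'
  obtain ⟨l, c, y, hy, rfl⟩ := h
  obtain ⟨l', c', y', hy', rfl⟩ := h'
  refine ⟨lam_add l l', c + c' + a * b' + ρ' * σ, y * y', ok.Wy_mul hy hy', ?_⟩
  dsimp only [Prod.mk_add_mk] at *
  calc _ = δ.U a b c * δ.r ρ * (y * (δ.U a' b' c' * δ.r ρ') * y⁻¹) * (y * y') := by group
    _ = δ.U a b c * (δ.r ρ * δ.U a' b' c') * (δ.r ρ' * δ.C (ρ' * σ)) * (y * y') := by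
      rw [cj_dist, cj_of (hy.1.1 _ _ _), hy.1.2.1 ρ' l']; group
    _ = δ.U a b c * δ.U a' b' c' * (δ.r ρ * δ.C (ρ' * σ)) * δ.r ρ' * (y * y') := by
      rw [(ok.r_U _ _ _ _).eq, (ok.r_C _ _).eq]; group
    _ = _ := by rw [(ok.r_C _ _).eq, ok.radd ρ ρ' l l', ← U_C, ← U_mul]; group

theorem OK.InD_mulC (ok : δ.OK) {d : G} {v : V4} (h : δ.InD d v) (c : F) : δ.InD (d * δ.C c) v := by
  simpa only [add_zero] using ok.InD_mul h (ok.InD_C c)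

theorem OK.InD_zero (ok : δ.OK) {d : G} (h : δ.InD d 0) : ∃ c, d = δ.C c := by
  obtain ⟨-, c, y, hy, rfl⟩ := h
  obtain ⟨c', rfl⟩ := ok.Wy_zero.mp hy
  exact ⟨c + c', by rw [C_add]; exact congrArg (· * _) (by erw [ok.r_zero, mul_one]; rfl)⟩

theorem OK.InD_inv (ok : δ.OK) {d : G} {v : V4} (h : δ.InD d v) : δ.InD d⁻¹ v := by
  have := ok.InD_mul h h
  rw [V4_two] at this
  obtain ⟨c, e⟩ := ok.InD_zero this
  rw [show d⁻¹ = d * δ.C c by rw [← C_inv, ← e]; group]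
  exact ok.InD_mulC h c

theorem OK.InD_one (ok : δ.OK) {v : V4} (h : δ.InD 1 v) : v = 0 := by
  obtain ⟨a, b, ρ, σ⟩ := v
  obtain ⟨l, c, y, hy, e⟩ := h
  dsimp only at *
  have k := hy.1.2.1 1 (lam_one _)
  rw [cj_of (eq_inv_of_mul_eq_one_right e.symm ▸
    ((ok.r_U _ _ _ _).symm.mul_left (ok.r_comm l (lam_one _))).inv_left), left_eq_mul, one_mul,
    ← δ.C_zero] at k
  obtain rfl := ok.C_inj k
  obtain ⟨c', rfl⟩ := ok.Wy_zero.mp hy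
  rw [mul_assoc, (ok.r_C _ _).eq, ← mul_assoc, U_C] at e
  obtain rfl := ok.r_Z l ((eq_inv_of_mul_eq_one_right e.symm).trans (δ.U_inv _ _ _))
  rw [ok.r_zero, mul_one, ← δ.U_zero] at e
  obtain ⟨rfl, rfl, -⟩ := ok.U_inj e
  rfl

theorem OK.InD_uniq (ok : δ.OK) {d : G} {v v' : V4} (h : δ.InD d v) (h' : δ.InD d v') : v = v' :=
  V4_eq (ok.InD_one (inv_mul_cancel d ▸ ok.InD_mul (ok.InD_inv h) h'))

theorem OK.InD_diff (ok : δ.OK) {d d' : G} {v : V4} (h : δ.InD d v) (h' : δ.InD d' v) :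
    ∃ c, d' = d * δ.C c := by
  have := ok.InD_mul (ok.InD_inv h) h'
  rw [V4_two] at this
  obtain ⟨c, e⟩ := ok.InD_zero this
  exact ⟨c, inv_mul_eq_iff_eq_mul.mp e⟩

theorem OK.r_W (ok : δ.OK) {y : G} {ρ σ : F} (l : Lam δ.e ρ) (h : δ.Ty y σ) :
    δ.r ρ * y * (δ.r ρ)⁻¹ = y * δ.C (ρ * σ) := by
  have := h.2.1 ρ l
  rw [mul_inv_eq_iff_eq_mul, mul_assoc, ← (h.cz _).eq] at this
  rw [mul_inv_eq_iff_eq_mul, mul_assoc, ← (ok.r_C _ _).eq, ← mul_assoc, this, mul_assoc, mul_assoc,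
    C_sq, mul_one]

theorem OK.InD_comm (ok : δ.OK) {d d' : G} {v v' : V4} (h : δ.InD d v) (h' : δ.InD d' v') :
    d * d' * d⁻¹ = d' * δ.C (b4 v v') := by
  obtain ⟨a, b, ρ, σ⟩ := v
  obtain ⟨a', b', ρ', σ'⟩ := v'
  obtain ⟨l, c, y, hy, rfl⟩ := h
  obtain ⟨l', c', y', hy', rfl⟩ := h'
  dsimp only [b4] at *
  rw [cj_mul, cj_mul, cj_dist y, cj_dist y, cj_of (hy.1.1 _ _ _), hy.1.2.1 ρ' l',
    cj_of (ok.Wy_comm hy hy'), cj_dist (δ.r ρ), cj_of ((ok.r_U _ _ _ _).mul_right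
      ((ok.r_comm l l').mul_right (ok.r_C _ _))), ok.r_W l hy'.1, cj_dist, cj_dist, U_conj,
    cj_of ((ok.r_U _ _ _ _).symm.mul_right (δ.C_U _ _ _ _).symm),
    cj_of ((hy'.1.1 _ _ _).symm.mul_right (δ.C_U _ _ _ _).symm), add_assoc c', ← U_C, C_add _ _ (ρ' * σ),
    C_add _ _ (ρ * σ')]
  have k := fun c => ((ok.r_C ρ' c).mul_left (hy'.1.cz c)).eq
  generalize a * b' + a' * b = x
  calc _ = δ.U a' b' c' * δ.C x * (δ.r ρ' * (δ.C (ρ' * σ) * y')) * δ.C (ρ * σ') := by group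
    _ = δ.U a' b' c' * (δ.C x * (δ.r ρ' * y')) * (δ.C (ρ' * σ) * δ.C (ρ * σ')) := by
      rw [← (hy'.1.cz _).eq]; group
    _ = _ := by rw [← k, ← C_add, add_comm (ρ' * σ), C_add _ (ρ * σ')]; group

theorem OK.InD_sq' (ok : δ.OK) {α : F} (hα : ∀ y σ, δ.Wy y σ → y * y = δ.C (α * σ)) {d : G} {v : V4}
    (h : δ.InD d v) : d * d = δ.C (q4 v + α * v.2.2.2) := by
  obtain ⟨a, b, ρ, σ⟩ := v
  obtain ⟨l, c, y, hy, rfl⟩ := h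
  dsimp only [q4] at *
  calc _ = δ.U a b c * δ.r ρ * (y * (δ.U a b c * δ.r ρ) * y⁻¹) * (y * y) := by group
    _ = δ.U a b c * (δ.r ρ * δ.U a b c) * δ.r ρ * δ.C (ρ * σ) * δ.C (α * σ) := by
      rw [cj_dist, cj_of (hy.1.1 _ _ _), hy.1.2.1 ρ l, hα y σ hy]; group
    _ = δ.U a b c * δ.U a b c * (δ.r ρ * δ.r ρ) * δ.C (ρ * σ) * δ.C (α * σ) := by
      rw [(ok.r_U _ _ _ _).eq]; group
    _ = _ := by rw [ok.r_sq l, mul_one, U_mul, SA.two, SA.two, SA.two, zero_add, C_add, C_add]; rfl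

theorem OK.InD_four (ok : δ.OK) {d : G} {v : V4} (h : δ.InD d v) : d ^ 4 = 1 := by
  obtain ⟨α, hα⟩ := ok.Wy_sq_lin
  rw [pow4, ok.InD_sq' hα h, C_sq]

theorem OK.InD_ac (ok : δ.OK) {d : G} {v : V4} (h : δ.InD d v) : δ.Ac d id := fun _ _ h' =>
  ok.InD_comm h h' ▸ ok.InD_mulC h' _

theorem OK.InD_b4 (ok : δ.OK) {d d' : G} {v v' : V4} (h : δ.InD d v) (h' : δ.InD d' v') :
    Commute d d' ↔ b4 v v' = 0 := by
  have := ok.InD_comm h h'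
  refine ⟨fun c => ok.C_inj ?_, fun e => of_cj (by rw [this, e, C_zero, mul_one])⟩
  rw [cj_of c, left_eq_mul] at this
  rw [this, C_zero]

theorem OK.C_K (ok : δ.OK) {c : F} (h : δ.C c ∈ Kc δ.ι) : c = 0 := (ok.U_K h).2.2

theorem OK.InD_K (ok : δ.OK) {d : G} {v : V4} (h : δ.InD d v) (k : d ∈ Kc δ.ι) :
    d = δ.r v.2.2.1 ∧ v = (0, 0, v.2.2.1, 0) := by
  obtain ⟨a, b, ρ, σ⟩ := v
  have h1 := (ok.InD_b4 h (ok.InD_U 0 1 0)).mp (K_U k _ _ _)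
  have h2 := (ok.InD_b4 h (ok.InD_U 1 0 0)).mp (K_U k _ _ _)
  have h3 := ok.C_K ((mul_mem_cancel_left (ok.rK 1)).mp
    (ok.InD_comm h ok.InD_t ▸ Kc_conj (Kc_le_Nn k) (ok.rK 1)))
  simp only [b4, mul_one, mul_zero, zero_mul, add_zero, zero_add, one_mul] at h1 h2 h3
  subst h1 h2 h3
  obtain ⟨c, e⟩ := ok.InD_diff (ok.InD_r h.1) h
  obtain rfl := ok.C_K ((mul_mem_cancel_left (ok.rK _)).mp (e ▸ k))
  exact ⟨by rw [e, C_zero, mul_one], rfl⟩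

theorem OK.InD_Qx (ok : δ.OK) {d : G} {a ρ σ : F} (h : δ.InD d (a, 0, ρ, σ)) : δ.Qx d 0 σ := by
  obtain ⟨l, c, y, hy, rfl⟩ := h
  simpa only [zero_add] using ok.Qx_mul (ok.Qx_V a c l) hy.1.qx

theorem OK.Qx_inD (ok : δ.OK) {x : G} {σ : F} (h : δ.Qx x 0 σ) : ∃ a ρ, δ.InD x (a, 0, ρ, σ) := by
  obtain ⟨y, hy⟩ := ok.exists_Wy σ
  have := ok.Qx_mul h (ok.Qx_inv hy.1.qx)
  rw [SA.two, SA.two] at this
  obtain ⟨a, c, ρ, l, e⟩ := ok.Qx_zero this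
  exact ⟨a, ρ, l, c, y, hy, mul_inv_eq_iff_eq_mul.mp e⟩

theorem OK.h_ac (ok : δ.OK) :
    δ.Ac δ.h fun v => (ω * v.1, ω * v.2.1, v.2.2.1, ω * ω * v.2.2.2) := by
  rintro _ v ⟨l, c, y, hy, rfl⟩
  exact ⟨l, _, _, ok.Wy_h hy, by rw [cj_dist, cj_dist, h_U, cj_of (ok.r_h _).symm]⟩

theorem OK.Ac_uniq (ok : δ.OK) {n : G} {f f' : V4 → V4} (h : δ.Ac n f) (h' : δ.Ac n f') {v : V4}
    (l : Lam δ.e v.2.2.1) : f v = f' v := by
  obtain ⟨d, hd⟩ := ok.exists_InD l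
  exact ok.InD_uniq (h d v hd) (h' d v hd)

theorem OK.Ac_inv (ok : δ.OK) {n : G} {f f' : V4 → V4} (h : δ.Ac n f)
    (e : ∀ v, f' (f v) = v) : δ.Ac n⁻¹ f' := fun d v hd => by
  obtain ⟨w, hw⟩ := h.nd.inv d v hd
  have := h _ _ hw
  rw [← cj_mul, mul_inv_cancel, one_mul, inv_one, mul_one] at this
  rwa [ok.InD_uniq hd this, e]

theorem OK.ND_nz (ok : δ.OK) {n : G} (h : δ.ND n) : δ.NZ n := fun c => by
  obtain ⟨v, hv⟩ := h _ _ (ok.InD_C c)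
  have k : ∀ {d w}, δ.InD d w → b4 v w = 0 := fun {d w} hd => by
    obtain ⟨w', hw⟩ := h.inv d w hd
    rw [← ok.InD_b4 hv hd, ← cm_cj n⁻¹, ← cj_mul, inv_mul_cancel, one_mul, inv_one, mul_one]
    exact (ok.InD_cz hw c).symm
  obtain ⟨y, hy⟩ := ok.exists_Wy 1
  obtain ⟨a, b, ρ, σ⟩ := v
  have h1 := k (ok.InD_U 0 1 0)
  have h2 := k (ok.InD_U 1 0 0)
  have h3 := k ok.InD_t
  have h4 := k (ok.InD_W hy)
  simp only [b4, mul_one, mul_zero, zero_mul, add_zero, zero_add, one_mul] at h1 h2 h3 h4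
  subst h1 h2 h3 h4
  exact ok.InD_zero hv

theorem OK.exists_ac (ok : δ.OK) {n : G} (h : δ.ND n) : ∃ f, δ.Ac n f := by
  have : ∀ v : V4, ∃ w, ∀ d, δ.InD d v → δ.InD (n * d * n⁻¹) w := fun v => by
    by_cases l : Lam δ.e v.2.2.1
    · obtain ⟨d, hd⟩ := ok.exists_InD l
      obtain ⟨w, hw⟩ := h d v hd
      refine ⟨w, fun d' hd' => ?_⟩
      obtain ⟨c, rfl⟩ := ok.InD_diff hd hd'
      obtain ⟨c', e⟩ := ok.ND_nz h c
      rw [cj_dist, e]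
      exact ok.InD_mulC hw _
    · exact ⟨v, fun d hd => absurd hd.1 l⟩
  choose f hf using this
  exact ⟨f, fun d v => hf v d⟩

theorem OK.mem_Dg (ok : δ.OK) {d : G} : d ∈ δ.Dg ↔ ∃ v, δ.InD d v := by
  refine ⟨fun h => ?_, fun h => subset_closure h⟩
  induction h using closure_induction with
  | mem x h => exact h
  | one => exact ⟨0, δ.C_zero ▸ ok.InD_C 0⟩
  | mul x y _ _ hx hy => exact hx.elim fun _ a => hy.elim fun _ b => ⟨_, ok.InD_mul a b⟩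
  | inv x _ hx => exact hx.imp fun _ => ok.InD_inv

theorem OK.mem_Wg (ok : δ.OK) {y : G} : y ∈ δ.Wg ↔ ∃ σ, δ.Wy y σ := by
  refine ⟨fun h => ?_, fun h => subset_closure h⟩
  induction h using closure_induction with
  | mem x h => exact h
  | one => exact ⟨0, ok.Wy_one⟩
  | mul x y _ _ hx hy => exact hx.elim fun _ a => hy.elim fun _ b => ⟨_, ok.Wy_mul a b⟩
  | inv x _ hx => exact hx.imp fun _ => ok.Wy_inv

theorem OK.ND_iff (ok : δ.OK) {n : G} : δ.ND n ↔ n ∈ normalizer (δ.Dg : Set G) := by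
  rw [mem_normalizer_iff]
  simp only [SetLike.mem_coe, ok.mem_Dg]
  refine ⟨fun h d => ⟨fun ⟨v, a⟩ => h d v a, fun ⟨v, a⟩ => ?_⟩, fun h d v a => (h d).mp ⟨v, a⟩⟩
  have := h.inv _ v a
  rwa [← cj_mul, inv_mul_cancel, one_mul, inv_one, mul_one] at this

theorem OK.card_Wg (ok : δ.OK) : Nat.card δ.Wg = 16 := by
  choose s hs using ok.exists_Wy
  have k : ∀ σ c, δ.Wy (s σ * δ.C c) σ := fun σ c => by
    simpa only [add_zero] using ok.Wy_mul (hs σ) (ok.Wy_C c)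
  rw [← Nat.card_eq_of_bijective (fun p : F × F => (⟨_, ok.mem_Wg.mpr ⟨_, k p.1 p.2⟩⟩ : δ.Wg))
    ⟨fun ⟨σ, c⟩ ⟨σ', c'⟩ e => ?_, fun ⟨y, hy⟩ => ?_⟩, Nat.card_eq_fintype_card]
  · rfl
  · have e : s σ * δ.C c = s σ' * δ.C c' := congrArg Subtype.val e
    obtain rfl := ok.Wy_uniq (k σ c) (e ▸ k σ' c')
    rw [ok.C_inj (mul_left_cancel e)]
  · obtain ⟨σ, h⟩ := ok.mem_Wg.mp hy
    obtain ⟨c, rfl⟩ := ok.Wy_diff (hs σ) h
    exact ⟨(σ, c), rfl⟩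

theorem OK.card_Dg (ok : δ.OK) (e : δ.e = true) : Nat.card δ.Dg = 1024 := by
  choose s hs using fun v : V4 => ok.exists_InD (v := v) (Or.inl e)
  rw [← Nat.card_eq_of_bijective
    (fun p : V4 × F => (⟨_, ok.mem_Dg.mpr ⟨_, ok.InD_mulC (hs p.1) p.2⟩⟩ : δ.Dg))
    ⟨fun ⟨σ, c⟩ ⟨σ', c'⟩ e => ?_, fun ⟨y, hy⟩ => ?_⟩]
  · simp only [Nat.card_eq_fintype_card, Fintype.card_prod, F4.card_eq]
  · have e : s σ * δ.C c = s σ' * δ.C c' := congrArg Subtype.val e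
    obtain rfl := ok.InD_uniq (ok.InD_mulC (hs σ) c) (e ▸ ok.InD_mulC (hs σ') c')
    rw [ok.C_inj (mul_left_cancel e)]
  · obtain ⟨σ, h⟩ := ok.mem_Dg.mp hy
    obtain ⟨c, rfl⟩ := ok.InD_diff (hs σ) h
    exact ⟨(σ, c), rfl⟩

theorem OK.two_Dg (ok : δ.OK) : IsPGroup 2 δ.Dg := fun ⟨_, hd⟩ =>
  (ok.mem_Dg.mp hd).elim fun _ h => ⟨2, Subtype.ext (ok.InD_four h)⟩

theorem OK.InD_T (ok : δ.OK) {d : G} {a b : F} (h : δ.InD d (a, b, 0, 0)) : ∃ c, d = δ.U a b c := by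
  obtain ⟨c, e⟩ := ok.InD_diff (ok.InD_U a b 0) h
  exact ⟨_, e.trans (δ.U_C _ _ _ _)⟩

/-- move `t · C c` back to `t` -/
theorem OK.fix_t (ok : δ.OK) {n : G} {c : F} (e : n * δ.t * n⁻¹ = δ.t * δ.C c) :
    ∃ y, δ.Wy y c ∧ Commute (y⁻¹ * n) δ.t := by
  obtain ⟨y, hy⟩ := ok.exists_Wy c
  have := hy.1.2.1 1 (lam_one _)
  rw [one_mul] at this
  exact ⟨y, hy, of_cj (by rw [cj_mul, e, t, ← this]; group)⟩

theorem OK.ker (ok : δ.OK) {n : G} (hZ : δ.CZ n) (h : δ.Ac n id) :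
    ∃ d v o, δ.InD d v ∧ δ.Od o ∧ n = d * o := by
  obtain ⟨c, e⟩ := ok.InD_diff ok.InD_t (h _ _ ok.InD_t)
  obtain ⟨y, hy, k⟩ := ok.fix_t e
  have a1 := (ok.InD_ac (ok.InD_inv (ok.InD_W hy))).mul h
  obtain ⟨a, b, c', k', hk, e'⟩ := ok.hy.cT (ok.cent_r (lam_one _) one_ne_zero k) fun a b =>
    ok.InD_T (a1 _ _ (ok.InD_U a b 0))
  have a2 := (ok.InD_ac (ok.InD_inv (ok.InD_U a b c'))).mul a1
  rw [e', U, inv_mul_cancel_left] at a2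
  obtain ⟨o, ρ, ho, l, rfl⟩ := ok.cR hk fun ρ l =>
    of_cj (ok.InD_K (a2 _ _ (ok.InD_r l)) (Kc_conj (Kc_le_Nn hk) (ok.rK ρ))).1
  exact ⟨_, _, o, ok.InD_mul (ok.InD_W hy) (ok.InD_mul (ok.InD_U a b c') (ok.InD_r l)), ho, by
    rw [inv_mul_eq_iff_eq_mul.mp e', (ho.2.1 ρ l).eq, mul_assoc, mul_assoc]; rfl⟩

theorem OK.ker2 (ok : δ.OK) {n : G} (hZ : δ.CZ n) (h : δ.Ac n id) {k : ℕ} (e : n ^ 2 ^ k = 1) :
    ∃ v, δ.InD n v := by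
  obtain ⟨d, v, o, hd, ho, rfl⟩ := ok.ker hZ h
  rw [ho.eq_one (hd.co o ho) (n := 2 + k) (by rw [pow_add, pow_mul]; erw [ok.InD_four hd, one_pow])
    (by rw [pow_add, mul_comm, pow_mul, e, one_pow]), mul_one]
  exact ⟨v, hd⟩

end Dat

end Cfsg.Agent.LT
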