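import Cfsg.Agent.LT.Tr3

/-! The action of `Q₁` on `D / Z` (notes/LX.md). -/

set_option autoImplicit false

namespace Cfsg.Agent.LT

open Subgroup H29 LS
open scoped commutatorElement

theorem bi_of {A : F → F → F} (h₁ : ∀ x y z, A (x + y) z = A x z + A y z)
    (h₂ : ∀ x y z, A x (y + z) = A x y + A x z) (e : ∀ x y, A (ω * x) (ω * ω * y) = ω * A x y)
    (x y : F) : A x y = A 1 1 * (x * x) * y := by
  have z₁ : ∀ y, A 0 y = 0 := fun y => by simpa only [SA.two] using h₁ 0 0 y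
  have z₂ : ∀ x, A x 0 = 0 := fun x => by simpa only [SA.two] using h₂ x 0 0
  have e₁ : A ω (ω + 1) = _ := e 1 1
  have e₂ : A ω 1 = _ := e 1 ω
  have e₃ : A (ω + 1) (ω + 1) = _ := e ω 1
  simp only [h₁, h₂] at e₁ e₃
  rcases F4c x with rfl | rfl | rfl | rfl <;> rcases F4c y with rfl | rfl | rfl | rfl <;>
    (try simp only [h₁, h₂, z₁, z₂]) <;> revert e₁ e₂ e₃ <;> generalize A 1 1 = p <;>
    generalize A 1 ω = q <;> generalize A ω 1 = r <;> generalize A ω ω = s <;> revert p q r s <;> decide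

namespace Dat

variable {G : Type*} [Group G] [Finite G] {δ : Dat G}

theorem OK.act0 (ok : δ.OK) : ∃ k, ∀ x μ σ y σ', δ.Qx x μ σ → δ.Wy y σ' →
    δ.InD (x * y * x⁻¹) (k * (μ * μ) * σ', 0, 0, σ') := by
  have b : ∀ {x μ σ y σ'}, δ.Qx x μ σ → δ.Wy y σ' → ∃ a c, x * y * x⁻¹ = δ.U a 0 c * y :=
    fun h hy => by
      obtain ⟨a, c, e⟩ := ok.Qx_comm h hy.1.qx
      exact ⟨a, c, by rw [← e, commutatorElement_def, inv_mul_cancel_right]⟩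
  have i : ∀ {y σ'} a c, δ.Wy y σ' → δ.InD (δ.U a 0 c * y) (a, 0, 0, σ') := fun a c hy => by
    simpa only [Prod.mk_add_mk, add_zero, zero_add] using ok.InD_mul (ok.InD_U a 0 c) (ok.InD_W hy)
  have : ∀ μ σ', ∃ a, ∀ x σ y, δ.Qx x μ σ → δ.Wy y σ' → δ.InD (x * y * x⁻¹) (a, 0, 0, σ') :=
    fun μ σ' => by
      obtain ⟨X, hX⟩ := ok.exists_Qx μ 0
      obtain ⟨Y, hY⟩ := ok.exists_Wy σ'
      obtain ⟨a, c, e⟩ := b hX hY
      refine ⟨a, fun x σ y h hy => ?_⟩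
      have q := ok.Qx_mul (ok.Qx_inv hX) h
      rw [SA.two] at q
      obtain ⟨a', ρ, hd⟩ := ok.Qx_inD q
      obtain ⟨c', rfl⟩ := ok.Wy_diff hY hy
      rw [← mul_inv_cancel_left X x, cj_mul, ok.InD_comm hd (ok.InD_W hy), mul_assoc Y, ← C_add, cj_dist,
        e, cj_of (hX.cz _)]
      exact ok.InD_mulC (i a c hY) _
  choose A hA using this
  choose X hX using fun μ => ok.exists_Qx μ 0
  choose Y hY using ok.exists_Wy
  refine ⟨A 1 1, fun x μ σ y σ' h hy => bi_of (A := A) (fun μ μ' s => ?_) (fun μ s s' => ?_)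
    (fun μ s => ?_) μ σ' ▸ hA μ σ' x σ y h hy⟩
  · have h1 := hA _ _ _ _ _ (ok.Qx_mul (hX μ) (hX μ')) (hY s)
    obtain ⟨a, c, e⟩ := b (hX μ') (hY s)
    have h2 := ok.InD_uniq (e ▸ hA _ _ _ _ _ (hX μ') (hY s)) (i a c (hY s))
    rw [cj_mul, e, cj_dist, cj_of ((hX μ).1.1 _ _)] at h1
    have h3 := ok.InD_uniq h1 (ok.InD_mul (ok.InD_U a 0 c) (hA _ _ _ _ _ (hX μ) (hY s)))
    simp only [Prod.mk_add_mk, Prod.mk.injEq] at h2 h3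
    rw [h3.1, h2.1, add_comm]
  · have h1 := hA _ _ _ _ _ (hX μ) (ok.Wy_mul (hY s) (hY s'))
    rw [cj_dist] at h1
    exact congrArg Prod.fst (ok.InD_uniq h1
      (ok.InD_mul (hA _ _ _ _ _ (hX μ) (hY s)) (hA _ _ _ _ _ (hX μ) (hY s'))))
  · have h1 := hA _ _ _ _ _ (ok.Qx_h (hX μ)) (ok.Wy_h (hY s))
    rw [conj_inv, conj_mul, conj_mul] at h1
    exact congrArg Prod.fst (ok.InD_uniq h1 (ok.h_ac _ _ (hA _ _ _ _ _ (hX μ) (hY s))))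

theorem OK.act1 (ok : δ.OK) {k : F} (hk : ∀ x μ σ y σ', δ.Qx x μ σ → δ.Wy y σ' →
    δ.InD (x * y * x⁻¹) (k * (μ * μ) * σ', 0, 0, σ')) {x : G} {μ σ : F} (h : δ.Qx x μ σ) (b : F) :
    ∃ a, δ.InD (x * δ.U 0 b 0 * x⁻¹) (a, b, k * (μ * μ) * b, μ * b) := by
  have q := ok.Qx_mul h (ok.Qx_U (ok.Qx_inv h) 0 b 0)
  rw [SA.two, ← add_assoc, SA.two, zero_add] at q
  obtain ⟨a, ρ, hd⟩ := ok.Qx_inD q
  have h1 := ok.InD_mul hd (ok.InD_U 0 b 0)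
  rw [show x * (δ.U 0 b 0 * x⁻¹ * (δ.U 0 b 0)⁻¹) * δ.U 0 b 0 = x * δ.U 0 b 0 * x⁻¹ by group] at h1
  simp only [Prod.mk_add_mk, add_zero, zero_add] at h1
  obtain ⟨y, hy⟩ := ok.exists_Wy 1
  have h2 := (ok.InD_b4 h1 (hk x μ σ y 1 h hy)).mp ((cm_cj x _ _).mpr (hy.1.1 _ _ _).symm)
  simp only [b4, mul_zero, mul_one, zero_mul, add_zero, zero_add] at h2
  refine ⟨a, ?_⟩
  rwa [(by decide : ∀ a b : F, a + b = 0 → a = b) _ _ h2]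

theorem OK.Wy_sq (ok : δ.OK) {y : G} {σ : F} (h : δ.Wy y σ) : y * y = 1 := by
  obtain ⟨α, hα⟩ := ok.Wy_sq_lin
  obtain ⟨k, hk⟩ := ok.act0
  obtain ⟨x, hx⟩ := ok.exists_Qx 1 0
  have s : ∀ {b a}, δ.InD (x * δ.U 0 b 0 * x⁻¹) (a, b, k * (1 * 1) * b, 1 * b) →
      a * b + k * (1 * 1) * b * (1 * b) + α * (1 * b) = 0 := fun {b a} hd => ok.C_inj (by
    have := ok.InD_sq' hα hd
    rw [conj_mul, ← U_add2, SA.two, U_zero, mul_one, mul_inv_cancel] at this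
    rw [C_zero]; exact this.symm)
  obtain ⟨a₁, h₁⟩ := ok.act1 hk hx 1
  obtain ⟨a₂, h₂⟩ := ok.act1 hk hx ω
  obtain ⟨a₃, h₃⟩ := ok.act1 hk hx (1 + ω)
  have e := ok.InD_mul h₁ h₂
  rw [conj_mul, ← U_add2] at e
  obtain rfl : a₃ = a₁ + a₂ := congrArg Prod.fst (ok.InD_uniq h₃ e)
  have : α = 0 := by
    have s₁ := s h₁
    have s₂ := s h₂
    have s₃ := s h₃
    clear s h₁ h₂ h₃ e hk hα
    revert α k a₁ a₂
    decide
  rw [hα y σ h, this, zero_mul, C_zero]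

theorem OK.InD_sq (ok : δ.OK) {d : G} {v : V4} (h : δ.InD d v) : d * d = δ.C (q4 v) := by
  rw [ok.InD_sq' (α := 0) (fun y σ hy => by rw [ok.Wy_sq hy, zero_mul, C_zero]) h, zero_mul, add_zero]

theorem OK.act (ok : δ.OK) : ∃ k, (δ.e = false → k = 0) ∧ ∀ x μ σ, δ.Qx x μ σ → δ.Ac x (f1 k μ) := by
  obtain ⟨k, hk⟩ := ok.act0
  refine ⟨k, fun e => ?_, fun x μ σ h => ?_⟩
  · obtain ⟨x, hx⟩ := ok.exists_Qx 1 0
    obtain ⟨a₁, h₁, -⟩ := ok.act1 hk hx 1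
    obtain ⟨a₂, h₂, -⟩ := ok.act1 hk hx ω
    rw [e] at h₁ h₂
    dsimp only at h₁ h₂
    clear hk
    revert k
    decide
  rintro _ ⟨a, b, ρ, s⟩ ⟨l, c, y, hy, rfl⟩
  obtain ⟨a', h1⟩ := ok.act1 hk h b
  have e : a' = k * (μ * μ * μ) * b := by
    by_cases hb : b = 0
    · subst hb
      rw [U_zero, mul_one, mul_inv_cancel] at h1
      rw [mul_zero]; exact congrArg Prod.fst (ok.InD_one h1)
    have := ok.InD_sq h1
    rw [conj_mul, ← U_add2, SA.two, U_zero, mul_one, mul_inv_cancel, ← δ.C_zero] at this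
    exact (by decide : ∀ a' k μ b : F, b ≠ 0 → 0 = a' * b + k * (μ * μ) * b * (μ * b) →
      a' = k * (μ * μ * μ) * b) _ _ _ _ hb (ok.C_inj this)
  have := ok.InD_mul (ok.InD_mul (ok.InD_mulC (ok.InD_mul (ok.InD_U a 0 0) h1) (c + a * b))
    (ok.InD_mul (ok.InD_r l) (ok.InD_U (ρ * μ) 0 (ρ * σ)))) (hk x μ σ y s h hy)
  dsimp only at l hy ⊢
  rw [δ.U_split a b c, cj_dist, cj_dist, cj_dist, cj_dist, cj_of (h.1.1 _ _), cj_of (h.cz _), h.1.2 ρ l]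
  convert this using 1
  simp only [f1, e, Prod.mk_add_mk, Prod.mk.injEq]
  refine ⟨by ring, by ring, by ring, by ring⟩

theorem OK.exists_Kk (ok : δ.OK) : ∃ k₁ k₂, δ.Kk k₁ k₂ ∧ (δ.e = false → k₁ = 0 ∧ k₂ = 0) := by
  obtain ⟨k₁, e₁, h₁⟩ := ok.act
  obtain ⟨k₂, e₂, h₂⟩ := ok.sw.act
  exact ⟨k₁, k₂, ⟨ok, h₁, fun x μ σ h => (sw_Ac ok x _).mp (h₂ x μ σ h)⟩, fun e => ⟨e₁ e, e₂ e⟩⟩

theorem OK.Ac_add (ok : δ.OK) (e : δ.e = true) {n : G} {f : V4 → V4} (h : δ.Ac n f) (v w : V4) :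
    f (v + w) = f v + f w := by
  obtain ⟨d, hd⟩ := ok.exists_InD (v := v) (Or.inl e)
  obtain ⟨d', hd'⟩ := ok.exists_InD (v := w) (Or.inl e)
  exact ok.InD_uniq (h _ _ (ok.InD_mul hd hd')) (cj_dist n d d' ▸ ok.InD_mul (h _ _ hd) (h _ _ hd'))

theorem OK.Ac_q4 (ok : δ.OK) (e : δ.e = true) {n : G} {f : V4 → V4} (h : δ.Ac n f) {φ : F → F}
    (hφ : ∀ c, n * δ.C c * n⁻¹ = δ.C (φ c)) (v : V4) : q4 (f v) = φ (q4 v) := by
  obtain ⟨d, hd⟩ := ok.exists_InD (v := v) (Or.inl e)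
  exact ok.C_inj (by rw [← ok.InD_sq (h _ _ hd), conj_mul, ok.InD_sq hd, hφ])

theorem OK.Ac_b4 (ok : δ.OK) (e : δ.e = true) {n : G} {f : V4 → V4} (h : δ.Ac n f) {φ : F → F}
    (hφ : ∀ c, n * δ.C c * n⁻¹ = δ.C (φ c)) (v w : V4) : b4 (f v) (f w) = φ (b4 v w) := by
  obtain ⟨d, hd⟩ := ok.exists_InD (v := v) (Or.inl e)
  obtain ⟨d', hd'⟩ := ok.exists_InD (v := w) (Or.inl e)
  have := ok.InD_comm (h _ _ hd) (h _ _ hd')
  rw [conj_inv, conj_mul, conj_mul, ok.InD_comm hd hd', cj_dist, hφ, mul_right_inj] at this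
  exact (ok.C_inj this).symm

end Dat

end Cfsg.Agent.LT
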